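import Mathlib

/-!
# Root calculus for groups generated by transvections over `ZMod p`

Shared definitions and basic API for S5075 (McLaughlin's theorem over the prime field).

A *root* of a subgroup `G` of `GL(V)` is a pair `(a, φ)`, `a : V`, `φ : Dual V`, both non-zero,
with `φ a = 0`, such that `G` contains the transvection `x ↦ x + φ x • a`.
-/

set_option autoImplicit false

namespace Cfsg.Agent.H85.McL

open Module

variable {p : ℕ} [Fact p.Prime] {V : Type*} [AddCommGroup V] [Module (ZMod p) V]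

/-- `(a, φ)` is a root of `G`: `G` contains the transvection `x ↦ x + φ x • a`. -/
def Root (G : Subgroup (V ≃ₗ[ZMod p] V)) (a : V) (φ : Dual (ZMod p) V) : Prop :=
  a ≠ 0 ∧ φ ≠ 0 ∧ φ a = 0 ∧ ∃ g ∈ G, ∀ x, g x = x + φ x • a

/-- Every root has an opposite root. -/
def HasOpp (G : Subgroup (V ≃ₗ[ZMod p] V)) : Prop :=
  ∀ a φ, Root G a φ → ∃ b ψ, Root G b ψ ∧ ψ a ≠ 0 ∧ φ b ≠ 0

/-- Two roots are adjacent if the transvections do not commute. -/
def Adj (G : Subgroup (V ≃ₗ[ZMod p] V)) (r s : V × Dual (ZMod p) V) : Prop :=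
  Root G r.1 r.2 ∧ Root G s.1 s.2 ∧ (s.2 r.1 ≠ 0 ∨ r.2 s.1 ≠ 0)

/-- Any two roots are joined by a chain of adjacent roots. -/
def Conn (G : Subgroup (V ≃ₗ[ZMod p] V)) : Prop :=
  ∀ r s : V × Dual (ZMod p) V, Root G r.1 r.2 → Root G s.1 s.2 →
    Relation.ReflTransGen (Adj G) r s

/-- The span of the centers of the roots of `G`. -/
def centers (G : Subgroup (V ≃ₗ[ZMod p] V)) : Submodule (ZMod p) V :=
  Submodule.span (ZMod p) {a | ∃ φ, Root G a φ}

/-- The span of the axes (as linear forms) of the roots of `G`. -/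
def axes (G : Subgroup (V ≃ₗ[ZMod p] V)) : Submodule (ZMod p) (Dual (ZMod p) V) :=
  Submodule.span (ZMod p) {φ | ∃ a, Root G a φ}

/-- The common kernel of the axes of the roots of `G` (the fixed points of the root elements). -/
def rootKer (G : Subgroup (V ≃ₗ[ZMod p] V)) : Submodule (ZMod p) V where
  carrier := {v | ∀ b ψ, Root G b ψ → ψ v = 0}
  add_mem' := by
    intro x y hx hy b ψ h
    rw [map_add, hx b ψ h, hy b ψ h, add_zero]
  zero_mem' := by
    intro b ψ _
    exact map_zero ψ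
  smul_mem' := by
    intro k x hx b ψ h
    rw [map_smul, hx b ψ h, smul_zero]

theorem mem_rootKer {G : Subgroup (V ≃ₗ[ZMod p] V)} {v : V} :
    v ∈ rootKer G ↔ ∀ b ψ, Root G b ψ → ψ v = 0 := Iff.rfl

/-- The set of root elements (transvections attached to the roots) of `G`. -/
def rootElems (G : Subgroup (V ≃ₗ[ZMod p] V)) : Set (V ≃ₗ[ZMod p] V) :=
  {g | ∃ a φ, Root G a φ ∧ ∀ x, g x = x + φ x • a}

/-- `(X, Y)` is a full non-degenerate pair: `X ≤ V`, `Y ≤ Dual V` are non-degenerately paired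
and every incident pair `(x, y)`, `x ∈ X`, `y ∈ Y`, is a root of `G`. -/
def Full (G : Subgroup (V ≃ₗ[ZMod p] V)) (X : Submodule (ZMod p) V)
    (Y : Submodule (ZMod p) (Dual (ZMod p) V)) : Prop :=
  (∀ x ∈ X, (∀ y ∈ Y, y x = 0) → x = 0) ∧ (∀ y ∈ Y, (∀ x ∈ X, y x = 0) → y = 0) ∧
    ∀ x ∈ X, ∀ y ∈ Y, x ≠ 0 → y ≠ 0 → y x = 0 → Root G x y

/-- A symplectic full structure: on `X` the map `J` is alternating and non-degenerate, every
`(x, J x)`, `x ∈ X` non-zero, is a root, `V = X + X'` for `X' = {w | ∀ y ∈ X, J y w = 0}`, and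
`J` vanishes on `X'`. -/
structure SpFull (G : Subgroup (V ≃ₗ[ZMod p] V)) (X : Submodule (ZMod p) V)
    (J : V →ₗ[ZMod p] Dual (ZMod p) V) : Prop where
  alt : ∀ x ∈ X, J x x = 0
  nondeg : ∀ x ∈ X, x ≠ 0 → ∃ x' ∈ X, J x x' ≠ 0
  root : ∀ x ∈ X, x ≠ 0 → Root G x (J x)
  compl : ∀ v : V, ∃ x ∈ X, ∀ y ∈ X, J y (v - x) = 0
  ker : ∀ w : V, (∀ y ∈ X, J y w = 0) → J w = 0

section API

variable {G : Subgroup (V ≃ₗ[ZMod p] V)} {a b c : V} {φ ψ χ : Dual (ZMod p) V}

theorem root_of_mem {g : V ≃ₗ[ZMod p] V} (hg : g ∈ G) (h : ∀ x, g x = x + φ x • a)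
    (ha : a ≠ 0) (hφ : φ ≠ 0) (h0 : φ a = 0) : Root G a φ :=
  ⟨ha, hφ, h0, g, hg, h⟩

theorem pow_tv {g : V ≃ₗ[ZMod p] V} (h : ∀ x, g x = x + φ x • a) (h0 : φ a = 0) (n : ℕ)
    (x : V) : (g ^ n) x = x + ((n : ZMod p) * φ x) • a := by
  induction n generalizing x with
  | zero => simp
  | succ n ih =>
    rw [pow_succ, LinearEquiv.mul_apply, ih, h]
    have : φ (x + φ x • a) = φ x := by
      rw [map_add, map_smul, h0, smul_zero, add_zero]
    rw [this]
    push_cast
    module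

theorem Root.smul_right (h : Root G a φ) {k : ZMod p} (hk : k ≠ 0) : Root G a (k • φ) := by
  obtain ⟨ha, hφ, h0, g, hg, hgx⟩ := h
  refine ⟨ha, smul_ne_zero hk hφ, ?_, g ^ k.val, G.pow_mem hg _, ?_⟩
  · rw [LinearMap.smul_apply, h0, smul_zero]
  · intro x
    rw [pow_tv hgx h0, ZMod.natCast_zmod_val, LinearMap.smul_apply, smul_eq_mul]

theorem Root.smul_left (h : Root G a φ) {k : ZMod p} (hk : k ≠ 0) : Root G (k • a) φ := by
  obtain ⟨ha', hφ', h0', g, hg, hgx⟩ := h.smul_right hk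
  refine ⟨smul_ne_zero hk h.1, h.2.1, ?_, g, hg, ?_⟩
  · rw [map_smul, h.2.2.1, smul_zero]
  · intro x
    rw [hgx, LinearMap.smul_apply, smul_eq_mul, mul_comm, mul_smul]

theorem Root.smul_smul (h : Root G a φ) {k l : ZMod p} (hk : k ≠ 0) (hl : l ≠ 0) :
    Root G (k • a) (l • φ) :=
  (h.smul_left hk).smul_right hl

theorem Root.neg_right (h : Root G a φ) : Root G a (-φ) := by
  have := h.smul_right (k := -1) (neg_ne_zero.2 one_ne_zero)
  have e : (-1 : ZMod p) • φ = -φ := by module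
  rwa [e] at this

theorem Root.neg_left (h : Root G a φ) : Root G (-a) φ := by
  have := h.smul_left (k := -1) (neg_ne_zero.2 one_ne_zero)
  have e : (-1 : ZMod p) • a = -a := by module
  rwa [e] at this

theorem Root.add_right (h : Root G a φ) (h' : Root G a ψ) (hne : φ + ψ ≠ 0) :
    Root G a (φ + ψ) := by
  obtain ⟨ha, -, h0, g, hg, hgx⟩ := h
  obtain ⟨-, -, h0', g', hg', hgx'⟩ := h'
  refine ⟨ha, hne, ?_, g * g', G.mul_mem hg hg', ?_⟩
  · rw [LinearMap.add_apply, h0, h0', add_zero]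
  · intro x
    rw [LinearEquiv.mul_apply, hgx', hgx, map_add, map_smul, h0, smul_zero, add_zero,
      LinearMap.add_apply]
    module

theorem Root.add_left (h : Root G a φ) (h' : Root G b φ) (hne : a + b ≠ 0) :
    Root G (a + b) φ := by
  obtain ⟨-, hφ, h0, g, hg, hgx⟩ := h
  obtain ⟨-, -, h0', g', hg', hgx'⟩ := h'
  refine ⟨hne, hφ, ?_, g * g', G.mul_mem hg hg', ?_⟩
  · rw [map_add, h0, h0', add_zero]
  · intro x
    rw [LinearEquiv.mul_apply, hgx', hgx, map_add, map_smul, h0', smul_zero, add_zero]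
    module

/-- Conjugating a root by an element of `G`. -/
theorem Root.map (h : Root G a φ) {g : V ≃ₗ[ZMod p] V} (hg : g ∈ G) :
    Root G (g a) (φ ∘ₗ (g.symm : V →ₗ[ZMod p] V)) := by
  obtain ⟨ha, hφ, h0, t, ht, htx⟩ := h
  refine ⟨?_, ?_, ?_, g * t * g⁻¹, G.mul_mem (G.mul_mem hg ht) (G.inv_mem hg), ?_⟩
  · intro h
    exact ha (by simpa using h)
  · intro h
    apply hφ
    ext x
    have := congrArg (fun f : Dual (ZMod p) V => f (g x)) h
    simpa using this
  · simp [h0]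
  · intro x
    rw [LinearEquiv.mul_apply, LinearEquiv.mul_apply, htx, map_add, map_smul]
    simp

/-- Conjugating the root `(a, φ)` by the transvection of the root `(b, ψ)`. -/
theorem Root.conj (h : Root G a φ) (h' : Root G b ψ) :
    Root G (a + ψ a • b) (φ - φ b • ψ) := by
  obtain ⟨hb, hψ, h0', g, hg, hgx⟩ := h'
  have h1 := h.map hg
  have e1 : g a = a + ψ a • b := hgx a
  have hsymm : ∀ x, g.symm x = x - ψ x • b := by
    intro x
    apply g.injective
    rw [LinearEquiv.apply_symm_apply, hgx, map_sub, map_smul, h0']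
    module
  have e2 : φ ∘ₗ (g.symm : V →ₗ[ZMod p] V) = φ - φ b • ψ := by
    ext x
    simp only [LinearMap.comp_apply, LinearEquiv.coe_coe, hsymm, map_sub, map_smul,
      LinearMap.sub_apply, LinearMap.smul_apply, smul_eq_mul]
    ring
  rw [e1, e2] at h1
  exact h1

/-- If `φ b ≠ 0` and `ψ a = 0` then `(a, ψ)` is a root (a commutator). -/
theorem Root.swap_axis (h : Root G a φ) (h' : Root G b ψ) (h1 : φ b ≠ 0) (h2 : ψ a = 0) :
    Root G a ψ := by
  have hc := h.conj h'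
  rw [h2, zero_smul, add_zero] at hc
  have hs : -φ + (φ - φ b • ψ) = (-φ b) • ψ := by module
  have hne : -φ + (φ - φ b • ψ) ≠ 0 := by
    rw [hs]
    exact smul_ne_zero (neg_ne_zero.2 h1) h'.2.1
  have h3 := h.neg_right.add_right hc hne
  rw [hs] at h3
  have h4 := h3.smul_right (k := (-φ b)⁻¹) (inv_ne_zero (neg_ne_zero.2 h1))
  rwa [_root_.smul_smul, inv_mul_cancel₀ (neg_ne_zero.2 h1), one_smul] at h4

/-- If `ψ a ≠ 0` and `φ b = 0` then `(b, φ)` is a root. -/
theorem Root.swap_center (h : Root G a φ) (h' : Root G b ψ) (h1 : ψ a ≠ 0) (h2 : φ b = 0) :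
    Root G b φ :=
  h'.swap_axis h h1 h2

/-- For opposite roots `(a, φ)`, `(b, ψ)` the group contains the element acting as `-1` on
`span {a, b}` and trivially on `ker φ ⊓ ker ψ`. -/
theorem exists_neg_one (h : Root G a φ) (h' : Root G b ψ) (h1 : φ b ≠ 0) (h2 : ψ a ≠ 0) :
    ∃ z ∈ G, ∀ x, z x = x - (2 * ψ x / ψ a) • a - (2 * φ x / φ b) • b := by
  obtain ⟨-, -, -, u, hu, hux⟩ := h.smul_right (k := (φ b)⁻¹) (inv_ne_zero h1)
  obtain ⟨-, -, -, l, hl, hlx⟩ := h'.smul_right (k := -(ψ a)⁻¹) (neg_ne_zero.2 (inv_ne_zero h2))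
  have ha0 := h.2.2.1
  have hb0 := h'.2.2.1
  have hw : ∀ x, (u * l * u) x =
      x + (φ x / φ b - ψ x / ψ a) • a - (φ x / φ b + ψ x / ψ a) • b := by
    intro x
    simp only [LinearEquiv.mul_apply, hux, hlx, map_add, map_smul, LinearMap.smul_apply,
      smul_eq_mul, ha0]
    match_scalars <;> field_simp <;> ring
  refine ⟨(u * l * u) * (u * l * u), G.mul_mem (G.mul_mem (G.mul_mem hu hl) hu)
    (G.mul_mem (G.mul_mem hu hl) hu), ?_⟩
  intro x
  rw [LinearEquiv.mul_apply, hw x, hw]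
  simp only [map_add, map_sub, map_smul, smul_eq_mul, ha0, hb0]
  match_scalars <;> field_simp <;> ring

/-- **Projection lemma.** Let `(a, φ)`, `(b, ψ)` be opposite roots and `(c, χ)` a root commuting
with `(a, φ)`. Then the projection of `(c, χ)` along `span {a, b}` is a root (when non-zero). -/
theorem Root.proj (hp2 : p ≠ 2) (h : Root G a φ) (h' : Root G b ψ) (h1 : φ b ≠ 0)
    (h2 : ψ a ≠ 0) (hc : Root G c χ) (hc1 : φ c = 0) (hc2 : χ a = 0)
    (hne1 : c - (ψ c / ψ a) • a ≠ 0) (hne2 : χ - (χ b / φ b) • φ ≠ 0) :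
    Root G (c - (ψ c / ψ a) • a) (χ - (χ b / φ b) • φ) := by
  have h2ne : (2 : ZMod p) ≠ 0 := by
    intro h2z
    have h3 : ((2 : ℕ) : ZMod p) = 0 := by exact_mod_cast h2z
    rw [ZMod.natCast_eq_zero_iff] at h3
    have hpp : p.Prime := Fact.out
    exact hp2 ((Nat.prime_dvd_prime_iff_eq hpp Nat.prime_two).1 h3)
  obtain ⟨z, hz, hzx⟩ := exists_neg_one h h' h1 h2
  obtain ⟨-, -, hcc, t, ht, htx⟩ := hc
  have ha0 := h.2.2.1
  have hb0 := h'.2.2.1
  -- the product `t * z * t * z`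
  have hprod : ∀ x, (t * z * t * z) x = x + (2 * χ x - 2 * (χ b / φ b) * φ x) • c
      - (2 * (ψ c / ψ a) * (χ x - 2 * (χ b / φ b) * φ x)) • a := by
    intro x
    simp only [LinearEquiv.mul_apply, htx, hzx, map_add, map_sub, map_smul, smul_eq_mul,
      ha0, hb0, hc1, hc2, hcc]
    match_scalars <;> field_simp <;> ring
  -- correct by a power of the transvection of `(a, φ)`
  have key : ∃ g ∈ G, ∀ x, g x = x + ((2 : ZMod p) • (χ - (χ b / φ b) • φ)) x •
      (c - (ψ c / ψ a) • a) := by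
    by_cases hs : -(2 * (ψ c / ψ a) * (χ b / φ b)) = 0
    · refine ⟨t * z * t * z, G.mul_mem (G.mul_mem (G.mul_mem ht hz) ht) hz, ?_⟩
      intro x
      rw [hprod]
      simp only [LinearMap.smul_apply, LinearMap.sub_apply, smul_eq_mul]
      have hs' : 2 * (ψ c / ψ a) * (χ b / φ b) = 0 := by
        rw [neg_eq_zero] at hs; exact hs
      match_scalars
      all_goals first | ring1 | linear_combination (φ x) * hs'
    · obtain ⟨-, -, -, s, hs1, hsx⟩ := h.smul_right hs
      refine ⟨s * (t * z * t * z), G.mul_mem hs1 (G.mul_mem (G.mul_mem (G.mul_mem ht hz) ht) hz),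
        ?_⟩
      intro x
      rw [LinearEquiv.mul_apply, hsx, hprod]
      simp only [LinearMap.smul_apply, LinearMap.sub_apply, smul_eq_mul, map_add, map_sub,
        map_smul, ha0, hc1]
      match_scalars <;> ring
  obtain ⟨g, hg, hgx⟩ := key
  have hr : Root G (c - (ψ c / ψ a) • a) ((2 : ZMod p) • (χ - (χ b / φ b) • φ)) := by
    refine root_of_mem hg hgx hne1 (smul_ne_zero h2ne hne2) ?_
    simp only [LinearMap.smul_apply, LinearMap.sub_apply, smul_eq_mul, map_sub, map_smul, ha0,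
      hc1, hc2, hcc]
    ring
  have := hr.smul_right (k := (2 : ZMod p)⁻¹) (inv_ne_zero h2ne)
  rwa [_root_.smul_smul, inv_mul_cancel₀ h2ne, one_smul] at this

end API

end Cfsg.Agent.H85.McL
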