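import Mathlib

/-!
# Steinberg relations for `SL₂` over a prime field

Two families `xa, xb : F → G` of elements of a group, additive in the parameter, with
`n(t) xa(s) n(t)⁻¹ = xb(-s/t²)` and `n(t) xb(s) n(t)⁻¹ = xa(-s t²)` for
`n(t) = xa(t) xb(-t⁻¹) xa(t)`.  Over `F = ZMod p` we show that `h(t) = n(t) n(1)⁻¹` is
multiplicative and that every element of the group generated has a Bruhat normal form.
-/

set_option autoImplicit false

namespace Cfsg.Agent.H85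

variable {G : Type*} [Group G] {F : Type*} [Field F]

/-- `n(t) = xa(t) xb(-t⁻¹) xa(t)`. -/
def stN (xa xb : F → G) (t : F) : G := xa t * xb (-t⁻¹) * xa t

/-- `h(t) = n(t) n(1)⁻¹`. -/
def stH (xa xb : F → G) (t : F) : G := stN xa xb t * (stN xa xb 1)⁻¹

/-- The Steinberg relations. -/
structure IsSteinberg (xa xb : F → G) : Prop where
  add_a : ∀ s t, xa (s + t) = xa s * xa t
  add_b : ∀ s t, xb (s + t) = xb s * xb t
  conj_a : ∀ t, t ≠ 0 → ∀ s, stN xa xb t * xa s * (stN xa xb t)⁻¹ = xb (-(s / t ^ 2))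
  conj_b : ∀ t, t ≠ 0 → ∀ s, stN xa xb t * xb s * (stN xa xb t)⁻¹ = xa (-(s * t ^ 2))

namespace IsSteinberg

variable {xa xb : F → G}

section Basic

variable (hS : IsSteinberg xa xb)
include hS

theorem a_zero : xa 0 = 1 := by
  have h := hS.add_a 0 0
  rw [add_zero] at h
  have : xa 0 * xa 0 = xa 0 * 1 := by rw [mul_one]; exact h.symm
  exact mul_left_cancel this

theorem b_zero : xb 0 = 1 := by
  have h := hS.add_b 0 0
  rw [add_zero] at h
  have : xb 0 * xb 0 = xb 0 * 1 := by rw [mul_one]; exact h.symm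
  exact mul_left_cancel this

theorem a_neg (t : F) : xa (-t) = (xa t)⁻¹ := by
  apply eq_inv_of_mul_eq_one_left
  rw [← hS.add_a, neg_add_cancel, hS.a_zero]

theorem b_neg (t : F) : xb (-t) = (xb t)⁻¹ := by
  apply eq_inv_of_mul_eq_one_left
  rw [← hS.add_b, neg_add_cancel, hS.b_zero]

theorem n_inv (t : F) : (stN xa xb t)⁻¹ = stN xa xb (-t) := by
  unfold stN
  rw [inv_neg, neg_neg, hS.a_neg, hS.b_neg]
  group

theorem conj_a' {t : F} (ht : t ≠ 0) (s : F) :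
    (stN xa xb t)⁻¹ * xa s * stN xa xb t = xb (-(s / t ^ 2)) := by
  have h := hS.conj_a (-t) (neg_ne_zero.mpr ht) s
  rw [hS.n_inv (-t), neg_neg, neg_sq] at h
  rw [hS.n_inv t]
  exact h

theorem conj_b' {t : F} (ht : t ≠ 0) (s : F) :
    (stN xa xb t)⁻¹ * xb s * stN xa xb t = xa (-(s * t ^ 2)) := by
  have h := hS.conj_b (-t) (neg_ne_zero.mpr ht) s
  rw [hS.n_inv (-t), neg_neg, neg_sq] at h
  rw [hS.n_inv t]
  exact h

theorem braid {t : F} (ht : t ≠ 0) : stN xa xb t = xb (-t⁻¹) * xa t * xb (-t⁻¹) := by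
  have h1 := hS.conj_a t ht t
  have e : -(t / t ^ 2) = -t⁻¹ := by field_simp
  rw [e] at h1
  have h2 : stN xa xb t * xa t = xb (-t⁻¹) * stN xa xb t := by rw [← h1]; group
  unfold stN at h2 ⊢
  apply mul_right_cancel (b := xa t)
  rw [h2]
  simp only [mul_assoc]

theorem xb_eq (s : F) : xb s = xa s⁻¹ * stN xa xb (-s⁻¹) * xa s⁻¹ := by
  unfold stN
  rw [inv_neg, inv_inv, neg_neg, hS.a_neg]
  group

theorem xa_eq {t : F} (ht : t ≠ 0) : xa t = xb t⁻¹ * stN xa xb t * xb t⁻¹ := by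
  rw [hS.braid ht, hS.b_neg]
  group

omit hS in
theorem n_eq (t : F) : stN xa xb t = stH xa xb t * stN xa xb 1 := by
  unfold stH
  group

omit hS in
theorem h_one : stH xa xb (1 : F) = 1 := by
  unfold stH
  exact mul_inv_cancel _

theorem h_conj_a {t : F} (ht : t ≠ 0) (s : F) :
    stH xa xb t * xa s * (stH xa xb t)⁻¹ = xa (t ^ 2 * s) := by
  have h1 := hS.conj_a' (one_ne_zero (α := F)) s
  have h2 := hS.conj_b t ht (-(s / 1 ^ 2))
  unfold stH
  calc stN xa xb t * (stN xa xb 1)⁻¹ * xa s * (stN xa xb t * (stN xa xb 1)⁻¹)⁻¹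
      = stN xa xb t * ((stN xa xb 1)⁻¹ * xa s * stN xa xb 1) * (stN xa xb t)⁻¹ := by group
    _ = stN xa xb t * xb (-(s / 1 ^ 2)) * (stN xa xb t)⁻¹ := by rw [h1]
    _ = xa (-(-(s / 1 ^ 2) * t ^ 2)) := h2
    _ = xa (t ^ 2 * s) := by congr 1; ring

theorem h_conj_b {t : F} (ht : t ≠ 0) (s : F) :
    stH xa xb t * xb s * (stH xa xb t)⁻¹ = xb (s / t ^ 2) := by
  have h1 := hS.conj_b' (one_ne_zero (α := F)) s
  have h2 := hS.conj_a t ht (-(s * 1 ^ 2))
  unfold stH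
  calc stN xa xb t * (stN xa xb 1)⁻¹ * xb s * (stN xa xb t * (stN xa xb 1)⁻¹)⁻¹
      = stN xa xb t * ((stN xa xb 1)⁻¹ * xb s * stN xa xb 1) * (stN xa xb t)⁻¹ := by group
    _ = stN xa xb t * xa (-(s * 1 ^ 2)) * (stN xa xb t)⁻¹ := by rw [h1]
    _ = xb (-(-(s * 1 ^ 2) / t ^ 2)) := h2
    _ = xb (s / t ^ 2) := by congr 1; ring

/-- `h(t) xa(s) = xa(t² s) h(t)`. -/
theorem h_mul_a {t : F} (ht : t ≠ 0) (s : F) :
    stH xa xb t * xa s = xa (t ^ 2 * s) * stH xa xb t := by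
  rw [← hS.h_conj_a ht s]; group

/-- `xa(s) h(t) = h(t) xa(s / t²)`. -/
theorem a_mul_h {t : F} (ht : t ≠ 0) (s : F) :
    xa s * stH xa xb t = stH xa xb t * xa (s / t ^ 2) := by
  rw [hS.h_mul_a ht]
  congr 2
  field_simp

theorem h_conj_n {t s : F} (ht : t ≠ 0) (hs : s ≠ 0) :
    stH xa xb t * stN xa xb s * (stH xa xb t)⁻¹ = stN xa xb (t ^ 2 * s) := by
  have h1 := hS.h_conj_a ht s
  have h2 := hS.h_conj_b ht (-s⁻¹)
  have e : -s⁻¹ / t ^ 2 = -(t ^ 2 * s)⁻¹ := by field_simp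
  rw [e] at h2
  calc stH xa xb t * stN xa xb s * (stH xa xb t)⁻¹
      = (stH xa xb t * xa s * (stH xa xb t)⁻¹) * (stH xa xb t * xb (-s⁻¹) * (stH xa xb t)⁻¹) *
        (stH xa xb t * xa s * (stH xa xb t)⁻¹) := by unfold stN; group
    _ = stN xa xb (t ^ 2 * s) := by rw [h1, h2]; rfl

theorem n1_conj_n {t : F} (ht : t ≠ 0) :
    stN xa xb 1 * stN xa xb t * (stN xa xb 1)⁻¹ = stN xa xb t⁻¹ := by
  have h1 := hS.conj_a 1 one_ne_zero t
  have h2 := hS.conj_b 1 one_ne_zero (-t⁻¹)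
  have e1 : -(t / 1 ^ 2) = -(t⁻¹)⁻¹ := by rw [inv_inv]; ring
  have e2 : -(-t⁻¹ * 1 ^ 2) = t⁻¹ := by ring
  rw [e1] at h1
  rw [e2] at h2
  rw [hS.braid (inv_ne_zero ht)]
  calc stN xa xb 1 * stN xa xb t * (stN xa xb 1)⁻¹
      = (stN xa xb 1 * xa t * (stN xa xb 1)⁻¹) * (stN xa xb 1 * xb (-t⁻¹) * (stN xa xb 1)⁻¹) *
        (stN xa xb 1 * xa t * (stN xa xb 1)⁻¹) := by
        nth_rewrite 2 [stN]
        group
    _ = xb (-(t⁻¹)⁻¹) * xa t⁻¹ * xb (-(t⁻¹)⁻¹) := by rw [h1, h2]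

theorem n1_conj_h {t : F} (ht : t ≠ 0) :
    stN xa xb 1 * stH xa xb t * (stN xa xb 1)⁻¹ = stH xa xb t⁻¹ := by
  have h1 := hS.n1_conj_n ht
  calc stN xa xb 1 * stH xa xb t * (stN xa xb 1)⁻¹
      = (stN xa xb 1 * stN xa xb t * (stN xa xb 1)⁻¹) * (stN xa xb 1)⁻¹ := by unfold stH; group
    _ = stH xa xb t⁻¹ := by rw [h1]; rfl

/-- `n(1) h(t) = h(t⁻¹) n(1)`. -/
theorem n1_mul_h {t : F} (ht : t ≠ 0) :
    stN xa xb 1 * stH xa xb t = stH xa xb t⁻¹ * stN xa xb 1 := by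
  rw [← hS.n1_conj_h ht]; group

/-- `h(s² t) = h(s) h(t) h(s⁻¹)⁻¹`. -/
theorem h_sq_mul {t s : F} (ht : t ≠ 0) (hs : s ≠ 0) :
    stH xa xb (s ^ 2 * t) = stH xa xb s * stH xa xb t * (stH xa xb s⁻¹)⁻¹ := by
  have h1 := hS.h_conj_n hs ht
  have h2 := hS.n1_conj_h hs
  calc stH xa xb (s ^ 2 * t) = stN xa xb (s ^ 2 * t) * (stN xa xb 1)⁻¹ := rfl
    _ = stH xa xb s * stN xa xb t * (stH xa xb s)⁻¹ * (stN xa xb 1)⁻¹ := by rw [h1]
    _ = stH xa xb s * stH xa xb t * (stN xa xb 1 * stH xa xb s * (stN xa xb 1)⁻¹)⁻¹ := by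
        rw [n_eq t]; group
    _ = stH xa xb s * stH xa xb t * (stH xa xb s⁻¹)⁻¹ := by rw [h2]

/-- The key identity from the two Bruhat decompositions of `xa(1 + w) xb(-1)`. -/
theorem key_n {w : F} (hw : w ≠ 0) (hw1 : w + 1 ≠ 0) :
    stN xa xb 1 * stN xa xb w⁻¹ = stN xa xb (w * (w + 1)) * stN xa xb (w + 1) := by
  -- first decomposition
  have d1 : xa (w + 1) * xb (-1) =
      xb w⁻¹ * (stN xa xb 1 * stN xa xb w⁻¹) * xa (-(w + 1) / w) := by
    have e1 : xb (-1 : F) = xa (-1) * stN xa xb 1 * xa (-1) := by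
      have := hS.xb_eq (-1 : F)
      have i1 : ((-1 : F))⁻¹ = -1 := by rw [inv_neg, inv_one]
      rw [i1, neg_neg] at this
      exact this
    have e2 : xa (w + 1) * xa (-1) = xa w := by rw [← hS.add_a]; congr 1; ring
    have e3 : xa w * stN xa xb 1 = stN xa xb 1 * xb (-w) := by
      have := hS.conj_a' (one_ne_zero (α := F)) w
      have i : -(w / 1 ^ 2) = -w := by ring
      rw [i] at this
      rw [← this]; group
    have e4 : xb (-w) = xa (-w⁻¹) * stN xa xb w⁻¹ * xa (-w⁻¹) := by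
      have := hS.xb_eq (-w)
      rw [inv_neg, neg_neg] at this
      exact this
    have e5 : stN xa xb 1 * xa (-w⁻¹) = xb w⁻¹ * stN xa xb 1 := by
      have := hS.conj_a 1 one_ne_zero (-w⁻¹)
      have i : -(-w⁻¹ / 1 ^ 2) = w⁻¹ := by ring
      rw [i] at this
      rw [← this]; group
    have e6 : xa (-w⁻¹) * xa (-1) = xa (-(w + 1) / w) := by
      rw [← hS.add_a]; congr 1; field_simp; ring
    calc xa (w + 1) * xb (-1) = (xa (w + 1) * xa (-1)) * stN xa xb 1 * xa (-1) := by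
          rw [e1]; group
      _ = (xa w * stN xa xb 1) * xa (-1) := by rw [e2]
      _ = stN xa xb 1 * xb (-w) * xa (-1) := by rw [e3]
      _ = (stN xa xb 1 * xa (-w⁻¹)) * stN xa xb w⁻¹ * (xa (-w⁻¹) * xa (-1)) := by
          rw [e4]; group
      _ = xb w⁻¹ * (stN xa xb 1 * stN xa xb w⁻¹) * xa (-(w + 1) / w) := by
          rw [e5, e6]; group
  -- second decomposition
  have hww : w * (w + 1) ≠ 0 := mul_ne_zero hw hw1
  have d2 : xa (w + 1) * xb (-1) =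
      xb w⁻¹ * (stN xa xb (w * (w + 1)) * stN xa xb (w + 1)) * xa (-(w + 1) / w) := by
    have f1 := hS.xa_eq hw1
    have f2 : xb (w + 1)⁻¹ * xb (-1) = xb ((w + 1)⁻¹ - 1) := by
      rw [← hS.add_b]; congr 1; ring
    have f3 : stN xa xb (w + 1) * xb ((w + 1)⁻¹ - 1) = xa (w * (w + 1)) * stN xa xb (w + 1) := by
      have := hS.conj_b (w + 1) hw1 ((w + 1)⁻¹ - 1)
      have i : -(((w + 1)⁻¹ - 1) * (w + 1) ^ 2) = w * (w + 1) := by field_simp; ring
      rw [i] at this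
      rw [← this]; group
    have f4 := hS.xa_eq hww
    have f5 : xb (w * (w + 1))⁻¹ * stN xa xb (w + 1) =
        stN xa xb (w + 1) * xa (-(w + 1) / w) := by
      have := hS.conj_b' hw1 (w * (w + 1))⁻¹
      have i : -((w * (w + 1))⁻¹ * (w + 1) ^ 2) = -(w + 1) / w := by field_simp
      rw [i] at this
      rw [← this]; group
    have f6 : xb (w + 1)⁻¹ * xb (w * (w + 1))⁻¹ = xb w⁻¹ := by
      rw [← hS.add_b]; congr 1; field_simp
    calc xa (w + 1) * xb (-1)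
        = xb (w + 1)⁻¹ * stN xa xb (w + 1) * (xb (w + 1)⁻¹ * xb (-1)) := by
          nth_rewrite 1 [f1]; group
      _ = xb (w + 1)⁻¹ * (stN xa xb (w + 1) * xb ((w + 1)⁻¹ - 1)) := by rw [f2]; group
      _ = xb (w + 1)⁻¹ * xa (w * (w + 1)) * stN xa xb (w + 1) := by rw [f3]; group
      _ = (xb (w + 1)⁻¹ * xb (w * (w + 1))⁻¹) * stN xa xb (w * (w + 1)) *
            (xb (w * (w + 1))⁻¹ * stN xa xb (w + 1)) := by
          nth_rewrite 1 [f4]; group
      _ = xb w⁻¹ * (stN xa xb (w * (w + 1)) * stN xa xb (w + 1)) * xa (-(w + 1) / w) := by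
          rw [f5, f6]; group
  have h := d1.symm.trans d2
  exact mul_left_cancel (mul_right_cancel h)

/-- `h(w) = h(w (w + 1)) h((w + 1)⁻¹)`. -/
theorem key_h {w : F} (hw : w ≠ 0) (hw1 : w + 1 ≠ 0) :
    stH xa xb w = stH xa xb (w * (w + 1)) * stH xa xb (w + 1)⁻¹ := by
  have h := hS.key_n hw hw1
  have h1 := hS.n1_mul_h (inv_ne_zero hw)
  rw [inv_inv] at h1
  have h2 := hS.n1_mul_h hw1
  have e1 : stN xa xb 1 * stN xa xb w⁻¹ = stH xa xb w * (stN xa xb 1 * stN xa xb 1) := by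
    rw [n_eq w⁻¹, ← mul_assoc, h1]; group
  have e2 : stN xa xb (w * (w + 1)) * stN xa xb (w + 1) =
      stH xa xb (w * (w + 1)) * stH xa xb (w + 1)⁻¹ * (stN xa xb 1 * stN xa xb 1) := by
    rw [n_eq (w * (w + 1)), n_eq (w + 1)]
    calc stH xa xb (w * (w + 1)) * stN xa xb 1 * (stH xa xb (w + 1) * stN xa xb 1)
        = stH xa xb (w * (w + 1)) * (stN xa xb 1 * stH xa xb (w + 1)) * stN xa xb 1 := by group
      _ = stH xa xb (w * (w + 1)) * stH xa xb (w + 1)⁻¹ * (stN xa xb 1 * stN xa xb 1) := by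
          rw [h2]; group
  rw [e1, e2] at h
  exact mul_right_cancel h

end Basic

end IsSteinberg

/-- Elements commuting with all generators. -/
def StCentral (xa xb : F → G) (ζ : G) : Prop := (∀ s, Commute ζ (xa s)) ∧ ∀ s, Commute ζ (xb s)

theorem StCentral.comm_n {xa xb : F → G} {ζ : G} (h : StCentral xa xb ζ) (t : F) :
    Commute ζ (stN xa xb t) := ((h.1 t).mul_right (h.2 _)).mul_right (h.1 t)

theorem StCentral.comm_h {xa xb : F → G} {ζ : G} (h : StCentral xa xb ζ) (t : F) :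
    Commute ζ (stH xa xb t) := (h.comm_n t).mul_right (h.comm_n 1).inv_right

/-- The Bruhat normal forms. -/
def StNF (xa xb : F → G) (g : G) : Prop :=
  (∃ x t, t ≠ 0 ∧ g = xa x * stH xa xb t) ∨
  (∃ x t y, t ≠ 0 ∧ g = xa x * stH xa xb t * stN xa xb 1 * xa y)

namespace IsSteinberg

section Prime

variable {p : ℕ} [Fact p.Prime] {xa xb : ZMod p → G} (hS : IsSteinberg xa xb)
include hS

/-- The elements `h(t)` commute with each other. -/
theorem h_comm {t s : ZMod p} (ht : t ≠ 0) (hs : s ≠ 0) :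
    Commute (stH xa xb t) (stH xa xb s) := by
  obtain ⟨g, hg⟩ := IsCyclic.exists_monoid_generator (α := (ZMod p)ˣ)
  have hg0 : (g : ZMod p) ≠ 0 := g.ne_zero
  obtain ⟨η, hη⟩ : ∃ η, η = stH xa xb (g : ZMod p) := ⟨_, rfl⟩
  have pow_a : ∀ k : ℕ, ∀ s, η ^ k * xa s * (η ^ k)⁻¹ = xa (((g : ZMod p) ^ k) ^ 2 * s) := by
    intro k
    induction k with
    | zero => intro s; simp
    | succ k ih =>
      intro s
      have h1 := hS.h_conj_a hg0 s
      rw [← hη] at h1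
      calc η ^ (k + 1) * xa s * (η ^ (k + 1))⁻¹ = η ^ k * (η * xa s * η⁻¹) * (η ^ k)⁻¹ := by
            rw [pow_succ]; group
        _ = η ^ k * xa ((g : ZMod p) ^ 2 * s) * (η ^ k)⁻¹ := by rw [h1]
        _ = xa (((g : ZMod p) ^ k) ^ 2 * ((g : ZMod p) ^ 2 * s)) := ih _
        _ = xa (((g : ZMod p) ^ (k + 1)) ^ 2 * s) := by congr 1; ring
  have pow_b : ∀ k : ℕ, ∀ s, η ^ k * xb s * (η ^ k)⁻¹ = xb (s / ((g : ZMod p) ^ k) ^ 2) := by
    intro k
    induction k with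
    | zero => intro s; simp
    | succ k ih =>
      intro s
      have h1 := hS.h_conj_b hg0 s
      rw [← hη] at h1
      calc η ^ (k + 1) * xb s * (η ^ (k + 1))⁻¹ = η ^ k * (η * xb s * η⁻¹) * (η ^ k)⁻¹ := by
            rw [pow_succ]; group
        _ = η ^ k * xb (s / (g : ZMod p) ^ 2) * (η ^ k)⁻¹ := by rw [h1]
        _ = xb (s / (g : ZMod p) ^ 2 / ((g : ZMod p) ^ k) ^ 2) := ih _
        _ = xb (s / ((g : ZMod p) ^ (k + 1)) ^ 2) := by congr 1; field_simp; ring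
  have key : ∀ t : ZMod p, t ≠ 0 → ∃ k : ℕ, ∃ ζ, StCentral xa xb ζ ∧ stH xa xb t = η ^ k * ζ := by
    intro t ht
    obtain ⟨k, hk⟩ := (Submonoid.mem_powers_iff _ _).mp (hg (Units.mk0 t ht))
    have hk' : (g : ZMod p) ^ k = t := by
      have := congrArg Units.val hk
      simpa using this
    refine ⟨k, (η ^ k)⁻¹ * stH xa xb t, ⟨?_, ?_⟩, by group⟩
    · intro s
      have h1 : stH xa xb t * xa s = xa (t ^ 2 * s) * stH xa xb t := hS.h_mul_a ht s
      have h2 := pow_a k s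
      rw [hk'] at h2
      have h2' : (η ^ k)⁻¹ * xa (t ^ 2 * s) = xa s * (η ^ k)⁻¹ := by rw [← h2]; group
      show (η ^ k)⁻¹ * stH xa xb t * xa s = xa s * ((η ^ k)⁻¹ * stH xa xb t)
      calc (η ^ k)⁻¹ * stH xa xb t * xa s = (η ^ k)⁻¹ * (stH xa xb t * xa s) := by group
        _ = ((η ^ k)⁻¹ * xa (t ^ 2 * s)) * stH xa xb t := by rw [h1]; group
        _ = xa s * ((η ^ k)⁻¹ * stH xa xb t) := by rw [h2']; group
    · intro s
      have h1 : stH xa xb t * xb s = xb (s / t ^ 2) * stH xa xb t := by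
        rw [← hS.h_conj_b ht s]; group
      have h2 := pow_b k s
      rw [hk'] at h2
      have h2' : (η ^ k)⁻¹ * xb (s / t ^ 2) = xb s * (η ^ k)⁻¹ := by rw [← h2]; group
      show (η ^ k)⁻¹ * stH xa xb t * xb s = xb s * ((η ^ k)⁻¹ * stH xa xb t)
      calc (η ^ k)⁻¹ * stH xa xb t * xb s = (η ^ k)⁻¹ * (stH xa xb t * xb s) := by group
        _ = ((η ^ k)⁻¹ * xb (s / t ^ 2)) * stH xa xb t := by rw [h1]; group
        _ = xb s * ((η ^ k)⁻¹ * stH xa xb t) := by rw [h2']; group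
  obtain ⟨k, ζ, hζ, e1⟩ := key t ht
  obtain ⟨j, ζ', hζ', e2⟩ := key s hs
  have c1 : Commute ζ (η ^ j) := by rw [hη]; exact (hζ.comm_h _).pow_right j
  have c2 : Commute ζ' (η ^ k) := by rw [hη]; exact (hζ'.comm_h _).pow_right k
  have c3 : Commute ζ ζ' := by
    have : ζ' = (η ^ j)⁻¹ * stH xa xb s := by rw [e2]; group
    rw [this]
    exact (c1.inv_right).mul_right (hζ.comm_h s)
  have c4 : Commute (η ^ k) (η ^ j) := (Commute.refl η).pow_pow k j
  rw [e1, e2]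
  exact (c4.mul_right c2.symm).mul_left (c1.mul_right c3)

theorem h_mul_of_sq {t r : ZMod p} (ht : t ≠ 0) (hr : r ≠ 0) :
    stH xa xb (t * (r * r)) = stH xa xb t * stH xa xb (r * r) := by
  have c := (hS.h_comm hr ht).eq
  have v := hS.h_sq_mul ht hr
  have v1 := hS.h_sq_mul (one_ne_zero (α := ZMod p)) hr
  simp only [mul_one, h_one] at v1
  have e : t * (r * r) = r ^ 2 * t := by ring
  have e' : r * r = r ^ 2 := by ring
  rw [e, e', v, v1, c, mul_assoc]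

/-- `h` is multiplicative. -/
theorem h_mul {t s : ZMod p} (ht : t ≠ 0) (hs : s ≠ 0) :
    stH xa xb (t * s) = stH xa xb t * stH xa xb s := by
  have : NeZero p := ⟨(Fact.out : p.Prime).ne_zero⟩
  have sq : ∀ {t s : ZMod p}, t ≠ 0 → s ≠ 0 → IsSquare s →
      stH xa xb (t * s) = stH xa xb t * stH xa xb s := by
    intro t s ht hs hsq
    obtain ⟨r, hr⟩ := hsq
    have hr0 : r ≠ 0 := by
      rintro rfl
      rw [mul_zero] at hr
      exact hs hr
    rw [hr]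
    exact hS.h_mul_of_sq ht hr0
  by_cases h1 : IsSquare s
  · exact sq ht hs h1
  by_cases h2 : IsSquare t
  · rw [mul_comm, sq hs ht h2]
    exact (hS.h_comm hs ht).eq
  have ex : ∃ m : ℕ, ¬ IsSquare ((m : ZMod p)) := ⟨t.val, by rw [ZMod.natCast_zmod_val]; exact h2⟩
  classical
  obtain ⟨m, hm, hmin⟩ : ∃ m : ℕ, ¬ IsSquare ((m : ZMod p)) ∧ ∀ k < m, IsSquare ((k : ZMod p)) :=
    ⟨Nat.find ex, Nat.find_spec ex, fun k hk => by_contra (fun h => Nat.find_min ex hk h)⟩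
  have hm0 : m ≠ 0 := by
    rintro rfl
    exact hm ⟨0, by simp⟩
  obtain ⟨k, rfl⟩ := Nat.exists_eq_succ_of_ne_zero hm0
  have hwsq : IsSquare ((k : ZMod p)) := hmin k (Nat.lt_succ_self k)
  obtain ⟨w, hwdef⟩ : ∃ w : ZMod p, w = (k : ZMod p) := ⟨_, rfl⟩
  have hu : ((k.succ : ℕ) : ZMod p) = w + 1 := by rw [hwdef]; push_cast; rfl
  rw [hu] at hm
  rw [← hwdef] at hwsq
  have hw0 : w ≠ 0 := by
    intro h0
    rw [h0, zero_add] at hm
    exact hm ⟨1, by simp⟩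
  have hu0 : w + 1 ≠ 0 := by
    intro h0
    rw [h0] at hm
    exact hm ⟨0, by simp⟩
  have star : stH xa xb (w + 1) * stH xa xb (w + 1)⁻¹ = 1 := by
    have k1 := hS.key_h hw0 hu0
    have k2 : stH xa xb (w * (w + 1)) = stH xa xb (w + 1) * stH xa xb w := by
      rw [mul_comm]
      exact sq hu0 hw0 hwsq
    rw [k2] at k1
    have c := (hS.h_comm hw0 (inv_ne_zero hu0)).eq
    have e : (stH xa xb (w + 1) * stH xa xb (w + 1)⁻¹) * stH xa xb w = stH xa xb w := by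
      calc (stH xa xb (w + 1) * stH xa xb (w + 1)⁻¹) * stH xa xb w
          = stH xa xb (w + 1) * (stH xa xb (w + 1)⁻¹ * stH xa xb w) := by group
        _ = stH xa xb (w + 1) * (stH xa xb w * stH xa xb (w + 1)⁻¹) := by rw [c]
        _ = stH xa xb w := by rw [← mul_assoc]; exact k1.symm
    exact mul_eq_right.mp e
  have eu : ∀ {x : ZMod p}, x ≠ 0 → ¬ IsSquare x → x ^ (p / 2) = -1 := by
    intro x hx hnsq
    rcases ZMod.pow_div_two_eq_neg_one_or_one p hx with h | h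
    · exact absurd ((ZMod.euler_criterion p hx).mpr h) hnsq
    · exact h
  have sq_of : ∀ {x : ZMod p}, x ≠ 0 → x ^ (p / 2) = 1 → IsSquare x :=
    fun hx h => (ZMod.euler_criterion p hx).mpr h
  have et := eu ht h2
  have es := eu hs h1
  have eu' := eu hu0 hm
  have q1 : IsSquare (t / (w + 1)) :=
    sq_of (div_ne_zero ht hu0) (by rw [div_pow, et, eu']; norm_num)
  have q2 : IsSquare (s * (w + 1)) :=
    sq_of (mul_ne_zero hs hu0) (by rw [mul_pow, es, eu']; norm_num)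
  have a1 : stH xa xb t = stH xa xb (w + 1) * stH xa xb (t / (w + 1)) := by
    rw [← sq hu0 (div_ne_zero ht hu0) q1]
    congr 1
    field_simp
  have a2 : stH xa xb s = stH xa xb (w + 1)⁻¹ * stH xa xb (s * (w + 1)) := by
    rw [← sq (inv_ne_zero hu0) (mul_ne_zero hs hu0) q2]
    congr 1
    field_simp
  have a3 : stH xa xb (t * s) = stH xa xb (t / (w + 1)) * stH xa xb (s * (w + 1)) := by
    rw [← sq (div_ne_zero ht hu0) (mul_ne_zero hs hu0) q2]
    congr 1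
    field_simp
  have c := (hS.h_comm (div_ne_zero ht hu0) (inv_ne_zero hu0)).eq
  rw [a1, a2, a3]
  calc stH xa xb (t / (w + 1)) * stH xa xb (s * (w + 1))
      = (stH xa xb (w + 1) * stH xa xb (w + 1)⁻¹) * stH xa xb (t / (w + 1)) *
          stH xa xb (s * (w + 1)) := by rw [star]; group
    _ = stH xa xb (w + 1) * (stH xa xb (w + 1)⁻¹ * stH xa xb (t / (w + 1))) *
          stH xa xb (s * (w + 1)) := by group
    _ = stH xa xb (w + 1) * (stH xa xb (t / (w + 1)) * stH xa xb (w + 1)⁻¹) *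
          stH xa xb (s * (w + 1)) := by rw [c]
    _ = stH xa xb (w + 1) * stH xa xb (t / (w + 1)) *
          (stH xa xb (w + 1)⁻¹ * stH xa xb (s * (w + 1))) := by group

theorem n1_sq : stN xa xb 1 * stN xa xb 1 = stH xa xb (-1) := by
  have e : stH xa xb (-1) = (stN xa xb 1)⁻¹ * (stN xa xb 1)⁻¹ := by
    unfold stH
    rw [← hS.n_inv 1]
  have hne : (-1 : ZMod p) ≠ 0 := neg_ne_zero.mpr one_ne_zero
  have m := hS.h_mul hne hne
  rw [neg_mul_neg, one_mul, h_one] at m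
  calc stN xa xb 1 * stN xa xb 1 = ((stN xa xb 1)⁻¹ * (stN xa xb 1)⁻¹)⁻¹ := by
        rw [mul_inv_rev, inv_inv]
    _ = (stH xa xb (-1))⁻¹ := by rw [e]
    _ = stH xa xb (-1) := inv_eq_of_mul_eq_one_left m.symm

theorem n_a_n {w : ZMod p} (hw : w ≠ 0) :
    stN xa xb 1 * xa w * stN xa xb 1 =
      xa (-w⁻¹) * stH xa xb (-w⁻¹) * stN xa xb 1 * xa (-w⁻¹) := by
  have hne : (-1 : ZMod p) ≠ 0 := neg_ne_zero.mpr one_ne_zero
  have e1 : stN xa xb 1 * xa w * (stN xa xb 1)⁻¹ = xb (-w) := by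
    have := hS.conj_a 1 one_ne_zero w
    have i : -(w / 1 ^ 2) = -w := by ring
    rw [i] at this
    exact this
  have e2 : xb (-w) = xa (-w⁻¹) * stN xa xb w⁻¹ * xa (-w⁻¹) := by
    have := hS.xb_eq (-w)
    rw [inv_neg, neg_neg] at this
    exact this
  have e3 : xa (-w⁻¹) * stH xa xb (-1) = stH xa xb (-1) * xa (-w⁻¹) := by
    have := hS.a_mul_h hne (-w⁻¹)
    have i : -w⁻¹ / (-1 : ZMod p) ^ 2 = -w⁻¹ := by ring
    rw [i] at this
    exact this
  have e4 : stN xa xb 1 * stH xa xb (-1) = stH xa xb (-1) * stN xa xb 1 := by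
    have := hS.n1_mul_h hne
    have i : ((-1 : ZMod p))⁻¹ = -1 := by rw [inv_neg, inv_one]
    rw [i] at this
    exact this
  have e5 : stH xa xb w⁻¹ * stH xa xb (-1) = stH xa xb (-w⁻¹) := by
    rw [← hS.h_mul (inv_ne_zero hw) hne]
    congr 1
    ring
  calc stN xa xb 1 * xa w * stN xa xb 1
      = (stN xa xb 1 * xa w * (stN xa xb 1)⁻¹) * (stN xa xb 1 * stN xa xb 1) := by group
    _ = xa (-w⁻¹) * stN xa xb w⁻¹ * xa (-w⁻¹) * stH xa xb (-1) := by rw [e1, hS.n1_sq, e2]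
    _ = xa (-w⁻¹) * stH xa xb w⁻¹ * stN xa xb 1 * (xa (-w⁻¹) * stH xa xb (-1)) := by
        rw [n_eq w⁻¹]; group
    _ = xa (-w⁻¹) * stH xa xb w⁻¹ * (stN xa xb 1 * stH xa xb (-1)) * xa (-w⁻¹) := by
        rw [e3]; group
    _ = xa (-w⁻¹) * (stH xa xb w⁻¹ * stH xa xb (-1)) * stN xa xb 1 * xa (-w⁻¹) := by
        rw [e4]; group
    _ = xa (-w⁻¹) * stH xa xb (-w⁻¹) * stN xa xb 1 * xa (-w⁻¹) := by rw [e5]

theorem nf_one : StNF xa xb 1 :=
  Or.inl ⟨0, 1, one_ne_zero, by rw [hS.a_zero, h_one, mul_one]⟩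

theorem nf_a_mul {g : G} (h : StNF xa xb g) (s : ZMod p) : StNF xa xb (xa s * g) := by
  rcases h with ⟨x, t, ht, rfl⟩ | ⟨x, t, y, ht, rfl⟩
  · exact Or.inl ⟨s + x, t, ht, by rw [hS.add_a, mul_assoc]⟩
  · exact Or.inr ⟨s + x, t, y, ht, by rw [hS.add_a]; simp only [mul_assoc]⟩

theorem nf_h_mul {g : G} (h : StNF xa xb g) {s : ZMod p} (hs : s ≠ 0) :
    StNF xa xb (stH xa xb s * g) := by
  rcases h with ⟨x, t, ht, rfl⟩ | ⟨x, t, y, ht, rfl⟩
  · refine Or.inl ⟨s ^ 2 * x, s * t, mul_ne_zero hs ht, ?_⟩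
    rw [hS.h_mul hs ht, ← mul_assoc, hS.h_mul_a hs, mul_assoc]
  · refine Or.inr ⟨s ^ 2 * x, s * t, y, mul_ne_zero hs ht, ?_⟩
    rw [hS.h_mul hs ht]
    calc stH xa xb s * (xa x * stH xa xb t * stN xa xb 1 * xa y)
        = (stH xa xb s * xa x) * stH xa xb t * stN xa xb 1 * xa y := by group
      _ = xa (s ^ 2 * x) * (stH xa xb s * stH xa xb t) * stN xa xb 1 * xa y := by
          rw [hS.h_mul_a hs]; group

theorem nf_n_mul {g : G} (h : StNF xa xb g) : StNF xa xb (stN xa xb 1 * g) := by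
  have hne : (-1 : ZMod p) ≠ 0 := neg_ne_zero.mpr one_ne_zero
  rcases h with ⟨x, t, ht, rfl⟩ | ⟨x, t, y, ht, rfl⟩
  · refine Or.inr ⟨0, t⁻¹, x / t ^ 2, inv_ne_zero ht, ?_⟩
    calc stN xa xb 1 * (xa x * stH xa xb t) = stN xa xb 1 * (stH xa xb t * xa (x / t ^ 2)) := by
          rw [hS.a_mul_h ht]
      _ = (stN xa xb 1 * stH xa xb t) * xa (x / t ^ 2) := by group
      _ = xa 0 * stH xa xb t⁻¹ * stN xa xb 1 * xa (x / t ^ 2) := by
          rw [hS.n1_mul_h ht, hS.a_zero, one_mul]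
  · have e0 : stN xa xb 1 * (xa x * stH xa xb t * stN xa xb 1 * xa y) =
        stH xa xb t⁻¹ * (stN xa xb 1 * xa (x / t ^ 2) * stN xa xb 1) * xa y := by
      calc stN xa xb 1 * (xa x * stH xa xb t * stN xa xb 1 * xa y)
          = stN xa xb 1 * (xa x * stH xa xb t) * stN xa xb 1 * xa y := by group
        _ = stN xa xb 1 * (stH xa xb t * xa (x / t ^ 2)) * stN xa xb 1 * xa y := by
            rw [hS.a_mul_h ht]
        _ = (stN xa xb 1 * stH xa xb t) * xa (x / t ^ 2) * stN xa xb 1 * xa y := by group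
        _ = stH xa xb t⁻¹ * (stN xa xb 1 * xa (x / t ^ 2) * stN xa xb 1) * xa y := by
            rw [hS.n1_mul_h ht]; group
    rw [e0]
    by_cases hw : x / t ^ 2 = 0
    · refine Or.inl ⟨(-t⁻¹) ^ 2 * y, -t⁻¹, neg_ne_zero.mpr (inv_ne_zero ht), ?_⟩
      rw [hw, hS.a_zero, mul_one, hS.n1_sq, ← hS.h_mul (inv_ne_zero ht) hne, mul_neg_one,
        hS.h_mul_a (neg_ne_zero.mpr (inv_ne_zero ht))]
    · obtain ⟨w, hwdef⟩ : ∃ w, w = x / t ^ 2 := ⟨_, rfl⟩
      rw [← hwdef] at hw ⊢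
      have hw' : -w⁻¹ ≠ 0 := neg_ne_zero.mpr (inv_ne_zero hw)
      refine Or.inr ⟨t⁻¹ ^ 2 * -w⁻¹, t⁻¹ * -w⁻¹, -w⁻¹ + y, mul_ne_zero (inv_ne_zero ht) hw', ?_⟩
      rw [hS.n_a_n hw, hS.h_mul (inv_ne_zero ht) hw', hS.add_a]
      calc stH xa xb t⁻¹ * (xa (-w⁻¹) * stH xa xb (-w⁻¹) * stN xa xb 1 * xa (-w⁻¹)) * xa y
          = (stH xa xb t⁻¹ * xa (-w⁻¹)) * stH xa xb (-w⁻¹) * stN xa xb 1 * xa (-w⁻¹) * xa y := by
            group
        _ = xa (t⁻¹ ^ 2 * -w⁻¹) * (stH xa xb t⁻¹ * stH xa xb (-w⁻¹)) * stN xa xb 1 *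
              (xa (-w⁻¹) * xa y) := by
            rw [hS.h_mul_a (inv_ne_zero ht)]; group

theorem nf_b_mul {g : G} (h : StNF xa xb g) (s : ZMod p) : StNF xa xb (xb s * g) := by
  have hne : (-1 : ZMod p) ≠ 0 := neg_ne_zero.mpr one_ne_zero
  have e1 : stN xa xb 1 * xa (-s) * (stN xa xb 1)⁻¹ = xb s := by
    have := hS.conj_a 1 one_ne_zero (-s)
    have i : -(-s / 1 ^ 2) = s := by ring
    rw [i] at this
    exact this
  have e2 : (stN xa xb 1)⁻¹ = stN xa xb 1 * stH xa xb (-1) := by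
    have e : stH xa xb (-1) = (stN xa xb 1)⁻¹ * (stN xa xb 1)⁻¹ := by
      unfold stH
      rw [← hS.n_inv 1]
    rw [e, ← mul_assoc, mul_inv_cancel, one_mul]
  have e3 : xb s * g = stN xa xb 1 * (xa (-s) * (stN xa xb 1 * (stH xa xb (-1) * g))) := by
    rw [← e1]
    nth_rewrite 1 [e2]
    group
  rw [e3]
  exact hS.nf_n_mul (hS.nf_a_mul (hS.nf_n_mul (hS.nf_h_mul h hne)) _)

/-- Every element of the group generated by the `xa(s)` and `xb(s)` has a normal form. -/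
theorem nf_of_mem {g : G} (hg : g ∈ Subgroup.closure (Set.range xa ∪ Set.range xb)) :
    StNF xa xb g := by
  have key : ∀ w, StNF xa xb w → StNF xa xb (g * w) ∧ StNF xa xb (g⁻¹ * w) := by
    induction hg using Subgroup.closure_induction with
    | mem g hg =>
      intro w hw
      rcases hg with ⟨s, rfl⟩ | ⟨s, rfl⟩
      · exact ⟨hS.nf_a_mul hw s, by rw [← hS.a_neg]; exact hS.nf_a_mul hw (-s)⟩
      · exact ⟨hS.nf_b_mul hw s, by rw [← hS.b_neg]; exact hS.nf_b_mul hw (-s)⟩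
    | one =>
      intro w hw
      simp only [one_mul, inv_one]
      exact ⟨hw, hw⟩
    | mul g h _ _ ihg ihh =>
      intro w hw
      refine ⟨?_, ?_⟩
      · rw [mul_assoc]
        exact (ihg _ (ihh w hw).1).1
      · rw [mul_inv_rev, mul_assoc]
        exact (ihh _ (ihg w hw).2).2
    | inv g _ ihg =>
      intro w hw
      rw [inv_inv]
      exact ⟨(ihg w hw).2, (ihg w hw).1⟩
  have := (key 1 hS.nf_one).1
  rwa [mul_one] at this

end Prime

/-- The Steinberg relations hold in a product if they hold in both factors. -/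
theorem prod {G₁ G₂ : Type*} [Group G₁] [Group G₂] {xa₁ xb₁ : F → G₁} {xa₂ xb₂ : F → G₂}
    (h₁ : IsSteinberg xa₁ xb₁) (h₂ : IsSteinberg xa₂ xb₂) :
    IsSteinberg (fun t => (xa₁ t, xa₂ t)) (fun t => (xb₁ t, xb₂ t)) :=
  ⟨fun s t => Prod.ext (h₁.add_a s t) (h₂.add_a s t),
    fun s t => Prod.ext (h₁.add_b s t) (h₂.add_b s t),
    fun t ht s => Prod.ext (h₁.conj_a t ht s) (h₂.conj_a t ht s),
    fun t ht s => Prod.ext (h₁.conj_b t ht s) (h₂.conj_b t ht s)⟩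

end IsSteinberg

end Cfsg.Agent.H85
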