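import Mathlib
import Cfsg.Agent.H85.Steinberg
import Cfsg.Agent.H85.SL2

/-!
# Steinberg relations for `SL₂` over a finite field (helper85)

The normal form argument of `H85/Steinberg` for an arbitrary field under the hypothesis that
`h` is multiplicative, the multiplicativity of `h` over a finite field, and the resulting
presentation of `SL₂(K)`.
-/

set_option autoImplicit false
set_option linter.unusedSectionVars false
set_option linter.unusedSimpArgs false

namespace Cfsg.Agent.H85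

namespace StFin

variable {G : Type*} [Group G] {F : Type*} [Field F] {xa xb : F → G}

section Mul

variable (hS : IsSteinberg xa xb)
  (hM : ∀ t s : F, t ≠ 0 → s ≠ 0 → stH xa xb (t * s) = stH xa xb t * stH xa xb s)
include hS hM

theorem n1_sq : stN xa xb 1 * stN xa xb 1 = stH xa xb (-1) := by
  have e : stH xa xb (-1) = (stN xa xb 1)⁻¹ * (stN xa xb 1)⁻¹ := by
    unfold stH
    rw [← hS.n_inv 1]
  have hne : (-1 : F) ≠ 0 := neg_ne_zero.mpr one_ne_zero
  have m := hM _ _ hne hne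
  rw [neg_mul_neg, one_mul, IsSteinberg.h_one] at m
  calc stN xa xb 1 * stN xa xb 1 = ((stN xa xb 1)⁻¹ * (stN xa xb 1)⁻¹)⁻¹ := by
        rw [mul_inv_rev, inv_inv]
    _ = (stH xa xb (-1))⁻¹ := by rw [e]
    _ = stH xa xb (-1) := inv_eq_of_mul_eq_one_left m.symm

theorem n_a_n {w : F} (hw : w ≠ 0) :
    stN xa xb 1 * xa w * stN xa xb 1 =
      xa (-w⁻¹) * stH xa xb (-w⁻¹) * stN xa xb 1 * xa (-w⁻¹) := by
  have hne : (-1 : F) ≠ 0 := neg_ne_zero.mpr one_ne_zero
  have e1 : stN xa xb 1 * xa w * (stN xa xb 1)⁻¹ = xb (-w) := by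
    have := hS.conj_a 1 one_ne_zero w
    have i : -(w / 1 ^ 2) = -w := by ring
    rw [i] at this
    exact this
  have e2 : xb (-w) = xa (-w⁻¹) * stN xa xb w⁻¹ * xa (-w⁻¹) := by
    have := hS.xb_eq (-w)
    rw [inv_neg, neg_neg] at this
    exact this
  have e3 : xa (-w⁻¹) * stH xa xb (-1) = stH xa xb (-1) * xa (-w⁻¹) := by
    have := hS.a_mul_h hne (-w⁻¹)
    have i : -w⁻¹ / (-1 : F) ^ 2 = -w⁻¹ := by ring
    rw [i] at this
    exact this
  have e4 : stN xa xb 1 * stH xa xb (-1) = stH xa xb (-1) * stN xa xb 1 := by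
    have := hS.n1_mul_h hne
    have i : ((-1 : F))⁻¹ = -1 := by rw [inv_neg, inv_one]
    rw [i] at this
    exact this
  have e5 : stH xa xb w⁻¹ * stH xa xb (-1) = stH xa xb (-w⁻¹) := by
    rw [← hM _ _ (inv_ne_zero hw) hne]
    congr 1
    ring
  calc stN xa xb 1 * xa w * stN xa xb 1
      = (stN xa xb 1 * xa w * (stN xa xb 1)⁻¹) * (stN xa xb 1 * stN xa xb 1) := by group
    _ = xa (-w⁻¹) * stN xa xb w⁻¹ * xa (-w⁻¹) * stH xa xb (-1) := by rw [e1, (n1_sq hS hM), e2]
    _ = xa (-w⁻¹) * stH xa xb w⁻¹ * stN xa xb 1 * (xa (-w⁻¹) * stH xa xb (-1)) := by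
        rw [IsSteinberg.n_eq w⁻¹]; group
    _ = xa (-w⁻¹) * stH xa xb w⁻¹ * (stN xa xb 1 * stH xa xb (-1)) * xa (-w⁻¹) := by
        rw [e3]; group
    _ = xa (-w⁻¹) * (stH xa xb w⁻¹ * stH xa xb (-1)) * stN xa xb 1 * xa (-w⁻¹) := by
        rw [e4]; group
    _ = xa (-w⁻¹) * stH xa xb (-w⁻¹) * stN xa xb 1 * xa (-w⁻¹) := by rw [e5]

theorem nf_one : StNF xa xb 1 :=
  Or.inl ⟨0, 1, one_ne_zero, by rw [hS.a_zero, IsSteinberg.h_one, mul_one]⟩

theorem nf_a_mul {g : G} (h : StNF xa xb g) (s : F) : StNF xa xb (xa s * g) := by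
  rcases h with ⟨x, t, ht, rfl⟩ | ⟨x, t, y, ht, rfl⟩
  · exact Or.inl ⟨s + x, t, ht, by rw [hS.add_a, mul_assoc]⟩
  · exact Or.inr ⟨s + x, t, y, ht, by rw [hS.add_a]; simp only [mul_assoc]⟩

theorem nf_h_mul {g : G} (h : StNF xa xb g) {s : F} (hs : s ≠ 0) :
    StNF xa xb (stH xa xb s * g) := by
  rcases h with ⟨x, t, ht, rfl⟩ | ⟨x, t, y, ht, rfl⟩
  · refine Or.inl ⟨s ^ 2 * x, s * t, mul_ne_zero hs ht, ?_⟩
    rw [hM _ _ hs ht, ← mul_assoc, hS.h_mul_a hs, mul_assoc]
  · refine Or.inr ⟨s ^ 2 * x, s * t, y, mul_ne_zero hs ht, ?_⟩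
    rw [hM _ _ hs ht]
    calc stH xa xb s * (xa x * stH xa xb t * stN xa xb 1 * xa y)
        = (stH xa xb s * xa x) * stH xa xb t * stN xa xb 1 * xa y := by group
      _ = xa (s ^ 2 * x) * (stH xa xb s * stH xa xb t) * stN xa xb 1 * xa y := by
          rw [hS.h_mul_a hs]; group

theorem nf_n_mul {g : G} (h : StNF xa xb g) : StNF xa xb (stN xa xb 1 * g) := by
  have hne : (-1 : F) ≠ 0 := neg_ne_zero.mpr one_ne_zero
  rcases h with ⟨x, t, ht, rfl⟩ | ⟨x, t, y, ht, rfl⟩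
  · refine Or.inr ⟨0, t⁻¹, x / t ^ 2, inv_ne_zero ht, ?_⟩
    calc stN xa xb 1 * (xa x * stH xa xb t) = stN xa xb 1 * (stH xa xb t * xa (x / t ^ 2)) := by
          rw [hS.a_mul_h ht]
      _ = (stN xa xb 1 * stH xa xb t) * xa (x / t ^ 2) := by group
      _ = xa 0 * stH xa xb t⁻¹ * stN xa xb 1 * xa (x / t ^ 2) := by
          rw [hS.n1_mul_h ht, hS.a_zero, one_mul]
  · have e0 : stN xa xb 1 * (xa x * stH xa xb t * stN xa xb 1 * xa y) =
        stH xa xb t⁻¹ * (stN xa xb 1 * xa (x / t ^ 2) * stN xa xb 1) * xa y := by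
      calc stN xa xb 1 * (xa x * stH xa xb t * stN xa xb 1 * xa y)
          = stN xa xb 1 * (xa x * stH xa xb t) * stN xa xb 1 * xa y := by group
        _ = stN xa xb 1 * (stH xa xb t * xa (x / t ^ 2)) * stN xa xb 1 * xa y := by
            rw [hS.a_mul_h ht]
        _ = (stN xa xb 1 * stH xa xb t) * xa (x / t ^ 2) * stN xa xb 1 * xa y := by group
        _ = stH xa xb t⁻¹ * (stN xa xb 1 * xa (x / t ^ 2) * stN xa xb 1) * xa y := by
            rw [hS.n1_mul_h ht]; group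
    rw [e0]
    by_cases hw : x / t ^ 2 = 0
    · refine Or.inl ⟨(-t⁻¹) ^ 2 * y, -t⁻¹, neg_ne_zero.mpr (inv_ne_zero ht), ?_⟩
      rw [hw, hS.a_zero, mul_one, (n1_sq hS hM), ← hM _ _ (inv_ne_zero ht) hne, mul_neg_one,
        hS.h_mul_a (neg_ne_zero.mpr (inv_ne_zero ht))]
    · obtain ⟨w, hwdef⟩ : ∃ w, w = x / t ^ 2 := ⟨_, rfl⟩
      rw [← hwdef] at hw ⊢
      have hw' : -w⁻¹ ≠ 0 := neg_ne_zero.mpr (inv_ne_zero hw)
      refine Or.inr ⟨t⁻¹ ^ 2 * -w⁻¹, t⁻¹ * -w⁻¹, -w⁻¹ + y, mul_ne_zero (inv_ne_zero ht) hw', ?_⟩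
      rw [(n_a_n hS hM) hw, hM _ _ (inv_ne_zero ht) hw', hS.add_a]
      calc stH xa xb t⁻¹ * (xa (-w⁻¹) * stH xa xb (-w⁻¹) * stN xa xb 1 * xa (-w⁻¹)) * xa y
          = (stH xa xb t⁻¹ * xa (-w⁻¹)) * stH xa xb (-w⁻¹) * stN xa xb 1 * xa (-w⁻¹) * xa y := by
            group
        _ = xa (t⁻¹ ^ 2 * -w⁻¹) * (stH xa xb t⁻¹ * stH xa xb (-w⁻¹)) * stN xa xb 1 *
              (xa (-w⁻¹) * xa y) := by
            rw [hS.h_mul_a (inv_ne_zero ht)]; group

theorem nf_b_mul {g : G} (h : StNF xa xb g) (s : F) : StNF xa xb (xb s * g) := by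
  have hne : (-1 : F) ≠ 0 := neg_ne_zero.mpr one_ne_zero
  have e1 : stN xa xb 1 * xa (-s) * (stN xa xb 1)⁻¹ = xb s := by
    have := hS.conj_a 1 one_ne_zero (-s)
    have i : -(-s / 1 ^ 2) = s := by ring
    rw [i] at this
    exact this
  have e2 : (stN xa xb 1)⁻¹ = stN xa xb 1 * stH xa xb (-1) := by
    have e : stH xa xb (-1) = (stN xa xb 1)⁻¹ * (stN xa xb 1)⁻¹ := by
      unfold stH
      rw [← hS.n_inv 1]
    rw [e, ← mul_assoc, mul_inv_cancel, one_mul]
  have e3 : xb s * g = stN xa xb 1 * (xa (-s) * (stN xa xb 1 * (stH xa xb (-1) * g))) := by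
    rw [← e1]
    nth_rewrite 1 [e2]
    group
  rw [e3]
  exact (nf_n_mul hS hM) ((nf_a_mul hS hM) ((nf_n_mul hS hM) ((nf_h_mul hS hM) h hne)) _)

/-- Every element of the group generated by the `xa(s)` and `xb(s)` has a normal form. -/
theorem nf_of_mem {g : G} (hg : g ∈ Subgroup.closure (Set.range xa ∪ Set.range xb)) :
    StNF xa xb g := by
  have key : ∀ w, StNF xa xb w → StNF xa xb (g * w) ∧ StNF xa xb (g⁻¹ * w) := by
    induction hg using Subgroup.closure_induction with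
    | mem g hg =>
      intro w hw
      rcases hg with ⟨s, rfl⟩ | ⟨s, rfl⟩
      · exact ⟨(nf_a_mul hS hM) hw s, by rw [← hS.a_neg]; exact (nf_a_mul hS hM) hw (-s)⟩
      · exact ⟨(nf_b_mul hS hM) hw s, by rw [← hS.b_neg]; exact (nf_b_mul hS hM) hw (-s)⟩
    | one =>
      intro w hw
      simp only [one_mul, inv_one]
      exact ⟨hw, hw⟩
    | mul g h _ _ ihg ihh =>
      intro w hw
      refine ⟨?_, ?_⟩
      · rw [mul_assoc]
        exact (ihg _ (ihh w hw).1).1
      · rw [mul_inv_rev, mul_assoc]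
        exact (ihh _ (ihg w hw).2).2
    | inv g _ ihg =>
      intro w hw
      rw [inv_inv]
      exact ⟨(ihg w hw).2, (ihg w hw).1⟩
  have := (key 1 (nf_one hS hM)).1
  rwa [mul_one] at this

end Mul


section Fin

variable {K : Type*} [Field K] [Finite K] {xa xb : K → G} (hS : IsSteinberg xa xb)
include hS

/-- The elements `h(t)` commute with each other. -/
theorem h_comm {t s : K} (ht : t ≠ 0) (hs : s ≠ 0) :
    Commute (stH xa xb t) (stH xa xb s) := by
  obtain ⟨g, hg⟩ := IsCyclic.exists_monoid_generator (α := (K)ˣ)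
  have hg0 : (g : K) ≠ 0 := g.ne_zero
  obtain ⟨η, hη⟩ : ∃ η, η = stH xa xb (g : K) := ⟨_, rfl⟩
  have pow_a : ∀ k : ℕ, ∀ s, η ^ k * xa s * (η ^ k)⁻¹ = xa (((g : K) ^ k) ^ 2 * s) := by
    intro k
    induction k with
    | zero => intro s; simp
    | succ k ih =>
      intro s
      have h1 := hS.h_conj_a hg0 s
      rw [← hη] at h1
      calc η ^ (k + 1) * xa s * (η ^ (k + 1))⁻¹ = η ^ k * (η * xa s * η⁻¹) * (η ^ k)⁻¹ := by
            rw [pow_succ]; group
        _ = η ^ k * xa ((g : K) ^ 2 * s) * (η ^ k)⁻¹ := by rw [h1]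
        _ = xa (((g : K) ^ k) ^ 2 * ((g : K) ^ 2 * s)) := ih _
        _ = xa (((g : K) ^ (k + 1)) ^ 2 * s) := by congr 1; ring
  have pow_b : ∀ k : ℕ, ∀ s, η ^ k * xb s * (η ^ k)⁻¹ = xb (s / ((g : K) ^ k) ^ 2) := by
    intro k
    induction k with
    | zero => intro s; simp
    | succ k ih =>
      intro s
      have h1 := hS.h_conj_b hg0 s
      rw [← hη] at h1
      calc η ^ (k + 1) * xb s * (η ^ (k + 1))⁻¹ = η ^ k * (η * xb s * η⁻¹) * (η ^ k)⁻¹ := by
            rw [pow_succ]; group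
        _ = η ^ k * xb (s / (g : K) ^ 2) * (η ^ k)⁻¹ := by rw [h1]
        _ = xb (s / (g : K) ^ 2 / ((g : K) ^ k) ^ 2) := ih _
        _ = xb (s / ((g : K) ^ (k + 1)) ^ 2) := by congr 1; field_simp; ring
  have key : ∀ t : K, t ≠ 0 → ∃ k : ℕ, ∃ ζ, StCentral xa xb ζ ∧ stH xa xb t = η ^ k * ζ := by
    intro t ht
    obtain ⟨k, hk⟩ := (Submonoid.mem_powers_iff _ _).mp (hg (Units.mk0 t ht))
    have hk' : (g : K) ^ k = t := by
      have := congrArg Units.val hk
      simpa using this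
    refine ⟨k, (η ^ k)⁻¹ * stH xa xb t, ⟨?_, ?_⟩, by group⟩
    · intro s
      have h1 : stH xa xb t * xa s = xa (t ^ 2 * s) * stH xa xb t := hS.h_mul_a ht s
      have h2 := pow_a k s
      rw [hk'] at h2
      have h2' : (η ^ k)⁻¹ * xa (t ^ 2 * s) = xa s * (η ^ k)⁻¹ := by rw [← h2]; group
      show (η ^ k)⁻¹ * stH xa xb t * xa s = xa s * ((η ^ k)⁻¹ * stH xa xb t)
      calc (η ^ k)⁻¹ * stH xa xb t * xa s = (η ^ k)⁻¹ * (stH xa xb t * xa s) := by group
        _ = ((η ^ k)⁻¹ * xa (t ^ 2 * s)) * stH xa xb t := by rw [h1]; group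
        _ = xa s * ((η ^ k)⁻¹ * stH xa xb t) := by rw [h2']; group
    · intro s
      have h1 : stH xa xb t * xb s = xb (s / t ^ 2) * stH xa xb t := by
        rw [← hS.h_conj_b ht s]; group
      have h2 := pow_b k s
      rw [hk'] at h2
      have h2' : (η ^ k)⁻¹ * xb (s / t ^ 2) = xb s * (η ^ k)⁻¹ := by rw [← h2]; group
      show (η ^ k)⁻¹ * stH xa xb t * xb s = xb s * ((η ^ k)⁻¹ * stH xa xb t)
      calc (η ^ k)⁻¹ * stH xa xb t * xb s = (η ^ k)⁻¹ * (stH xa xb t * xb s) := by group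
        _ = ((η ^ k)⁻¹ * xb (s / t ^ 2)) * stH xa xb t := by rw [h1]; group
        _ = xb s * ((η ^ k)⁻¹ * stH xa xb t) := by rw [h2']; group
  obtain ⟨k, ζ, hζ, e1⟩ := key t ht
  obtain ⟨j, ζ', hζ', e2⟩ := key s hs
  have c1 : Commute ζ (η ^ j) := by rw [hη]; exact (hζ.comm_h _).pow_right j
  have c2 : Commute ζ' (η ^ k) := by rw [hη]; exact (hζ'.comm_h _).pow_right k
  have c3 : Commute ζ ζ' := by
    have : ζ' = (η ^ j)⁻¹ * stH xa xb s := by rw [e2]; group
    rw [this]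
    exact (c1.inv_right).mul_right (hζ.comm_h s)
  have c4 : Commute (η ^ k) (η ^ j) := (Commute.refl η).pow_pow k j
  rw [e1, e2]
  exact (c4.mul_right c2.symm).mul_left (c1.mul_right c3)

theorem h_mul_of_sq {t r : K} (ht : t ≠ 0) (hr : r ≠ 0) :
    stH xa xb (t * (r * r)) = stH xa xb t * stH xa xb (r * r) := by
  have c := ((h_comm hS) hr ht).eq
  have v := hS.h_sq_mul ht hr
  have v1 := hS.h_sq_mul (one_ne_zero (α := K)) hr
  simp only [mul_one, IsSteinberg.h_one] at v1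
  have e : t * (r * r) = r ^ 2 * t := by ring
  have e' : r * r = r ^ 2 := by ring
  rw [e, e', v, v1, c, mul_assoc]

/-- `h` is multiplicative (finite field). -/
theorem h_mul {t s : K} (ht : t ≠ 0) (hs : s ≠ 0) :
    stH xa xb (t * s) = stH xa xb t * stH xa xb s := by
  classical
  have := Fintype.ofFinite K
  have sq : ∀ {t s : K}, t ≠ 0 → s ≠ 0 → IsSquare s →
      stH xa xb (t * s) = stH xa xb t * stH xa xb s := by
    intro t s ht hs hsq
    obtain ⟨r, hr⟩ := hsq
    have hr0 : r ≠ 0 := by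
      rintro rfl
      rw [mul_zero] at hr
      exact hs hr
    rw [hr]
    exact (h_mul_of_sq hS) ht hr0
  by_cases h1 : IsSquare s
  · exact sq ht hs h1
  by_cases h2 : IsSquare t
  · rw [mul_comm, sq hs ht h2]
    exact ((h_comm hS) hs ht).eq
  have hF : ringChar K ≠ 2 := fun h => h1 (FiniteField.isSquare_of_char_two h s)
  obtain ⟨w, hw0, hwsq, hu0, hm⟩ :
      ∃ w : K, w ≠ 0 ∧ IsSquare w ∧ w + 1 ≠ 0 ∧ ¬ IsSquare (w + 1) := by
    obtain ⟨a, b, hab⟩ : ∃ a b : K, a ^ 2 + b ^ 2 = s := by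
      obtain ⟨a, b, hab⟩ : ∃ a b : K, (Polynomial.X ^ 2 : Polynomial K).eval a +
          (Polynomial.X ^ 2 - Polynomial.C s : Polynomial K).eval b = 0 :=
        FiniteField.exists_root_sum_quadratic (Polynomial.degree_X_pow 2)
          (Polynomial.degree_X_pow_sub_C (by decide) _) (FiniteField.odd_card_of_char_ne_two hF)
      refine ⟨a, b, ?_⟩
      rw [← sub_eq_zero]
      simpa only [Polynomial.eval_C, Polynomial.eval_X, Polynomial.eval_pow, Polynomial.eval_sub,
        ← add_sub_assoc] using hab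
    have ha : a ≠ 0 := by
      rintro rfl
      exact h1 ⟨b, by rw [← hab]; ring⟩
    have hb : b ≠ 0 := by
      rintro rfl
      exact h1 ⟨a, by rw [← hab]; ring⟩
    have e : (a / b) ^ 2 + 1 = s / b ^ 2 := by
      rw [← hab]; field_simp
    refine ⟨(a / b) ^ 2, pow_ne_zero 2 (div_ne_zero ha hb), ⟨a / b, by ring⟩, ?_, ?_⟩
    · rw [e]; exact div_ne_zero hs (pow_ne_zero 2 hb)
    · rw [e]
      rintro ⟨c, hc⟩
      apply h1
      refine ⟨c * b, ?_⟩
      rw [div_eq_iff (pow_ne_zero 2 hb)] at hc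
      rw [hc]; ring
  have star : stH xa xb (w + 1) * stH xa xb (w + 1)⁻¹ = 1 := by
    have k1 := hS.key_h hw0 hu0
    have k2 : stH xa xb (w * (w + 1)) = stH xa xb (w + 1) * stH xa xb w := by
      rw [mul_comm]
      exact sq hu0 hw0 hwsq
    rw [k2] at k1
    have c := ((h_comm hS) hw0 (inv_ne_zero hu0)).eq
    have e : (stH xa xb (w + 1) * stH xa xb (w + 1)⁻¹) * stH xa xb w = stH xa xb w := by
      calc (stH xa xb (w + 1) * stH xa xb (w + 1)⁻¹) * stH xa xb w
          = stH xa xb (w + 1) * (stH xa xb (w + 1)⁻¹ * stH xa xb w) := by group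
        _ = stH xa xb (w + 1) * (stH xa xb w * stH xa xb (w + 1)⁻¹) := by rw [c]
        _ = stH xa xb w := by rw [← mul_assoc]; exact k1.symm
    exact mul_eq_right.mp e
  have eu : ∀ {x : K}, x ≠ 0 → ¬ IsSquare x → x ^ (Fintype.card K / 2) = -1 := by
    intro x hx hnsq
    rcases FiniteField.pow_dichotomy hF hx with h | h
    · exact absurd ((FiniteField.isSquare_iff hF hx).mpr h) hnsq
    · exact h
  have sq_of : ∀ {x : K}, x ≠ 0 → x ^ (Fintype.card K / 2) = 1 → IsSquare x :=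
    fun hx h => (FiniteField.isSquare_iff hF hx).mpr h
  have et := eu ht h2
  have es := eu hs h1
  have eu' := eu hu0 hm
  have q1 : IsSquare (t / (w + 1)) :=
    sq_of (div_ne_zero ht hu0) (by rw [div_pow, et, eu']; norm_num)
  have q2 : IsSquare (s * (w + 1)) :=
    sq_of (mul_ne_zero hs hu0) (by rw [mul_pow, es, eu']; norm_num)
  have a1 : stH xa xb t = stH xa xb (w + 1) * stH xa xb (t / (w + 1)) := by
    rw [← sq hu0 (div_ne_zero ht hu0) q1]
    congr 1
    field_simp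
  have a2 : stH xa xb s = stH xa xb (w + 1)⁻¹ * stH xa xb (s * (w + 1)) := by
    rw [← sq (inv_ne_zero hu0) (mul_ne_zero hs hu0) q2]
    congr 1
    field_simp
  have a3 : stH xa xb (t * s) = stH xa xb (t / (w + 1)) * stH xa xb (s * (w + 1)) := by
    rw [← sq (div_ne_zero ht hu0) (mul_ne_zero hs hu0) q2]
    congr 1
    field_simp
  have c := ((h_comm hS) (div_ne_zero ht hu0) (inv_ne_zero hu0)).eq
  rw [a1, a2, a3]
  calc stH xa xb (t / (w + 1)) * stH xa xb (s * (w + 1))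
      = (stH xa xb (w + 1) * stH xa xb (w + 1)⁻¹) * stH xa xb (t / (w + 1)) *
          stH xa xb (s * (w + 1)) := by rw [star]; group
    _ = stH xa xb (w + 1) * (stH xa xb (w + 1)⁻¹ * stH xa xb (t / (w + 1))) *
          stH xa xb (s * (w + 1)) := by group
    _ = stH xa xb (w + 1) * (stH xa xb (t / (w + 1)) * stH xa xb (w + 1)⁻¹) *
          stH xa xb (s * (w + 1)) := by rw [c]
    _ = stH xa xb (w + 1) * stH xa xb (t / (w + 1)) *
          (stH xa xb (w + 1)⁻¹ * stH xa xb (s * (w + 1))) := by group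


end Fin

/-- The Steinberg relations from additivity and the two conjugation relations of the
presentation (one for each of the two `n`-elements). -/
theorem steinberg_of_two {xa xb : F → G} (add_a : ∀ s t, xa (s + t) = xa s * xa t)
    (add_b : ∀ s t, xb (s + t) = xb s * xb t)
    (ca : ∀ t, t ≠ 0 → ∀ s, stN xa xb t * xa s * (stN xa xb t)⁻¹ = xb (-(s / t ^ 2)))
    (cb : ∀ t, t ≠ 0 → ∀ s, stN xb xa t * xb s * (stN xb xa t)⁻¹ = xa (-(s / t ^ 2))) :
    IsSteinberg xa xb := by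
  refine ⟨add_a, add_b, ca, ?_⟩
  intro t ht s
  have hbr : stN xa xb t = stN xb xa (-t⁻¹) := by
    have h1 := ca t ht t
    have e : -(t / t ^ 2) = -t⁻¹ := by field_simp
    rw [e] at h1
    have h2 : stN xa xb t * xa t = xb (-t⁻¹) * stN xa xb t := by rw [← h1]; group
    have e2 : stN xb xa (-t⁻¹) = xb (-t⁻¹) * xa t * xb (-t⁻¹) := by
      unfold stN
      rw [inv_neg, inv_inv, neg_neg]
    rw [e2]
    unfold stN at h2 ⊢
    apply mul_right_cancel (b := xa t)
    rw [h2]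
    simp only [mul_assoc]
  rw [hbr, cb (-t⁻¹) (neg_ne_zero.mpr (inv_ne_zero ht)) s]
  congr 1
  field_simp

section SL2K

variable {K : Type*} [Field K]

open Matrix

theorem sl2K_stN_00 {t : K} (ht : t ≠ 0) :
    ((stN (sl2L : K → SpecialLinearGroup (Fin 2) (K)) sl2U t : SpecialLinearGroup (Fin 2) (K)) : Matrix (Fin 2) (Fin 2) (K)) 0 0 = 0 := by
  unfold stN
  simp only [sl2_mul_apply, sl2L_00, sl2L_01, sl2L_10, sl2L_11, sl2U_00, sl2U_01, sl2U_10,
    sl2U_11]
  field_simp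
  ring

theorem sl2K_stN_01 (t : K) :
    ((stN (sl2L : K → SpecialLinearGroup (Fin 2) (K)) sl2U t : SpecialLinearGroup (Fin 2) (K)) : Matrix (Fin 2) (Fin 2) (K)) 0 1 = -t⁻¹ := by
  unfold stN
  simp only [sl2_mul_apply, sl2L_00, sl2L_01, sl2L_10, sl2L_11, sl2U_00, sl2U_01, sl2U_10,
    sl2U_11]
  ring

theorem sl2K_stN_10 {t : K} (ht : t ≠ 0) :
    ((stN (sl2L : K → SpecialLinearGroup (Fin 2) (K)) sl2U t : SpecialLinearGroup (Fin 2) (K)) : Matrix (Fin 2) (Fin 2) (K)) 1 0 = t := by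
  unfold stN
  simp only [sl2_mul_apply, sl2L_00, sl2L_01, sl2L_10, sl2L_11, sl2U_00, sl2U_01, sl2U_10,
    sl2U_11]
  field_simp
  ring

theorem sl2K_stN_11 {t : K} (ht : t ≠ 0) :
    ((stN (sl2L : K → SpecialLinearGroup (Fin 2) (K)) sl2U t : SpecialLinearGroup (Fin 2) (K)) : Matrix (Fin 2) (Fin 2) (K)) 1 1 = 0 := by
  unfold stN
  simp only [sl2_mul_apply, sl2L_00, sl2L_01, sl2L_10, sl2L_11, sl2U_00, sl2U_01, sl2U_10,
    sl2U_11]
  field_simp
  ring

theorem sl2K_hinj1 (x t : K) (ht : t ≠ 0)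
    (h : sl2L x * stH (sl2L : K → SpecialLinearGroup (Fin 2) (K)) sl2U t = 1) :
    x = 0 ∧ t = 1 := by
  have h1 : sl2L x * stN (sl2L : K → SpecialLinearGroup (Fin 2) (K)) sl2U t =
      stN sl2L sl2U 1 := by
    unfold stH at h
    rw [← mul_assoc] at h
    exact mul_inv_eq_one.mp h
  have c10 := congrArg
    (fun g : SpecialLinearGroup (Fin 2) (K) => (g : Matrix (Fin 2) (Fin 2) (K)) 1 0) h1
  have c11 := congrArg
    (fun g : SpecialLinearGroup (Fin 2) (K) => (g : Matrix (Fin 2) (Fin 2) (K)) 1 1) h1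
  simp only [sl2_mul_apply, sl2L_00, sl2L_01, sl2L_10, sl2L_11, sl2K_stN_00 ht, sl2K_stN_01,
    sl2K_stN_10 ht, sl2K_stN_10 (one_ne_zero (α := K)), sl2K_stN_11 ht,
    sl2K_stN_11 (one_ne_zero (α := K))] at c10 c11
  have ht1 : t = 1 := by linear_combination c10
  refine ⟨?_, ht1⟩
  have : x * t⁻¹ = 0 := by linear_combination -c11
  rcases mul_eq_zero.mp this with h0 | h0
  · exact h0
  · exact absurd h0 (inv_ne_zero ht)

theorem sl2K_hinj2 (x t y : K) (ht : t ≠ 0) :
    sl2L x * stH (sl2L : K → SpecialLinearGroup (Fin 2) (K)) sl2U t *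
      stN sl2L sl2U 1 * sl2L y ≠ 1 := by
  intro h
  have h1 : sl2L x * stN (sl2L : K → SpecialLinearGroup (Fin 2) (K)) sl2U t * sl2L y
      = 1 := by
    rw [IsSteinberg.n_eq t, ← mul_assoc]
    exact h
  have c01 := congrArg
    (fun g : SpecialLinearGroup (Fin 2) (K) => (g : Matrix (Fin 2) (Fin 2) (K)) 0 1) h1
  simp only [sl2_mul_apply, sl2L_00, sl2L_01, sl2L_10, sl2L_11, sl2K_stN_00 ht, sl2K_stN_01,
    sl2K_stN_10 ht, sl2K_stN_11 ht] at c01
  have : t⁻¹ = 0 := by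
    have e : ((1 : SpecialLinearGroup (Fin 2) (K)) : Matrix (Fin 2) (Fin 2) (K)) 0 1
        = 0 := by simp
    rw [e] at c01
    linear_combination -c01
  exact inv_ne_zero ht this

theorem sl2K_conj_L {t : K} (ht : t ≠ 0) (s : K) :
    stN (sl2L : K → SpecialLinearGroup (Fin 2) K) sl2U t * sl2L s *
      (stN (sl2L : K → SpecialLinearGroup (Fin 2) K) sl2U t)⁻¹ = sl2U (-(s / t ^ 2)) := by
  rw [mul_inv_eq_iff_eq_mul]
  apply sl2_ext <;>
    simp only [sl2_mul_apply, sl2L_00, sl2L_01, sl2L_10, sl2L_11, sl2U_00, sl2U_01, sl2U_10,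
      sl2U_11, sl2K_stN_00 ht, sl2K_stN_01, sl2K_stN_10 ht, sl2K_stN_11 ht] <;>
    field_simp <;> ring

theorem sl2K_stN'_00 {t : K} (ht : t ≠ 0) :
    ((stN (sl2U : K → SpecialLinearGroup (Fin 2) K) sl2L t : SpecialLinearGroup (Fin 2) K) :
      Matrix (Fin 2) (Fin 2) K) 0 0 = 0 := by
  unfold stN
  simp only [sl2_mul_apply, sl2L_00, sl2L_01, sl2L_10, sl2L_11, sl2U_00, sl2U_01, sl2U_10,
    sl2U_11]
  field_simp
  ring

theorem sl2K_stN'_01 {t : K} (ht : t ≠ 0) :
    ((stN (sl2U : K → SpecialLinearGroup (Fin 2) K) sl2L t : SpecialLinearGroup (Fin 2) K) :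
      Matrix (Fin 2) (Fin 2) K) 0 1 = t := by
  unfold stN
  simp only [sl2_mul_apply, sl2L_00, sl2L_01, sl2L_10, sl2L_11, sl2U_00, sl2U_01, sl2U_10,
    sl2U_11]
  field_simp
  ring

theorem sl2K_stN'_10 (t : K) :
    ((stN (sl2U : K → SpecialLinearGroup (Fin 2) K) sl2L t : SpecialLinearGroup (Fin 2) K) :
      Matrix (Fin 2) (Fin 2) K) 1 0 = -t⁻¹ := by
  unfold stN
  simp only [sl2_mul_apply, sl2L_00, sl2L_01, sl2L_10, sl2L_11, sl2U_00, sl2U_01, sl2U_10,
    sl2U_11]
  ring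

theorem sl2K_stN'_11 {t : K} (ht : t ≠ 0) :
    ((stN (sl2U : K → SpecialLinearGroup (Fin 2) K) sl2L t : SpecialLinearGroup (Fin 2) K) :
      Matrix (Fin 2) (Fin 2) K) 1 1 = 0 := by
  unfold stN
  simp only [sl2_mul_apply, sl2L_00, sl2L_01, sl2L_10, sl2L_11, sl2U_00, sl2U_01, sl2U_10,
    sl2U_11]
  field_simp
  ring

theorem sl2K_conj_U {t : K} (ht : t ≠ 0) (s : K) :
    stN (sl2U : K → SpecialLinearGroup (Fin 2) K) sl2L t * sl2U s *
      (stN (sl2U : K → SpecialLinearGroup (Fin 2) K) sl2L t)⁻¹ = sl2L (-(s / t ^ 2)) := by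
  rw [mul_inv_eq_iff_eq_mul]
  apply sl2_ext <;>
    simp only [sl2_mul_apply, sl2L_00, sl2L_01, sl2L_10, sl2L_11, sl2U_00, sl2U_01, sl2U_10,
      sl2U_11, sl2K_stN'_00 ht, sl2K_stN'_01 ht, sl2K_stN'_10, sl2K_stN'_11 ht] <;>
    field_simp <;> ring

theorem sl2K_steinberg : IsSteinberg (sl2L : K → SpecialLinearGroup (Fin 2) K) sl2U :=
  steinberg_of_two (fun s t => (sl2L_mul s t).symm) (fun s t => (sl2U_mul s t).symm)
    (fun _ ht s => sl2K_conj_L ht s) (fun _ ht s => sl2K_conj_U ht s)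

end SL2K

section Pres

variable {K : Type*} [Field K]

open Matrix

/-- The relators of the rank one Steinberg presentation. -/
def stRels (K : Type*) [Field K] : Set (FreeGroup (Bool × K)) :=
  {g : FreeGroup (Bool × K) | ∃ (b : Bool) (t u : K), g = FreeGroup.of (b, t) * FreeGroup.of (b, u) * (FreeGroup.of (b, t + u))⁻¹} ∪
    {g | ∃ (b : Bool) (t u : K), t ≠ 0 ∧
      g = (FreeGroup.of (b, t) * FreeGroup.of (!b, -t⁻¹) * FreeGroup.of (b, t)) * FreeGroup.of (b, u) *
            (FreeGroup.of (b, t) * FreeGroup.of (!b, -t⁻¹) * FreeGroup.of (b, t))⁻¹ * (FreeGroup.of (!b, -(t⁻¹ ^ 2 * u)))⁻¹}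

/-- The generator `x_b(t)` of the presented group. -/
def pgen (b : Bool) (t : K) : PresentedGroup (stRels K) := PresentedGroup.of (b, t)

theorem pres_add (b : Bool) (t u : K) : pgen b t * pgen b u = pgen b (t + u) := by
  have h : (FreeGroup.of (b, t) * FreeGroup.of (b, u) * (FreeGroup.of (b, t + u))⁻¹) ∈
      stRels K := Or.inl ⟨b, t, u, rfl⟩
  have h1 := PresentedGroup.one_of_mem h
  rw [map_mul, map_mul, map_inv] at h1
  exact mul_inv_eq_one.mp h1

theorem pres_conj (b : Bool) {t : K} (ht : t ≠ 0) (u : K) :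
    (pgen b t * pgen (!b) (-t⁻¹) * pgen b t) * pgen b u *
      (pgen b t * pgen (!b) (-t⁻¹) * pgen b t)⁻¹ = pgen (!b) (-(t⁻¹ ^ 2 * u)) := by
  have h : ((FreeGroup.of (b, t) * FreeGroup.of (!b, -t⁻¹) * FreeGroup.of (b, t)) *
      FreeGroup.of (b, u) *
      (FreeGroup.of (b, t) * FreeGroup.of (!b, -t⁻¹) * FreeGroup.of (b, t))⁻¹ *
      (FreeGroup.of (!b, -(t⁻¹ ^ 2 * u)))⁻¹) ∈ stRels K := Or.inr ⟨b, t, u, ht, rfl⟩
  have h1 := PresentedGroup.one_of_mem h
  simp only [map_mul, map_inv] at h1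
  exact mul_inv_eq_one.mp h1

theorem pres_steinberg : IsSteinberg (pgen (K := K) false) (pgen true) := by
  apply steinberg_of_two
  · intro s t; exact (pres_add false s t).symm
  · intro s t; exact (pres_add true s t).symm
  · intro t ht s
    have h := pres_conj false ht s
    have e : -(s / t ^ 2) = -(t⁻¹ ^ 2 * s) := by field_simp
    rw [e]
    exact h
  · intro t ht s
    have h := pres_conj true ht s
    have e : -(s / t ^ 2) = -(t⁻¹ ^ 2 * s) := by field_simp
    rw [e]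
    exact h

/-- The images of the generators in `SL₂(K)`. -/
def presF (K : Type*) [Field K] : Bool × K → SpecialLinearGroup (Fin 2) K :=
  fun x => if x.1 then sl2U x.2 else sl2L x.2

theorem presF_true (t : K) : presF K (true, t) = sl2U t := rfl
theorem presF_false (t : K) : presF K (false, t) = sl2L t := rfl

theorem presF_rels : ∀ r ∈ stRels K, FreeGroup.lift (presF K) r = 1 := by
  rintro r (⟨b, t, u, rfl⟩ | ⟨b, t, u, ht, rfl⟩)
  · simp only [map_mul, map_inv, FreeGroup.lift_apply_of]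
    cases b
    · rw [presF_false, presF_false, presF_false, sl2L_mul, mul_inv_cancel]
    · rw [presF_true, presF_true, presF_true, sl2U_mul, mul_inv_cancel]
  · simp only [map_mul, map_inv, FreeGroup.lift_apply_of]
    have e : -(u / t ^ 2) = -(t⁻¹ ^ 2 * u) := by field_simp
    cases b
    · simp only [Bool.not_false, presF_false, presF_true]
      have h := sl2K_conj_L ht u
      unfold stN at h
      rw [h, e, mul_inv_cancel]
    · simp only [Bool.not_true, presF_false, presF_true]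
      have h := sl2K_conj_U ht u
      unfold stN at h
      rw [h, e, mul_inv_cancel]

/-- The homomorphism from the presented group to `SL₂(K)`. -/
noncomputable def presHom (K : Type*) [Field K] :
    PresentedGroup (stRels K) →* SpecialLinearGroup (Fin 2) K :=
  PresentedGroup.toGroup (presF_rels (K := K))

theorem presHom_true (t : K) : presHom K (pgen true t) = sl2U t :=
  PresentedGroup.toGroup.of _

theorem presHom_false (t : K) : presHom K (pgen false t) = sl2L t :=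
  PresentedGroup.toGroup.of _

theorem presHom_surj : Function.Surjective (presHom K) := by
  rw [← MonoidHom.range_eq_top, eq_top_iff, ← sl2_sup_eq_top, sup_le_iff]
  constructor
  · intro x hx
    obtain ⟨t, rfl⟩ := mem_lowerUnipotentSL2.mp hx
    exact ⟨_, presHom_false t⟩
  · intro x hx
    obtain ⟨t, rfl⟩ := mem_upperUnipotentSL2.mp hx
    exact ⟨_, presHom_true t⟩

theorem presHom_inj [Finite K] : Function.Injective (presHom K) := by
  rw [injective_iff_map_eq_one]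
  intro g hg
  have hS := pres_steinberg (K := K)
  have hmem : g ∈ Subgroup.closure (Set.range (pgen (K := K) false) ∪
      Set.range (pgen (K := K) true)) := by
    have htop : Subgroup.closure (Set.range (pgen (K := K) false) ∪
        Set.range (pgen (K := K) true)) = ⊤ := by
      rw [eq_top_iff, ← PresentedGroup.closure_range_of (stRels K)]
      apply Subgroup.closure_mono
      rintro _ ⟨⟨b, t⟩, rfl⟩
      cases b
      · exact Or.inl ⟨t, rfl⟩
      · exact Or.inr ⟨t, rfl⟩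
    rw [htop]
    exact Subgroup.mem_top g
  have hφN : ∀ t, presHom K (stN (pgen false) (pgen true) t) = stN sl2L sl2U t := by
    intro t
    unfold stN
    rw [map_mul, map_mul, presHom_false, presHom_true]
  have hφH : ∀ t, presHom K (stH (pgen false) (pgen true) t) = stH sl2L sl2U t := by
    intro t
    unfold stH
    rw [map_mul, map_inv, hφN, hφN]
  rcases nf_of_mem hS (fun t s ht hs => h_mul hS ht hs) hmem with
    ⟨x, t, ht, rfl⟩ | ⟨x, t, y, ht, rfl⟩
  · rw [map_mul, presHom_false, hφH] at hg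
    obtain ⟨rfl, rfl⟩ := sl2K_hinj1 x t ht hg
    rw [hS.a_zero, IsSteinberg.h_one, mul_one]
  · rw [map_mul, map_mul, map_mul, presHom_false, hφH, hφN, presHom_false] at hg
    exact absurd hg (sl2K_hinj2 x t y ht)

/-- The rank one Steinberg presentation of `SL₂` over a finite field. -/
theorem sl2_presentation {K : Type*} [Field K] [Finite K] :
    ∃ e : PresentedGroup (stRels K) ≃* SpecialLinearGroup (Fin 2) K,
      (∀ t : K, ((e (PresentedGroup.of (true, t)) : Matrix (Fin 2) (Fin 2) K)) = !![1, t; 0, 1]) ∧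
      (∀ t : K, ((e (PresentedGroup.of (false, t)) : Matrix (Fin 2) (Fin 2) K)) =
        !![1, 0; t, 1]) := by
  refine ⟨MulEquiv.ofBijective (presHom K) ⟨presHom_inj, presHom_surj⟩, ?_, ?_⟩
  · intro t
    have h : (MulEquiv.ofBijective (presHom K) ⟨presHom_inj, presHom_surj⟩)
        (PresentedGroup.of (true, t)) = sl2U t := presHom_true t
    rw [h]
    rfl
  · intro t
    have h : (MulEquiv.ofBijective (presHom K) ⟨presHom_inj, presHom_surj⟩)
        (PresentedGroup.of (false, t)) = sl2L t := presHom_false t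
    rw [h]
    rfl

end Pres
end StFin

end Cfsg.Agent.H85
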