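import Mathlib
import Cfsg.Agent.H45.SLGen

/-!
# The Steinberg presentation of `SL_n`: generators, relations and the map to `SL_n` (helper85)
-/

set_option autoImplicit false
set_option linter.unusedSectionVars false
set_option linter.unusedSimpArgs false

namespace Cfsg.Agent.H85.StLin

open Matrix

section Generic

variable {G : Type*} [Group G]

/-- Conjugation. -/
def cj (g x : G) : G := g * x * g⁻¹

theorem cj_mul_left (g h x : G) : cj (g * h) x = cj g (cj h x) := by unfold cj; group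

theorem cj_mul (g x y : G) : cj g (x * y) = cj g x * cj g y := by unfold cj; group

theorem cj_one_right (g : G) : cj g 1 = 1 := by unfold cj; group

theorem cj_inv (g x : G) : cj g x⁻¹ = (cj g x)⁻¹ := by unfold cj; group

theorem cj_of_comm {g x : G} (h : g * x = x * g) : cj g x = x := by
  unfold cj; rw [h]; group

/-- Induction over a closure of a set closed under inverses: only products are needed. -/
theorem cl_ind {T : Set G} (hT : ∀ g ∈ T, g⁻¹ ∈ T) {p : G → Prop}
    (h1 : p 1) (hg : ∀ g ∈ T, p g) (hm : ∀ a b, p a → p b → p (a * b)) :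
    ∀ g ∈ Subgroup.closure T, p g := by
  intro g hgc
  have h3 : T ∪ T⁻¹ = T := by
    apply Set.union_eq_self_of_subset_right
    intro x hx
    have := hT _ (Set.mem_inv.mp hx)
    simpa using this
  have h2 : (Subgroup.closure T).toSubmonoid = Submonoid.closure (T ∪ T⁻¹) :=
    Subgroup.closure_toSubmonoid T
  rw [h3] at h2
  have hmem : g ∈ Submonoid.closure T := by
    rw [← h2]; exact hgc
  exact Submonoid.closure_induction (motive := fun x _ => p x) (fun x hx => hg x hx) h1
    (fun a b _ _ ha hb => hm a b ha hb) hmem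

/-- The same induction with membership hypotheses in the product case. -/
theorem cl_ind' {T : Set G} (hT : ∀ g ∈ T, g⁻¹ ∈ T) {p : G → Prop}
    (h1 : p 1) (hg : ∀ g ∈ T, p g)
    (hm : ∀ a b, a ∈ Subgroup.closure T → b ∈ Subgroup.closure T → p a → p b → p (a * b)) :
    ∀ g ∈ Subgroup.closure T, p g := by
  intro g hgc
  have h := cl_ind hT (p := fun x => x ∈ Subgroup.closure T ∧ p x) ⟨Subgroup.one_mem _, h1⟩
    (fun g hgT => ⟨Subgroup.subset_closure hgT, hg g hgT⟩)
    (fun a b ha hb => ⟨Subgroup.mul_mem _ ha.1 hb.1, hm a b ha.1 hb.1 ha.2 hb.2⟩) g hgc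
  exact h.2

/-- Elementwise commuting generators give elementwise commuting closures. -/
theorem comm_closure {T U : Set G} (h : ∀ a ∈ T, ∀ b ∈ U, a * b = b * a) :
    ∀ a ∈ Subgroup.closure T, ∀ b ∈ Subgroup.closure U, a * b = b * a := by
  intro a ha b hb
  have h1 : Subgroup.closure U ≤ Subgroup.centralizer (Subgroup.closure T : Set G) := by
    rw [Subgroup.closure_le]
    intro b hb
    rw [SetLike.mem_coe, Subgroup.mem_centralizer_iff]
    intro a ha
    have h2 : Subgroup.closure T ≤ Subgroup.centralizer ({b} : Set G) := by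
      rw [Subgroup.closure_le]
      intro a ha
      rw [SetLike.mem_coe, Subgroup.mem_centralizer_iff]
      intro x hx
      rw [Set.mem_singleton_iff] at hx
      subst hx
      exact (h a ha x hb).symm
    exact ((Subgroup.mem_centralizer_iff.mp (h2 ha)) b rfl).symm
  exact (Subgroup.mem_centralizer_iff.mp (h1 hb)) a ha

/-- Generators normalising a closure. -/
theorem norm_closure {T U : Set G} (hT : ∀ g ∈ T, g⁻¹ ∈ T)
    (h : ∀ g ∈ T, ∀ u ∈ U, g * u * g⁻¹ ∈ Subgroup.closure U) :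
    ∀ g ∈ Subgroup.closure T, ∀ u ∈ Subgroup.closure U, g * u * g⁻¹ ∈ Subgroup.closure U := by
  have h1 : ∀ g ∈ T, ∀ u ∈ Subgroup.closure U, g * u * g⁻¹ ∈ Subgroup.closure U := by
    intro g hg u hu
    have h2 : Subgroup.closure U ≤ (Subgroup.closure U).comap (MulAut.conj g).toMonoidHom := by
      rw [Subgroup.closure_le]
      intro u hu
      exact h g hg u hu
    exact h2 hu
  intro g hg
  refine cl_ind hT (p := fun g => ∀ u ∈ Subgroup.closure U, g * u * g⁻¹ ∈ Subgroup.closure U)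
    ?_ h1 ?_ g hg
  · intro u hu
    simpa using hu
  · intro a b ha hb u hu
    have := ha _ (hb u hu)
    have e : a * b * u * (a * b)⁻¹ = a * (b * u * b⁻¹) * a⁻¹ := by group
    rw [e]
    exact this

end Generic

variable {K : Type*} [Field K]

/-- The index type of the generators. -/
abbrev Idx (n : ℕ) := {ij : Fin n × Fin n // ij.1 ≠ ij.2}

/-- The relators of the Steinberg presentation of `SL_n`. -/
def rels (K : Type*) [Field K] (n : ℕ) : Set (FreeGroup (Idx n × K)) :=
  {g : FreeGroup ({ij : Fin n × Fin n // ij.1 ≠ ij.2} × K) | ∃ (a : {ij : Fin n × Fin n // ij.1 ≠ ij.2}) (t u : K),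
      g = FreeGroup.of (a, t) * FreeGroup.of (a, u) * (FreeGroup.of (a, t + u))⁻¹} ∪
    {g | ∃ (a b : {ij : Fin n × Fin n // ij.1 ≠ ij.2}) (t u : K), a.1.1 ≠ b.1.2 ∧ a.1.2 ≠ b.1.1 ∧
      g = FreeGroup.of (a, t) * FreeGroup.of (b, u) * (FreeGroup.of (a, t))⁻¹ * (FreeGroup.of (b, u))⁻¹} ∪
    {g | ∃ (a b : {ij : Fin n × Fin n // ij.1 ≠ ij.2}) (h : a.1.1 ≠ b.1.2) (t u : K), a.1.2 = b.1.1 ∧
      g = FreeGroup.of (a, t) * FreeGroup.of (b, u) * (FreeGroup.of (a, t))⁻¹ * (FreeGroup.of (b, u))⁻¹ *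
        (FreeGroup.of (⟨(a.1.1, b.1.2), h⟩, t * u))⁻¹}

/-- The presented group. -/
abbrev St (K : Type*) [Field K] (n : ℕ) := PresentedGroup (rels K n)

variable {n : ℕ}

/-- The generator `x_ij(t)`, trivial for `i = j`. -/
def xg (i j : Fin n) (t : K) : St K n :=
  if h : i ≠ j then PresentedGroup.of (⟨(i, j), h⟩, t) else 1

theorem xg_of {i j : Fin n} (h : i ≠ j) (t : K) :
    xg i j t = PresentedGroup.of ((⟨(i, j), h⟩ : Idx n), t) := dif_pos h

theorem xg_self (i : Fin n) (t : K) : xg i i t = 1 := dif_neg (by simp)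

theorem xg_mul (i j : Fin n) (t u : K) : xg i j t * xg i j u = xg i j (t + u) := by
  by_cases h : i = j
  · subst h; simp [xg_self]
  · rw [xg_of h, xg_of h, xg_of h]
    have hm : (FreeGroup.of ((⟨(i, j), h⟩ : Idx n), t) * FreeGroup.of ((⟨(i, j), h⟩ : Idx n), u) *
        (FreeGroup.of ((⟨(i, j), h⟩ : Idx n), t + u))⁻¹) ∈ rels K n :=
      Or.inl (Or.inl ⟨_, t, u, rfl⟩)
    have h1 := PresentedGroup.one_of_mem hm
    rw [map_mul, map_mul, map_inv] at h1
    exact mul_inv_eq_one.mp h1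

theorem xg_zero (i j : Fin n) : xg i j (0 : K) = 1 := by
  have h := xg_mul i j (0 : K) 0
  rw [add_zero] at h
  simpa using h

theorem xg_inv (i j : Fin n) (t : K) : (xg i j t)⁻¹ = xg i j (-t) := by
  rw [inv_eq_iff_mul_eq_one, xg_mul, add_neg_cancel, xg_zero]

theorem xg_comm {i j k l : Fin n} (hil : i ≠ l) (hjk : j ≠ k) (t u : K) :
    xg i j t * xg k l u = xg k l u * xg i j t := by
  by_cases h1 : i = j
  · subst h1; simp [xg_self]
  by_cases h2 : k = l
  · subst h2; simp [xg_self]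
  rw [xg_of h1, xg_of h2]
  have hm : (FreeGroup.of ((⟨(i, j), h1⟩ : Idx n), t) * FreeGroup.of ((⟨(k, l), h2⟩ : Idx n), u) *
      (FreeGroup.of ((⟨(i, j), h1⟩ : Idx n), t))⁻¹ *
      (FreeGroup.of ((⟨(k, l), h2⟩ : Idx n), u))⁻¹) ∈ rels K n :=
    Or.inl (Or.inr ⟨_, _, t, u, hil, hjk, rfl⟩)
  have h3 := PresentedGroup.one_of_mem hm
  simp only [map_mul, map_inv] at h3
  exact mul_inv_eq_iff_eq_mul.mp (mul_inv_eq_one.mp h3)

theorem xg_comm3 {i j l : Fin n} (hij : i ≠ j) (hjl : j ≠ l) (hil : i ≠ l) (t u : K) :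
    xg i j t * xg j l u * (xg i j t)⁻¹ * (xg j l u)⁻¹ = xg i l (t * u) := by
  rw [xg_of hij, xg_of hjl, xg_of hil]
  have hm : (FreeGroup.of ((⟨(i, j), hij⟩ : Idx n), t) * FreeGroup.of ((⟨(j, l), hjl⟩ : Idx n), u) *
      (FreeGroup.of ((⟨(i, j), hij⟩ : Idx n), t))⁻¹ *
      (FreeGroup.of ((⟨(j, l), hjl⟩ : Idx n), u))⁻¹ *
      (FreeGroup.of ((⟨(i, l), hil⟩ : Idx n), t * u))⁻¹) ∈ rels K n :=
    Or.inr ⟨⟨(i, j), hij⟩, ⟨(j, l), hjl⟩, hil, t, u, rfl, rfl⟩
  have h3 := PresentedGroup.one_of_mem hm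
  simp only [map_mul, map_inv] at h3
  exact mul_inv_eq_one.mp h3

theorem cj_comm {i j k l : Fin n} (hil : i ≠ l) (hjk : j ≠ k) (t u : K) :
    cj (xg i j t) (xg k l u) = xg k l u := cj_of_comm (xg_comm hil hjk t u)

theorem cj_1 {i j l : Fin n} (hij : i ≠ j) (hjl : j ≠ l) (hil : i ≠ l) (t u : K) :
    cj (xg i j t) (xg j l u) = xg i l (t * u) * xg j l u := by
  unfold cj
  rw [← xg_comm3 hij hjl hil t u]
  group

theorem cj_2 {i j l : Fin n} (hij : i ≠ j) (hjl : j ≠ l) (hil : i ≠ l) (t u : K) :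
    cj (xg j l u) (xg i j t) = xg i l (-(t * u)) * xg i j t := by
  unfold cj
  rw [← xg_inv, ← xg_comm3 hij hjl hil t u]
  group

/-- The generating set of the presented group is everything. -/
theorem closure_xg : Subgroup.closure {g : St K n | ∃ (i j : Fin n) (t : K), g = xg i j t} = ⊤ := by
  rw [eq_top_iff, ← PresentedGroup.closure_range_of (rels K n)]
  apply Subgroup.closure_mono
  rintro _ ⟨⟨⟨⟨i, j⟩, h⟩, t⟩, rfl⟩
  exact ⟨i, j, t, (xg_of h t).symm⟩

theorem xg_set_inv : ∀ g ∈ {g : St K n | ∃ (i j : Fin n) (t : K), g = xg i j t},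
    g⁻¹ ∈ {g : St K n | ∃ (i j : Fin n) (t : K), g = xg i j t} := by
  rintro _ ⟨i, j, t, rfl⟩
  exact ⟨i, j, -t, xg_inv i j t⟩

section Hom

theorem tr_mul {i j : Fin n} (h : i ≠ j) (t u : K) :
    SpecialLinearGroup.transvection h t * SpecialLinearGroup.transvection h u =
      SpecialLinearGroup.transvection h (t + u) :=
  Subtype.ext (transvection_mul_transvection_same i j h t u)

theorem tr_inv {i j : Fin n} (h : i ≠ j) (t : K) :
    (SpecialLinearGroup.transvection h t)⁻¹ = SpecialLinearGroup.transvection h (-t) := by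
  rw [inv_eq_iff_mul_eq_one, tr_mul, add_neg_cancel, Matrix.SpecialLinearGroup.transvection_coeff_zero]

theorem tr_comm {i j k l : Fin n} (hij : i ≠ j) (hkl : k ≠ l) (hil : i ≠ l) (hjk : j ≠ k)
    (t u : K) :
    SpecialLinearGroup.transvection hij t * SpecialLinearGroup.transvection hkl u =
      SpecialLinearGroup.transvection hkl u * SpecialLinearGroup.transvection hij t := by
  have t1 : single i j t * single k l u = (0 : Matrix (Fin n) (Fin n) K) :=
    single_mul_single_of_ne _ _ _ _ hjk _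
  have t2 : single k l u * single i j t = (0 : Matrix (Fin n) (Fin n) K) :=
    single_mul_single_of_ne _ _ _ _ (Ne.symm hil) _
  have hm : ((SpecialLinearGroup.transvection hij t * SpecialLinearGroup.transvection hkl u :
      SpecialLinearGroup (Fin n) K) : Matrix (Fin n) (Fin n) K) =
      ((SpecialLinearGroup.transvection hkl u * SpecialLinearGroup.transvection hij t :
      SpecialLinearGroup (Fin n) K) : Matrix (Fin n) (Fin n) K) := by
    simp only [Matrix.SpecialLinearGroup.coe_mul, Matrix.SpecialLinearGroup.transvection_coe, mul_add, add_mul,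
      mul_one, one_mul, t1, t2, add_zero]
    abel
  exact Subtype.ext hm

/-- The images of the generators. -/
def piF (K : Type*) [Field K] (n : ℕ) : Idx n × K → SpecialLinearGroup (Fin n) K :=
  fun x => SpecialLinearGroup.transvection x.1.2 x.2

theorem piF_rels : ∀ r ∈ rels K n, FreeGroup.lift (piF K n) r = 1 := by
  rintro r ((⟨a, t, u, rfl⟩ | ⟨a, b, t, u, h1, h2, rfl⟩) | ⟨a, b, h, t, u, h1, rfl⟩)
  · simp only [map_mul, map_inv, FreeGroup.lift_apply_of, piF]
    rw [tr_mul, mul_inv_cancel]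
  · simp only [map_mul, map_inv, FreeGroup.lift_apply_of, piF]
    rw [tr_comm _ _ h1 h2]
    group
  · simp only [map_mul, map_inv, FreeGroup.lift_apply_of, piF]
    obtain ⟨⟨i, j⟩, hij⟩ := a
    obtain ⟨⟨j', l⟩, hjl⟩ := b
    simp only at h1 h hij hjl
    subst h1
    rw [tr_inv, tr_inv, H45.transvection_comm_rel hij hjl h, mul_inv_cancel]

/-- The homomorphism to `SL_n`. -/
noncomputable def piHom (K : Type*) [Field K] (n : ℕ) :
    St K n →* SpecialLinearGroup (Fin n) K :=
  PresentedGroup.toGroup (piF_rels (K := K) (n := n))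

theorem piHom_xg {i j : Fin n} (h : i ≠ j) (t : K) :
    piHom K n (xg i j t) = SpecialLinearGroup.transvection h t := by
  rw [xg_of h]
  exact PresentedGroup.toGroup.of _

theorem piHom_xg_coe {i j : Fin n} (h : i ≠ j) (t : K) :
    (piHom K n (xg i j t)).1 = Matrix.transvection i j t := by
  rw [piHom_xg h]
  rfl

theorem piHom_surj : Function.Surjective (piHom K n) := by
  rw [← MonoidHom.range_eq_top, eq_top_iff, ← H45.elemSubgroup_eq_top]
  unfold H45.elemSubgroup
  rw [Subgroup.closure_le]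
  rintro _ ⟨i, j, hij, c, rfl⟩
  exact ⟨xg i j c, piHom_xg hij c⟩

end Hom

end Cfsg.Agent.H85.StLin
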