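import Mathlib
import Cfsg.Agent.H85.StLin
import Cfsg.Agent.H85.SteinbergFin

/-!
# Rank one subgroups of the Steinberg group of `SL_n`, `n ≥ 3` (helper85)

The rank one Steinberg relations follow from the commutator relations by means of a third
index; over a finite field this gives the normal form of `H85/SteinbergFin` and the
injectivity of the map to `SL_n` on rank one subgroups.
-/

set_option autoImplicit false
set_option linter.unusedSectionVars false
set_option linter.unusedSimpArgs false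

namespace Cfsg.Agent.H85.StLin

open Matrix

variable {K : Type*} [Field K] {n : ℕ}

theorem nconj_ik {i j k : Fin n} (hij : i ≠ j) (hik : i ≠ k) (hjk : j ≠ k) {t : K} (ht : t ≠ 0)
    (s : K) :
    cj (stN (xg i j) (xg j i) t) (xg i k s) = xg j k (-(t⁻¹ * s)) := by
  unfold stN
  rw [cj_mul_left, cj_mul_left, cj_comm hik hij.symm, cj_1 hij.symm hik hjk, cj_mul,
    cj_1 hij hjk hik, cj_comm hik hij.symm, mul_assoc, xg_comm hjk hik.symm, ← mul_assoc, xg_mul]
  have e : t * (-t⁻¹ * s) + s = 0 := by field_simp; ring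
  rw [e, xg_zero, one_mul, neg_mul]

theorem nconj_kj {i j k : Fin n} (hij : i ≠ j) (hik : i ≠ k) (hjk : j ≠ k) {t : K} (ht : t ≠ 0)
    (r : K) :
    cj (stN (xg i j) (xg j i) t) (xg k j r) = xg k i (r * t⁻¹) := by
  unfold stN
  rw [cj_mul_left, cj_mul_left, cj_comm hij hjk, cj_2 hjk.symm hij.symm hik.symm, cj_mul,
    cj_2 hik.symm hij hjk.symm, cj_comm hij hjk, mul_assoc, xg_comm hjk.symm hik,
    ← mul_assoc, xg_mul]
  have e : -(-(r * -t⁻¹) * t) + r = 0 := by field_simp; ring
  have e2 : -(r * -t⁻¹) = r * t⁻¹ := by ring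
  rw [e, xg_zero, one_mul, e2]

theorem rank_one {i j k : Fin n} (hij : i ≠ j) (hik : i ≠ k) (hjk : j ≠ k) {t : K} (ht : t ≠ 0)
    (s : K) :
    stN (xg i j) (xg j i) t * xg i j s * (stN (xg i j) (xg j i) t)⁻¹ = xg j i (-(s / t ^ 2)) := by
  have e : xg (K := K) i j s = xg i k s * xg k j 1 * (xg i k s)⁻¹ * (xg k j 1)⁻¹ := by
    rw [xg_comm3 hik hjk.symm hij, mul_one]
  change cj (stN (xg i j) (xg j i) t) (xg i j s) = _
  rw [e, cj_mul, cj_mul, cj_mul, cj_inv, cj_inv, nconj_ik hij hik hjk ht, nconj_kj hij hik hjk ht,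
    xg_comm3 hjk hik.symm hij.symm]
  congr 1
  field_simp

/-- The rank one Steinberg relations for the pair `(x_ij, x_ji)`, given a third index. -/
theorem steinberg_pair {i j k : Fin n} (hij : i ≠ j) (hik : i ≠ k) (hjk : j ≠ k) :
    IsSteinberg (xg (K := K) i j) (xg j i) :=
  StFin.steinberg_of_two (fun s t => (xg_mul i j s t).symm) (fun s t => (xg_mul j i s t).symm)
    (fun _ ht s => rank_one hij hik hjk ht s) (fun _ ht s => rank_one hij.symm hjk hik ht s)

/-! ### Column vectors -/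

/-- The vector `α e_i + β e_j`. -/
def wv (i j : Fin n) (α β : K) : Fin n → K := α • Pi.single i 1 + β • Pi.single j 1

theorem wv_i {i j : Fin n} (hij : i ≠ j) (α β : K) : wv i j α β i = α := by
  simp [wv, Pi.single_apply, hij]

theorem wv_j {i j : Fin n} (hij : i ≠ j) (α β : K) : wv i j α β j = β := by
  simp [wv, Pi.single_apply, hij.symm]

theorem tr_mulVec (i j : Fin n) (c : K) (v : Fin n → K) :
    (Matrix.transvection i j c) *ᵥ v = v + (c * v j) • Pi.single i 1 := by
  ext k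
  simp [Matrix.transvection, Matrix.add_mulVec, Matrix.single_mulVec, Pi.single_apply,
    Function.update_apply]

theorem tr_wv_ij {i j : Fin n} (hij : i ≠ j) (c α β : K) :
    (Matrix.transvection i j c) *ᵥ wv i j α β = wv i j (α + c * β) β := by
  rw [tr_mulVec, wv_j hij]
  unfold wv
  module

theorem tr_wv_ji {i j : Fin n} (hij : i ≠ j) (c α β : K) :
    (Matrix.transvection j i c) *ᵥ wv i j α β = wv i j α (β + c * α) := by
  rw [tr_mulVec, wv_i hij]
  unfold wv
  module

theorem pi_xa_wv {i j : Fin n} (hij : i ≠ j) (c α β : K) :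
    (piHom K n (xg i j c)).1 *ᵥ wv i j α β = wv i j (α + c * β) β := by
  rw [piHom_xg_coe hij, tr_wv_ij hij]

theorem pi_xb_wv {i j : Fin n} (hij : i ≠ j) (c α β : K) :
    (piHom K n (xg j i c)).1 *ᵥ wv i j α β = wv i j α (β + c * α) := by
  rw [piHom_xg_coe hij.symm, tr_wv_ji hij]

theorem pi_mul_mulVec (g h : St K n) (v : Fin n → K) :
    (piHom K n (g * h)).1 *ᵥ v = (piHom K n g).1 *ᵥ ((piHom K n h).1 *ᵥ v) := by
  rw [map_mul, Matrix.SpecialLinearGroup.coe_mul, Matrix.mulVec_mulVec]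

theorem pi_N_wv {i j : Fin n} (hij : i ≠ j) {t : K} (ht : t ≠ 0) (α β : K) :
    (piHom K n (stN (xg i j) (xg j i) t)).1 *ᵥ wv i j α β = wv i j (t * β) (-(t⁻¹ * α)) := by
  unfold stN
  rw [pi_mul_mulVec, pi_mul_mulVec, pi_xa_wv hij, pi_xb_wv hij, pi_xa_wv hij]
  congr 1
  · field_simp; ring
  · field_simp; ring

theorem pi_H_wv {i j : Fin n} (hij : i ≠ j) (hS : IsSteinberg (xg (K := K) i j) (xg j i))
    {t : K} (ht : t ≠ 0) (α β : K) :
    (piHom K n (stH (xg i j) (xg j i) t)).1 *ᵥ wv i j α β = wv i j (t * α) (t⁻¹ * β) := by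
  unfold stH
  rw [hS.n_inv, pi_mul_mulVec, pi_N_wv hij (neg_ne_zero.mpr one_ne_zero), pi_N_wv hij ht]
  congr 1
  · ring
  · ring

theorem pi_col (g : St K n) (i j k : Fin n) :
    ((piHom K n g).1 *ᵥ wv i j 1 0) k = (piHom K n g).1 k i := by
  simp [wv, Matrix.mulVec, dotProduct, Pi.single_apply]

section Ker

variable [Finite K]

/-- An element of a rank one subgroup whose image fixes `e_i` lies in the root group `x_ij`. -/
theorem rk1_ker {i j : Fin n} (hij : i ≠ j) (hS : IsSteinberg (xg (K := K) i j) (xg j i))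
    {s : St K n}
    (hs : s ∈ Subgroup.closure (Set.range (xg (K := K) i j) ∪ Set.range (xg (K := K) j i)))
    (h0 : (piHom K n s).1 j i = 0) (h1 : (piHom K n s).1 i i = 1) : ∃ x : K, s = xg i j x := by
  rcases StFin.nf_of_mem hS (fun t s ht hs => StFin.h_mul hS ht hs) hs with
    ⟨x, t, ht, rfl⟩ | ⟨x, t, y, ht, rfl⟩
  · have e : (piHom K n (xg i j x * stH (xg i j) (xg j i) t)).1 *ᵥ wv i j 1 0 = wv i j t 0 := by
      rw [pi_mul_mulVec, pi_H_wv hij hS ht, pi_xa_wv hij]
      congr 1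
      · ring
      · ring
    have e2 := congrFun e i
    rw [pi_col, h1, wv_i hij] at e2
    subst e2
    exact ⟨x, by rw [IsSteinberg.h_one, mul_one]⟩
  · exfalso
    have e : (piHom K n (xg i j x * stH (xg i j) (xg j i) t * stN (xg i j) (xg j i) 1 *
        xg i j y)).1 *ᵥ wv i j 1 0 = wv i j (-(x * t⁻¹)) (-t⁻¹) := by
      rw [pi_mul_mulVec, pi_mul_mulVec, pi_mul_mulVec, pi_xa_wv hij, pi_N_wv hij one_ne_zero,
        pi_H_wv hij hS ht, pi_xa_wv hij]
      congr 1
      · simp
      · simp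
    have e2 := congrFun e j
    rw [pi_col, h0, wv_j hij] at e2
    exact inv_ne_zero ht (neg_eq_zero.mp e2.symm)

/-- The map to `SL_n` is injective on rank one subgroups. -/
theorem rk1_inj {i j : Fin n} (hij : i ≠ j) (hS : IsSteinberg (xg (K := K) i j) (xg j i))
    {s : St K n}
    (hs : s ∈ Subgroup.closure (Set.range (xg (K := K) i j) ∪ Set.range (xg (K := K) j i)))
    (h1 : piHom K n s = 1) : s = 1 := by
  obtain ⟨x, rfl⟩ := rk1_ker hij hS hs (by rw [h1]; simp [hij.symm]) (by rw [h1]; simp)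
  have h2 := congrArg (fun M : Matrix.SpecialLinearGroup (Fin n) K => M.1 i j) h1
  simp only [piHom_xg_coe hij] at h2
  simp [Matrix.transvection, hij] at h2
  rw [h2, xg_zero]

end Ker

end Cfsg.Agent.H85.StLin
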