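import Mathlib
import Cfsg.Agent.H85.StLinRk1

/-!
# The Steinberg presentation of `SL_n` over a finite field (helper85)

The presented group `St` of `SL_{m+3}` decomposes as `St = L · S · P` with `P` generated by the
`x_ij`, `j ≠ 0`, `L` by the `x_ij` with `i, j ≠ 0` and `S` by `x_01, x_10`.  The kernel of the map
to `SL` lies in `P = A ⋊ L`, and the map is injective there if it is on `L`.
-/

set_option autoImplicit false
set_option linter.unusedSectionVars false
set_option linter.unusedSimpArgs false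

namespace Cfsg.Agent.H85.StLin

open Matrix

variable {K : Type*} [Field K] {m : ℕ}

/-! ### Index facts -/

theorem ne01 : (0 : Fin (m + 3)) ≠ 1 := by
  rw [Ne, Fin.ext_iff]; simp

theorem ne20 (k : Fin (m + 1)) : k.succ.succ ≠ (0 : Fin (m + 3)) := Fin.succ_ne_zero _

theorem ne21 (k : Fin (m + 1)) : k.succ.succ ≠ (1 : Fin (m + 3)) := by
  rw [Ne, Fin.ext_iff]; simp

theorem succ_ne {n : ℕ} {i j : Fin n} (h : i ≠ j) : i.succ ≠ j.succ :=
  fun e => h (Fin.succ_injective _ e)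

/-! ### Generating sets -/

section Sets

variable (K m)

/-- Generators of the Levi factor. -/
def gL : Set (St K (m + 3)) := {g | ∃ (i j : Fin (m + 2)) (t : K), g = xg i.succ j.succ t}

/-- Generators of the unipotent radical (first row). -/
def gA : Set (St K (m + 3)) := {g | ∃ (j : Fin (m + 2)) (t : K), g = xg 0 j.succ t}

/-- Generators of the opposite radical (first column). -/
def gV : Set (St K (m + 3)) := {g | ∃ (i : Fin (m + 2)) (t : K), g = xg i.succ 0 t}

/-- First row, columns at least two. -/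
def gA2 : Set (St K (m + 3)) := {g | ∃ (j : Fin (m + 1)) (t : K), g = xg 0 j.succ.succ t}

/-- First column, rows at least two. -/
def gV2 : Set (St K (m + 3)) := {g | ∃ (i : Fin (m + 1)) (t : K), g = xg i.succ.succ 0 t}

/-- Second column, rows at least two. -/
def gL1 : Set (St K (m + 3)) := {g | ∃ (i : Fin (m + 1)) (t : K), g = xg i.succ.succ 1 t}

/-- First two rows, columns at least two. -/
def gD : Set (St K (m + 3)) :=
  {g | ∃ (k : Fin (m + 1)) (t : K), g = xg 0 k.succ.succ t ∨ g = xg 1 k.succ.succ t}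

/-- Generators of the rank one group on the first two indices. -/
def gS : Set (St K (m + 3)) :=
  Set.range (xg (K := K) (0 : Fin (m + 3)) 1) ∪ Set.range (xg (K := K) (1 : Fin (m + 3)) 0)

/-- Generators of the parabolic. -/
def gP : Set (St K (m + 3)) := gA K m ∪ gL K m

end Sets

theorem gL_inv : ∀ g ∈ gL K m, g⁻¹ ∈ gL K m := by
  rintro _ ⟨i, j, t, rfl⟩; exact ⟨i, j, -t, xg_inv _ _ t⟩

theorem gA_inv : ∀ g ∈ gA K m, g⁻¹ ∈ gA K m := by
  rintro _ ⟨j, t, rfl⟩; exact ⟨j, -t, xg_inv _ _ t⟩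

theorem gV_inv : ∀ g ∈ gV K m, g⁻¹ ∈ gV K m := by
  rintro _ ⟨j, t, rfl⟩; exact ⟨j, -t, xg_inv _ _ t⟩

theorem gA2_inv : ∀ g ∈ gA2 K m, g⁻¹ ∈ gA2 K m := by
  rintro _ ⟨j, t, rfl⟩; exact ⟨j, -t, xg_inv _ _ t⟩

theorem gV2_inv : ∀ g ∈ gV2 K m, g⁻¹ ∈ gV2 K m := by
  rintro _ ⟨j, t, rfl⟩; exact ⟨j, -t, xg_inv _ _ t⟩

theorem gL1_inv : ∀ g ∈ gL1 K m, g⁻¹ ∈ gL1 K m := by
  rintro _ ⟨j, t, rfl⟩; exact ⟨j, -t, xg_inv _ _ t⟩

theorem gS_inv : ∀ g ∈ gS K m, g⁻¹ ∈ gS K m := by
  rintro _ (⟨t, rfl⟩ | ⟨t, rfl⟩)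
  · exact Or.inl ⟨-t, (xg_inv _ _ t).symm⟩
  · exact Or.inr ⟨-t, (xg_inv _ _ t).symm⟩

theorem gP_inv : ∀ g ∈ gP K m, g⁻¹ ∈ gP K m := by
  rintro g (h | h)
  · exact Or.inl (gA_inv g h)
  · exact Or.inr (gL_inv g h)

theorem A_le_P : Subgroup.closure (gA K m) ≤ Subgroup.closure (gP K m) :=
  Subgroup.closure_mono Set.subset_union_left

theorem L_le_P : Subgroup.closure (gL K m) ≤ Subgroup.closure (gP K m) :=
  Subgroup.closure_mono Set.subset_union_right

theorem L1_le_L : Subgroup.closure (gL1 K m) ≤ Subgroup.closure (gL K m) := by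
  apply Subgroup.closure_mono
  rintro _ ⟨i, t, rfl⟩
  exact ⟨i.succ, 0, t, by rw [Fin.succ_zero_eq_one]⟩

theorem D_le_P : Subgroup.closure (gD K m) ≤ Subgroup.closure (gP K m) := by
  apply Subgroup.closure_mono
  rintro _ ⟨k, t, rfl | rfl⟩
  · exact Or.inl ⟨k.succ, t, rfl⟩
  · exact Or.inr ⟨0, k.succ, t, by rw [Fin.succ_zero_eq_one]⟩

theorem A2_le_D : Subgroup.closure (gA2 K m) ≤ Subgroup.closure (gD K m) := by
  apply Subgroup.closure_mono
  rintro _ ⟨k, t, rfl⟩
  exact ⟨k, t, Or.inl rfl⟩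

/-! ### Normalisation -/

theorem L_norm_V : ∀ l ∈ Subgroup.closure (gL K m), ∀ v ∈ Subgroup.closure (gV K m),
    l * v * l⁻¹ ∈ Subgroup.closure (gV K m) := by
  apply norm_closure gL_inv
  rintro _ ⟨i, j, t, rfl⟩ _ ⟨k, r, rfl⟩
  change cj (xg i.succ j.succ t) (xg k.succ 0 r) ∈ _
  by_cases hij : i = j
  · subst hij
    rw [xg_self]
    unfold cj
    rw [one_mul, inv_one, mul_one]
    exact Subgroup.subset_closure ⟨k, r, rfl⟩
  by_cases hjk : j = k
  · subst hjk
    rw [cj_1 (succ_ne hij) (Fin.succ_ne_zero _) (Fin.succ_ne_zero _)]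
    exact Subgroup.mul_mem _ (Subgroup.subset_closure ⟨i, _, rfl⟩)
      (Subgroup.subset_closure ⟨j, _, rfl⟩)
  · rw [cj_comm (Fin.succ_ne_zero _) (succ_ne hjk)]
    exact Subgroup.subset_closure ⟨k, r, rfl⟩

theorem L_norm_A : ∀ l ∈ Subgroup.closure (gL K m), ∀ a ∈ Subgroup.closure (gA K m),
    l * a * l⁻¹ ∈ Subgroup.closure (gA K m) := by
  apply norm_closure gL_inv
  rintro _ ⟨i, j, t, rfl⟩ _ ⟨k, r, rfl⟩
  change cj (xg i.succ j.succ t) (xg 0 k.succ r) ∈ _
  by_cases hij : i = j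
  · subst hij
    rw [xg_self]
    unfold cj
    rw [one_mul, inv_one, mul_one]
    exact Subgroup.subset_closure ⟨k, r, rfl⟩
  by_cases hik : i = k
  · subst hik
    rw [cj_2 (Fin.succ_ne_zero _).symm (succ_ne hij) (Fin.succ_ne_zero _).symm]
    exact Subgroup.mul_mem _ (Subgroup.subset_closure ⟨j, _, rfl⟩)
      (Subgroup.subset_closure ⟨i, _, rfl⟩)
  · rw [cj_comm (succ_ne hik) (Fin.succ_ne_zero _)]
    exact Subgroup.subset_closure ⟨k, r, rfl⟩

theorem S_norm_D : ∀ s ∈ Subgroup.closure (gS K m), ∀ d ∈ Subgroup.closure (gD K m),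
    s * d * s⁻¹ ∈ Subgroup.closure (gD K m) := by
  apply norm_closure gS_inv
  rintro _ (⟨c, rfl⟩ | ⟨c, rfl⟩) _ ⟨k, r, rfl | rfl⟩
  · change cj (xg 0 1 c) (xg 0 k.succ.succ r) ∈ _
    rw [cj_comm (ne20 k).symm ne01.symm]
    exact Subgroup.subset_closure ⟨k, r, Or.inl rfl⟩
  · change cj (xg 0 1 c) (xg 1 k.succ.succ r) ∈ _
    rw [cj_1 ne01 (ne21 k).symm (ne20 k).symm]
    exact Subgroup.mul_mem _ (Subgroup.subset_closure ⟨k, _, Or.inl rfl⟩)
      (Subgroup.subset_closure ⟨k, _, Or.inr rfl⟩)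
  · change cj (xg 1 0 c) (xg 0 k.succ.succ r) ∈ _
    rw [cj_1 ne01.symm (ne20 k).symm (ne21 k).symm]
    exact Subgroup.mul_mem _ (Subgroup.subset_closure ⟨k, _, Or.inr rfl⟩)
      (Subgroup.subset_closure ⟨k, _, Or.inl rfl⟩)
  · change cj (xg 1 0 c) (xg 1 k.succ.succ r) ∈ _
    rw [cj_comm (ne21 k).symm ne01]
    exact Subgroup.subset_closure ⟨k, r, Or.inr rfl⟩

/-! ### Commutation -/

theorem V2_comm_L1 : ∀ w ∈ Subgroup.closure (gV2 K m), ∀ l ∈ Subgroup.closure (gL1 K m),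
    w * l = l * w := by
  apply comm_closure
  rintro _ ⟨i, u, rfl⟩ _ ⟨j, v, rfl⟩
  exact xg_comm (ne21 i) (ne20 j).symm u v

theorem x10_comm_V2 (c : K) : ∀ w ∈ Subgroup.closure (gV2 K m),
    xg (1 : Fin (m + 3)) 0 c * w = w * xg 1 0 c := by
  intro w hw
  have h := comm_closure (T := {xg (K := K) (1 : Fin (m + 3)) 0 c}) (U := gV2 K m) (by
    rintro _ rfl _ ⟨j, v, rfl⟩
    exact xg_comm ne01.symm (ne20 j).symm c v)
  exact h _ (Subgroup.subset_closure rfl) w hw

theorem x01_comm_A2 (c : K) : ∀ w ∈ Subgroup.closure (gA2 K m),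
    xg (0 : Fin (m + 3)) 1 c * w = w * xg 0 1 c := by
  intro w hw
  have h := comm_closure (T := {xg (K := K) (0 : Fin (m + 3)) 1 c}) (U := gA2 K m) (by
    rintro _ rfl _ ⟨j, v, rfl⟩
    exact xg_comm (ne20 j).symm ne01.symm c v)
  exact h _ (Subgroup.subset_closure rfl) w hw

/-! ### Decompositions -/

theorem V_decomp : ∀ v ∈ Subgroup.closure (gV K m), ∃ (c : K), ∃ w ∈ Subgroup.closure (gV2 K m),
    v = xg 1 0 c * w := by
  refine cl_ind gV_inv ?_ ?_ ?_
  · exact ⟨0, 1, Subgroup.one_mem _, by rw [xg_zero, mul_one]⟩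
  · rintro _ ⟨i, t, rfl⟩
    induction i using Fin.cases with
    | zero => exact ⟨t, 1, Subgroup.one_mem _, by rw [mul_one, Fin.succ_zero_eq_one]⟩
    | succ i => exact ⟨0, _, Subgroup.subset_closure ⟨i, t, rfl⟩, by rw [xg_zero, one_mul]⟩
  · rintro _ _ ⟨c, w, hw, rfl⟩ ⟨c', w', hw', rfl⟩
    refine ⟨c + c', w * w', Subgroup.mul_mem _ hw hw', ?_⟩
    rw [← xg_mul, mul_assoc, ← mul_assoc w, ← x10_comm_V2 c' w hw]
    simp only [mul_assoc]

theorem A_decomp : ∀ a ∈ Subgroup.closure (gA K m), ∃ (c : K), ∃ w ∈ Subgroup.closure (gA2 K m),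
    a = xg 0 1 c * w := by
  refine cl_ind gA_inv ?_ ?_ ?_
  · exact ⟨0, 1, Subgroup.one_mem _, by rw [xg_zero, mul_one]⟩
  · rintro _ ⟨i, t, rfl⟩
    induction i using Fin.cases with
    | zero => exact ⟨t, 1, Subgroup.one_mem _, by rw [mul_one, Fin.succ_zero_eq_one]⟩
    | succ i => exact ⟨0, _, Subgroup.subset_closure ⟨i, t, rfl⟩, by rw [xg_zero, one_mul]⟩
  · rintro _ _ ⟨c, w, hw, rfl⟩ ⟨c', w', hw', rfl⟩
    refine ⟨c + c', w * w', Subgroup.mul_mem _ hw hw', ?_⟩
    rw [← xg_mul, mul_assoc, ← mul_assoc w, ← x01_comm_A2 c' w hw]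
    simp only [mul_assoc]

theorem P_decomp : ∀ p ∈ Subgroup.closure (gP K m), ∃ a ∈ Subgroup.closure (gA K m),
    ∃ l ∈ Subgroup.closure (gL K m), p = a * l := by
  refine cl_ind gP_inv ?_ ?_ ?_
  · exact ⟨1, Subgroup.one_mem _, 1, Subgroup.one_mem _, by rw [mul_one]⟩
  · rintro g (hg | hg)
    · exact ⟨g, Subgroup.subset_closure hg, 1, Subgroup.one_mem _, by rw [mul_one]⟩
    · exact ⟨1, Subgroup.one_mem _, g, Subgroup.subset_closure hg, by rw [one_mul]⟩
  · rintro _ _ ⟨a, ha, l, hl, rfl⟩ ⟨a', ha', l', hl', rfl⟩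
    refine ⟨a * (l * a' * l⁻¹), Subgroup.mul_mem _ ha (L_norm_A l hl a' ha'), l * l',
      Subgroup.mul_mem _ hl hl', ?_⟩
    group

/-! ### The action of the rank one group on the two columns -/

/-- `s` acts on the pairs `(x_k0(u), x_k1(v))` by the matrix `(a b; c d)`. -/
def Fq (s : St K (m + 3)) (a b c d : K) : Prop :=
  ∀ (k : Fin (m + 1)) (u v : K), s⁻¹ * (xg k.succ.succ 0 u * xg k.succ.succ 1 v) * s =
    xg k.succ.succ 0 (u * a + v * c) * xg k.succ.succ 1 (u * b + v * d)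

theorem Fq_one : Fq (1 : St K (m + 3)) 1 0 0 1 := by
  intro k u v
  simp

theorem Fq_mul {s s' : St K (m + 3)} {a b c d a' b' c' d' : K} (h : Fq s a b c d)
    (h' : Fq s' a' b' c' d') :
    Fq (s * s') (a * a' + b * c') (a * b' + b * d') (c * a' + d * c') (c * b' + d * d') := by
  intro k u v
  have e : (s * s')⁻¹ * (xg k.succ.succ 0 u * xg k.succ.succ 1 v) * (s * s') =
      s'⁻¹ * (s⁻¹ * (xg k.succ.succ 0 u * xg k.succ.succ 1 v) * s) * s' := by group
  rw [e, h k u v, h' k _ _]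
  congr 2 <;> ring

theorem Fq_x01 (c : K) : Fq (xg (0 : Fin (m + 3)) 1 c) 1 c 0 1 := by
  intro k u v
  have e : (xg (0 : Fin (m + 3)) 1 c)⁻¹ * (xg k.succ.succ 0 u * xg k.succ.succ 1 v) * xg 0 1 c =
      cj (xg 0 1 (-c)) (xg k.succ.succ 0 u * xg k.succ.succ 1 v) := by
    unfold cj
    rw [← xg_inv, inv_inv]
  rw [e, cj_mul, cj_2 (ne20 k) ne01 (ne21 k), cj_comm ne01 (ne21 k).symm,
    xg_comm (ne20 k) (ne21 k).symm, mul_assoc, xg_mul]
  congr 2 <;> ring

theorem Fq_x10 (c : K) : Fq (xg (1 : Fin (m + 3)) 0 c) 1 0 c 1 := by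
  intro k u v
  have e : (xg (1 : Fin (m + 3)) 0 c)⁻¹ * (xg k.succ.succ 0 u * xg k.succ.succ 1 v) * xg 1 0 c =
      cj (xg 1 0 (-c)) (xg k.succ.succ 0 u * xg k.succ.succ 1 v) := by
    unfold cj
    rw [← xg_inv, inv_inv]
  rw [e, cj_mul, cj_comm ne01.symm (ne20 k).symm, cj_2 (ne21 k) ne01.symm (ne20 k),
    ← mul_assoc, xg_mul]
  congr 2 <;> ring

theorem exists_Fq : ∀ s ∈ Subgroup.closure (gS K m),
    ∃ a b c d : K, a * d - b * c = 1 ∧ Fq s a b c d := by
  refine cl_ind gS_inv ?_ ?_ ?_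
  · exact ⟨1, 0, 0, 1, by ring, Fq_one⟩
  · rintro _ (⟨c, rfl⟩ | ⟨c, rfl⟩)
    · exact ⟨1, c, 0, 1, by ring, Fq_x01 c⟩
    · exact ⟨1, 0, c, 1, by ring, Fq_x10 c⟩
  · rintro s s' ⟨a, b, c, d, h1, hF⟩ ⟨a', b', c', d', h2, hF'⟩
    exact ⟨_, _, _, _, by linear_combination (a' * d' - b' * c') * h1 + h2, Fq_mul hF hF'⟩

/-- Case `c ≠ 0`: moving an element of the first column group from the left. -/
theorem Fq_left {s : St K (m + 3)} {a b c d : K} (hF : Fq s a b c d) (hc : c ≠ 0) :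
    ∀ w ∈ Subgroup.closure (gV2 K m), ∃ l ∈ Subgroup.closure (gL1 K m),
      ∃ l' ∈ Subgroup.closure (gL1 K m), w * s = l * s * l' := by
  refine cl_ind' gV2_inv ?_ ?_ ?_
  · exact ⟨1, Subgroup.one_mem _, 1, Subgroup.one_mem _, by group⟩
  · rintro _ ⟨k, u, rfl⟩
    have h := hF k u (-(u * a / c))
    have e0 : u * a + -(u * a / c) * c = 0 := by field_simp; ring
    rw [e0, xg_zero, one_mul] at h
    refine ⟨xg k.succ.succ 1 (u * a / c), Subgroup.subset_closure ⟨k, _, rfl⟩,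
      xg k.succ.succ 1 (u * b + -(u * a / c) * d), Subgroup.subset_closure ⟨k, _, rfl⟩, ?_⟩
    rw [← h, ← xg_inv]
    have hcm : xg k.succ.succ 1 (u * a / c) * xg k.succ.succ 0 u =
        xg k.succ.succ 0 u * xg k.succ.succ 1 (u * a / c) :=
      xg_comm (ne20 k) (ne21 k).symm _ _
    have e1 : xg k.succ.succ 1 (u * a / c) * s *
        (s⁻¹ * (xg k.succ.succ 0 u * (xg k.succ.succ 1 (u * a / c))⁻¹) * s) =
        (xg k.succ.succ 1 (u * a / c) * xg k.succ.succ 0 u) *
          (xg k.succ.succ 1 (u * a / c))⁻¹ * s := by group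
    rw [e1, hcm]
    group
  · rintro w₁ w₂ hw₁ hw₂ ⟨l₁, hl₁, l₁', hl₁', e₁⟩ ⟨l₂, hl₂, l₂', hl₂', e₂⟩
    refine ⟨l₂ * l₁, Subgroup.mul_mem _ hl₂ hl₁, l₁' * l₂', Subgroup.mul_mem _ hl₁' hl₂', ?_⟩
    rw [mul_assoc, e₂, ← mul_assoc, ← mul_assoc, V2_comm_L1 w₁ hw₁ l₂ hl₂, mul_assoc l₂, e₁]
    group

/-- Case `c ≠ 0`: moving an element of the first column group from the right. -/
theorem Fq_right {s : St K (m + 3)} {a b c d : K} (hF : Fq s a b c d) (hc : c ≠ 0) :
    ∀ w ∈ Subgroup.closure (gV2 K m), ∃ l ∈ Subgroup.closure (gL1 K m),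
      ∃ l' ∈ Subgroup.closure (gL1 K m), s * w = l * s * l' := by
  refine cl_ind' gV2_inv ?_ ?_ ?_
  · exact ⟨1, Subgroup.one_mem _, 1, Subgroup.one_mem _, by group⟩
  · rintro _ ⟨k, u, rfl⟩
    have h := hF k 0 (u / c)
    have e0 : 0 * a + u / c * c = u := by rw [zero_mul, zero_add, div_mul_cancel₀ _ hc]
    rw [e0, xg_zero, one_mul] at h
    refine ⟨xg k.succ.succ 1 (u / c), Subgroup.subset_closure ⟨k, _, rfl⟩,
      xg k.succ.succ 1 (-(0 * b + u / c * d)), Subgroup.subset_closure ⟨k, _, rfl⟩, ?_⟩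
    have h2 : xg k.succ.succ 0 u =
        s⁻¹ * xg k.succ.succ 1 (u / c) * s * (xg k.succ.succ 1 (0 * b + u / c * d))⁻¹ := by
      rw [h]; group
    rw [← xg_inv, h2]
    group
  · rintro w₁ w₂ hw₁ hw₂ ⟨l₁, hl₁, l₁', hl₁', e₁⟩ ⟨l₂, hl₂, l₂', hl₂', e₂⟩
    refine ⟨l₁ * l₂, Subgroup.mul_mem _ hl₁ hl₂, l₂' * l₁', Subgroup.mul_mem _ hl₂' hl₁', ?_⟩
    rw [← mul_assoc, e₁, mul_assoc, ← V2_comm_L1 w₂ hw₂ l₁' hl₁', ← mul_assoc, mul_assoc l₁, e₂]
    group

/-- Moving an element of the first column group across `s`. -/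
theorem Fq_across {s : St K (m + 3)} {a b c d : K} (hF : Fq s a b c d) :
    ∀ w ∈ Subgroup.closure (gV2 K m), ∃ w' ∈ Subgroup.closure (gV2 K m),
      ∃ l' ∈ Subgroup.closure (gL1 K m), w * s = s * w' * l' := by
  refine cl_ind' gV2_inv ?_ ?_ ?_
  · exact ⟨1, Subgroup.one_mem _, 1, Subgroup.one_mem _, by group⟩
  · rintro _ ⟨k, u, rfl⟩
    have h := hF k u 0
    rw [xg_zero, mul_one] at h
    refine ⟨xg k.succ.succ 0 (u * a + 0 * c), Subgroup.subset_closure ⟨k, _, rfl⟩,
      xg k.succ.succ 1 (u * b + 0 * d), Subgroup.subset_closure ⟨k, _, rfl⟩, ?_⟩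
    rw [mul_assoc, ← h]
    group
  · rintro w₁ w₂ hw₁ hw₂ ⟨w₁', hw₁', l₁', hl₁', e₁⟩ ⟨w₂', hw₂', l₂', hl₂', e₂⟩
    refine ⟨w₁' * w₂', Subgroup.mul_mem _ hw₁' hw₂', l₁' * l₂', Subgroup.mul_mem _ hl₁' hl₂', ?_⟩
    have e3 : l₁' * w₂' = w₂' * l₁' := (V2_comm_L1 w₂' hw₂' l₁' hl₁').symm
    calc w₁ * w₂ * s = w₁ * (w₂ * s) := by group
      _ = (w₁ * s) * w₂' * l₂' := by rw [e₂]; group
      _ = s * w₁' * (l₁' * w₂') * l₂' := by rw [e₁]; group
      _ = s * (w₁' * w₂') * (l₁' * l₂') := by rw [e3]; group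

/-! ### Coordinates on the abelian groups -/

/-- A root group as a homomorphism. -/
def rootHom {n : ℕ} (i j : Fin n) : Multiplicative K →* St K n where
  toFun t := xg i j (Multiplicative.toAdd t)
  map_one' := xg_zero i j
  map_mul' _ _ := (xg_mul i j _ _).symm

theorem rootHom_apply {n : ℕ} (i j : Fin n) (t : Multiplicative K) :
    rootHom i j t = xg i j (Multiplicative.toAdd t) := rfl

theorem phiV_comm (K : Type*) [Field K] (m : ℕ) :
    Pairwise fun i j : Fin (m + 1) => ∀ x y : Multiplicative K,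
      Commute ((rootHom (K := K) i.succ.succ (0 : Fin (m + 3))) x)
        ((rootHom (K := K) j.succ.succ (0 : Fin (m + 3))) y) := by
  intro i j _ x y
  exact xg_comm (ne20 i) (ne20 j).symm _ _

/-- The product map onto the first column group (rows at least two). -/
noncomputable def phiV (K : Type*) [Field K] (m : ℕ) :
    (Fin (m + 1) → Multiplicative K) →* St K (m + 3) :=
  MonoidHom.noncommPiCoprod (fun k => rootHom k.succ.succ 0) (phiV_comm K m)

theorem phiV_single (k : Fin (m + 1)) (t : Multiplicative K) :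
    phiV K m (Pi.mulSingle k t) = xg k.succ.succ 0 (Multiplicative.toAdd t) := by
  unfold phiV
  rw [MonoidHom.noncommPiCoprod_mulSingle]
  rfl

theorem V2_le : Subgroup.closure (gV2 K m) ≤ (phiV K m).range := by
  rw [Subgroup.closure_le]
  rintro _ ⟨k, t, rfl⟩
  exact ⟨Pi.mulSingle k (Multiplicative.ofAdd t), phiV_single k _⟩

theorem phiV_mem (c : Fin (m + 1) → Multiplicative K) : phiV K m c ∈ Subgroup.closure (gV2 K m) := by
  have h : (phiV K m).range ≤ Subgroup.closure (gV2 K m) := by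
    unfold phiV
    rw [MonoidHom.noncommPiCoprod_range]
    apply iSup_le
    rintro k _ ⟨t, rfl⟩
    exact Subgroup.subset_closure ⟨k, _, rfl⟩
  exact h ⟨c, rfl⟩

theorem phiV_conj (k₀ : Fin (m + 1)) (c : Fin (m + 1) → Multiplicative K) :
    xg 1 k₀.succ.succ 1 * phiV K m c * (xg 1 k₀.succ.succ (1 : K))⁻¹ =
      phiV K m c * xg 1 0 (Multiplicative.toAdd (c k₀)) := by
  let f : (Fin (m + 1) → Multiplicative K) →* St K (m + 3) :=
    (MulAut.conj (xg 1 k₀.succ.succ (1 : K))).toMonoidHom.comp (phiV K m)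
  let g : (Fin (m + 1) → Multiplicative K) →* St K (m + 3) :=
    MonoidHom.mk' (fun c => phiV K m c * xg 1 0 (Multiplicative.toAdd (c k₀))) (by
      intro c c'
      have hc : xg (1 : Fin (m + 3)) 0 (Multiplicative.toAdd (c k₀)) * phiV K m c' =
          phiV K m c' * xg 1 0 (Multiplicative.toAdd (c k₀)) :=
        x10_comm_V2 _ _ (phiV_mem c')
      have e : Multiplicative.toAdd ((c * c') k₀) =
          Multiplicative.toAdd (c k₀) + Multiplicative.toAdd (c' k₀) := rfl
      rw [map_mul, e, ← xg_mul]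
      calc phiV K m c * phiV K m c' * (xg 1 0 (Multiplicative.toAdd (c k₀)) *
            xg 1 0 (Multiplicative.toAdd (c' k₀)))
          = phiV K m c * (phiV K m c' * xg 1 0 (Multiplicative.toAdd (c k₀))) *
            xg 1 0 (Multiplicative.toAdd (c' k₀)) := by group
        _ = phiV K m c * xg 1 0 (Multiplicative.toAdd (c k₀)) *
            (phiV K m c' * xg 1 0 (Multiplicative.toAdd (c' k₀))) := by rw [← hc]; group)
  have hfg : f = g := by
    apply MonoidHom.pi_ext
    intro k t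
    change cj (xg 1 k₀.succ.succ (1 : K)) (phiV K m (Pi.mulSingle k t)) =
      phiV K m (Pi.mulSingle k t) * xg 1 0 (Multiplicative.toAdd ((Pi.mulSingle k t : Fin (m + 1) → Multiplicative K) k₀))
    rw [phiV_single]
    by_cases hk : k = k₀
    · subst hk
      rw [Pi.mulSingle_eq_same, cj_1 (ne21 k).symm (ne20 k) ne01.symm, one_mul,
        xg_comm ne01.symm (ne20 k).symm]
    · rw [Pi.mulSingle_eq_of_ne (Ne.symm hk), toAdd_one, xg_zero, mul_one,
        cj_comm ne01.symm (fun h => hk (Fin.succ_injective _ (Fin.succ_injective _ h)).symm)]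
  exact DFunLike.congr_fun hfg c

/-! ### The product set `L · S · P` -/

/-- The set `L · S · P`. -/
def Y (K : Type*) [Field K] (m : ℕ) : Set (St K (m + 3)) :=
  {g | ∃ l ∈ Subgroup.closure (gL K m), ∃ s ∈ Subgroup.closure (gS K m),
    ∃ p ∈ Subgroup.closure (gP K m), g = l * s * p}

theorem Y_one : (1 : St K (m + 3)) ∈ Y K m :=
  ⟨1, Subgroup.one_mem _, 1, Subgroup.one_mem _, 1, Subgroup.one_mem _, by group⟩

theorem Y_L {l : St K (m + 3)} (hl : l ∈ Subgroup.closure (gL K m)) {y : St K (m + 3)}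
    (hy : y ∈ Y K m) : l * y ∈ Y K m := by
  obtain ⟨l', hl', s, hs, p, hp, rfl⟩ := hy
  exact ⟨l * l', Subgroup.mul_mem _ hl hl', s, hs, p, hp, by group⟩

theorem Y_Pr {y : St K (m + 3)} (hy : y ∈ Y K m) {p : St K (m + 3)}
    (hp : p ∈ Subgroup.closure (gP K m)) : y * p ∈ Y K m := by
  obtain ⟨l', hl', s, hs, p', hp', rfl⟩ := hy
  exact ⟨l', hl', s, hs, p' * p, Subgroup.mul_mem _ hp' hp, by group⟩

theorem Y_A {a : St K (m + 3)} (ha : a ∈ Subgroup.closure (gA K m)) {y : St K (m + 3)}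
    (hy : y ∈ Y K m) : a * y ∈ Y K m := by
  obtain ⟨l, hl, s, hs, p, hp, rfl⟩ := hy
  have ha' : l⁻¹ * a * l⁻¹⁻¹ ∈ Subgroup.closure (gA K m) :=
    L_norm_A l⁻¹ (Subgroup.inv_mem _ hl) a ha
  obtain ⟨c, a2, ha2, e⟩ := A_decomp _ ha'
  have hd : s⁻¹ * a2 * s⁻¹⁻¹ ∈ Subgroup.closure (gD K m) :=
    S_norm_D s⁻¹ (Subgroup.inv_mem _ hs) a2 (A2_le_D ha2)
  refine ⟨l, hl, xg 0 1 c * s, Subgroup.mul_mem _ (Subgroup.subset_closure (Or.inl ⟨c, rfl⟩)) hs,
    (s⁻¹ * a2 * s⁻¹⁻¹) * p, Subgroup.mul_mem _ (D_le_P hd) hp, ?_⟩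
  have e2 : a = l * (xg 0 1 c * a2) * l⁻¹ := by
    rw [← e]; group
  rw [e2]
  group

theorem Y_P {q : St K (m + 3)} (hq : q ∈ Subgroup.closure (gP K m)) {y : St K (m + 3)}
    (hy : y ∈ Y K m) : q * y ∈ Y K m := by
  obtain ⟨a, ha, l, hl, rfl⟩ := P_decomp q hq
  rw [mul_assoc]
  exact Y_A ha (Y_L hl hy)

/-- The key step: an element of the first column group times an element of the rank one
group. -/
theorem Y_VS {s : St K (m + 3)} (hs : s ∈ Subgroup.closure (gS K m)) {w : St K (m + 3)}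
    (hw : w ∈ Subgroup.closure (gV2 K m)) : w * s ∈ Y K m := by
  obtain ⟨a, b, c, d, hdet, hF⟩ := exists_Fq s hs
  by_cases hc : c = 0
  · subst hc
    obtain ⟨w', hw', l', hl', e⟩ := Fq_across hF w hw
    obtain ⟨c', rfl⟩ := V2_le hw'
    by_cases h1 : c' = 1
    · subst h1
      rw [e, map_one, mul_one]
      exact ⟨1, Subgroup.one_mem _, s, hs, l', L_le_P (L1_le_L hl'), by group⟩
    · obtain ⟨k₀, hk₀⟩ := Function.ne_iff.mp h1
      have hγ : Multiplicative.toAdd (c' k₀) ≠ 0 := fun h => hk₀ h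
      have hd0 : d ≠ 0 := by
        rintro rfl
        simp at hdet
      have hconj := phiV_conj k₀ c'
      have hs₂ : s * xg 1 0 (Multiplicative.toAdd (c' k₀)) ∈ Subgroup.closure (gS K m) :=
        Subgroup.mul_mem _ hs (Subgroup.subset_closure (Or.inr ⟨_, rfl⟩))
      have hF₂ := Fq_mul hF (Fq_x10 (Multiplicative.toAdd (c' k₀)))
      have hc₂ : 0 * 1 + d * Multiplicative.toAdd (c' k₀) ≠ 0 := by
        rw [zero_mul, zero_add]
        exact mul_ne_zero hd0 hγ
      obtain ⟨l₂, hl₂, l₂', hl₂', e₂⟩ := Fq_right hF₂ hc₂ (phiV K m c') (phiV_mem c')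
      have hx : xg (1 : Fin (m + 3)) k₀.succ.succ (1 : K) ∈ Subgroup.closure (gL K m) :=
        Subgroup.subset_closure ⟨0, k₀.succ, 1, by rw [Fin.succ_zero_eq_one]⟩
      have hxD : xg (1 : Fin (m + 3)) k₀.succ.succ (1 : K) ∈ Subgroup.closure (gD K m) :=
        Subgroup.subset_closure ⟨k₀, 1, Or.inr rfl⟩
      have hd₀ : s * (xg (1 : Fin (m + 3)) k₀.succ.succ (1 : K))⁻¹ * s⁻¹ ∈
          Subgroup.closure (gD K m) :=
        S_norm_D s hs _ (Subgroup.inv_mem _ hxD)
      have hcm : xg (1 : Fin (m + 3)) 0 (Multiplicative.toAdd (c' k₀)) * phiV K m c' =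
          phiV K m c' * xg 1 0 (Multiplicative.toAdd (c' k₀)) :=
        x10_comm_V2 _ _ (phiV_mem c')
      have e3 : w * s = (s * (xg (1 : Fin (m + 3)) k₀.succ.succ (1 : K))⁻¹ * s⁻¹) *
          ((l₂ * (s * xg 1 0 (Multiplicative.toAdd (c' k₀))) * l₂') *
            (xg (1 : Fin (m + 3)) k₀.succ.succ (1 : K) * l')) := by
        rw [← e₂, e]
        have e4 : phiV K m c' = (xg (1 : Fin (m + 3)) k₀.succ.succ (1 : K))⁻¹ *
            (phiV K m c' * xg 1 0 (Multiplicative.toAdd (c' k₀))) *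
            xg (1 : Fin (m + 3)) k₀.succ.succ (1 : K) := by
          rw [← hconj]; group
        calc s * phiV K m c' * l'
            = s * ((xg (1 : Fin (m + 3)) k₀.succ.succ (1 : K))⁻¹ *
              (phiV K m c' * xg 1 0 (Multiplicative.toAdd (c' k₀))) *
              xg (1 : Fin (m + 3)) k₀.succ.succ (1 : K)) * l' := by rw [← e4]
          _ = s * ((xg (1 : Fin (m + 3)) k₀.succ.succ (1 : K))⁻¹ *
              (xg 1 0 (Multiplicative.toAdd (c' k₀)) * phiV K m c') *
              xg (1 : Fin (m + 3)) k₀.succ.succ (1 : K)) * l' := by rw [hcm]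
          _ = _ := by group
      rw [e3]
      refine Y_P (D_le_P hd₀) (Y_Pr ⟨l₂, L1_le_L hl₂, _, hs₂, l₂', L_le_P (L1_le_L hl₂'), rfl⟩
        (Subgroup.mul_mem _ (L_le_P hx) (L_le_P (L1_le_L hl'))))
  · obtain ⟨l, hl, l', hl', e⟩ := Fq_left hF hc w hw
    rw [e]
    exact ⟨l, L1_le_L hl, s, hs, l', L_le_P (L1_le_L hl'), rfl⟩

theorem Y_V {v : St K (m + 3)} (hv : v ∈ Subgroup.closure (gV K m)) {y : St K (m + 3)}
    (hy : y ∈ Y K m) : v * y ∈ Y K m := by
  obtain ⟨l, hl, s, hs, p, hp, rfl⟩ := hy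
  have hv' : l⁻¹ * v * l⁻¹⁻¹ ∈ Subgroup.closure (gV K m) :=
    L_norm_V l⁻¹ (Subgroup.inv_mem _ hl) v hv
  obtain ⟨c, w, hw, e⟩ := V_decomp _ hv'
  have hs' : xg 1 0 c * s ∈ Subgroup.closure (gS K m) :=
    Subgroup.mul_mem _ (Subgroup.subset_closure (Or.inr ⟨c, rfl⟩)) hs
  have h1 := Y_Pr (Y_L hl (Y_VS hs' hw)) hp
  have e2 : v = l * (w * xg 1 0 c) * l⁻¹ := by
    rw [← x10_comm_V2 c w hw, ← e]; group
  have e3 : v * (l * s * p) = l * (w * (xg 1 0 c * s)) * p := by
    rw [e2]; group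
  rw [e3]
  exact h1

/-- Everything lies in `L · S · P`. -/
theorem Y_all (g : St K (m + 3)) : g ∈ Y K m := by
  have h : ∀ g ∈ Subgroup.closure {g : St K (m + 3) | ∃ (i j : Fin (m + 3)) (t : K), g = xg i j t},
      ∀ y ∈ Y K m, g * y ∈ Y K m := by
    refine cl_ind xg_set_inv ?_ ?_ ?_
    · intro y hy; rwa [one_mul]
    · rintro _ ⟨i, j, t, rfl⟩ y hy
      induction j using Fin.cases with
      | zero =>
        induction i using Fin.cases with
        | zero => rw [xg_self, one_mul]; exact hy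
        | succ i => exact Y_V (Subgroup.subset_closure ⟨i, t, rfl⟩) hy
      | succ j =>
        induction i using Fin.cases with
        | zero => exact Y_A (Subgroup.subset_closure ⟨j, t, rfl⟩) hy
        | succ i => exact Y_L (Subgroup.subset_closure ⟨i, j, t, rfl⟩) hy
    · intro a b ha hb y hy
      rw [mul_assoc]
      exact ha _ (hb y hy)
  have h2 := h g (by rw [closure_xg]; exact Subgroup.mem_top g) 1 Y_one
  rwa [mul_one] at h2

/-! ### The kernel lies in `P` -/

theorem mulVec_single_one' {n : ℕ} (M : Matrix (Fin n) (Fin n) K) (i k : Fin n) :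
    (M *ᵥ Pi.single i 1) k = M k i := by
  simp [Matrix.mulVec, dotProduct, Pi.single_apply]

theorem col0 : ∀ p ∈ Subgroup.closure (gP K m),
    (piHom K (m + 3) p).1 *ᵥ Pi.single 0 1 = Pi.single 0 1 := by
  refine cl_ind gP_inv ?_ ?_ ?_
  · rw [map_one, Matrix.SpecialLinearGroup.coe_one, Matrix.one_mulVec]
  · rintro _ (⟨j, t, rfl⟩ | ⟨i, j, t, rfl⟩)
    · rw [piHom_xg_coe (Fin.succ_ne_zero _).symm, tr_mulVec]
      simp [Pi.single_apply, (Fin.succ_ne_zero j)]
    · by_cases hij : i = j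
      · subst hij
        rw [xg_self, map_one, Matrix.SpecialLinearGroup.coe_one, Matrix.one_mulVec]
      · rw [piHom_xg_coe (succ_ne hij), tr_mulVec]
        simp [Pi.single_apply, (Fin.succ_ne_zero j)]
  · intro a b ha hb
    rw [pi_mul_mulVec, hb, ha]

section Fin

variable [Finite K]

theorem ker_le_P {g : St K (m + 3)} (hg : piHom K (m + 3) g = 1) :
    g ∈ Subgroup.closure (gP K m) := by
  obtain ⟨l, hl, s, hs, p, hp, rfl⟩ := Y_all g
  have e2 : piHom K (m + 3) s = piHom K (m + 3) (l⁻¹ * p⁻¹) := by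
    calc piHom K (m + 3) s = piHom K (m + 3) (l⁻¹ * (l * s * p) * p⁻¹) := by
          congr 1; group
      _ = piHom K (m + 3) l⁻¹ * 1 * piHom K (m + 3) p⁻¹ := by rw [map_mul, map_mul, hg]
      _ = piHom K (m + 3) (l⁻¹ * p⁻¹) := by rw [mul_one, map_mul]
  have hcol : (piHom K (m + 3) s).1 *ᵥ Pi.single 0 1 = Pi.single 0 1 := by
    rw [e2, pi_mul_mulVec, col0 p⁻¹ (Subgroup.inv_mem _ hp),
      col0 l⁻¹ (Subgroup.inv_mem _ (L_le_P hl))]
  have h0 : (piHom K (m + 3) s).1 1 0 = 0 := by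
    have := congrFun hcol 1
    rw [mulVec_single_one'] at this
    rw [this]
    simp [Pi.single_apply]
  have h1 : (piHom K (m + 3) s).1 0 0 = 1 := by
    have := congrFun hcol 0
    rw [mulVec_single_one'] at this
    rw [this]
    simp [Pi.single_apply]
  have hS : IsSteinberg (xg (K := K) (0 : Fin (m + 3)) 1) (xg 1 0) :=
    steinberg_pair (k := (0 : Fin (m + 1)).succ.succ) ne01 (ne20 0).symm (ne21 0).symm
  obtain ⟨x, rfl⟩ := rk1_ker ne01 hS hs h0 h1
  have hx : xg (0 : Fin (m + 3)) 1 x ∈ Subgroup.closure (gP K m) :=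
    A_le_P (Subgroup.subset_closure ⟨0, x, by rw [Fin.succ_zero_eq_one]⟩)
  exact Subgroup.mul_mem _ (Subgroup.mul_mem _ (L_le_P hl) hx) hp

end Fin

/-! ### Injectivity on `A` -/

theorem phiA_comm (K : Type*) [Field K] (m : ℕ) :
    Pairwise fun i j : Fin (m + 2) => ∀ x y : Multiplicative K,
      Commute ((rootHom (K := K) (0 : Fin (m + 3)) i.succ) x)
        ((rootHom (K := K) (0 : Fin (m + 3)) j.succ) y) := by
  intro i j _ x y
  exact xg_comm (Fin.succ_ne_zero j).symm (Fin.succ_ne_zero i) _ _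

/-- The product map onto the first row group. -/
noncomputable def phiA (K : Type*) [Field K] (m : ℕ) :
    (Fin (m + 2) → Multiplicative K) →* St K (m + 3) :=
  MonoidHom.noncommPiCoprod (fun k => rootHom 0 k.succ) (phiA_comm K m)

theorem phiA_single (k : Fin (m + 2)) (t : Multiplicative K) :
    phiA K m (Pi.mulSingle k t) = xg 0 k.succ (Multiplicative.toAdd t) := by
  unfold phiA
  rw [MonoidHom.noncommPiCoprod_mulSingle]
  rfl

theorem A_le : Subgroup.closure (gA K m) ≤ (phiA K m).range := by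
  rw [Subgroup.closure_le]
  rintro _ ⟨k, t, rfl⟩
  exact ⟨Pi.mulSingle k (Multiplicative.ofAdd t), phiA_single k _⟩

/-- The matrix with first row `(0, r)` and zero elsewhere. -/
def nmat (r : Fin (m + 2) → K) : Matrix (Fin (m + 3)) (Fin (m + 3)) K :=
  fun i j => if i = 0 then (Fin.cons 0 r : Fin (m + 3) → K) j else 0

theorem nmat_mul (r r' : Fin (m + 2) → K) : nmat r * nmat r' = 0 := by
  ext i j
  rw [Matrix.mul_apply]
  apply Finset.sum_eq_zero
  intro l _
  by_cases hl : l = 0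
  · subst hl
    simp [nmat]
  · simp [nmat, hl]

theorem nmat_add (r r' : Fin (m + 2) → K) : nmat (r + r') = nmat r + nmat r' := by
  ext i j
  by_cases hi : i = 0
  · subst hi
    induction j using Fin.cases with
    | zero => simp [nmat]
    | succ j => simp [nmat]
  · simp [nmat, hi]

theorem nmat_zero : nmat (0 : Fin (m + 2) → K) = 0 := by
  ext i j
  by_cases hi : i = 0
  · subst hi
    induction j using Fin.cases with
    | zero => simp [nmat]
    | succ j => simp [nmat]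
  · simp [nmat, hi]

theorem transvection_eq_nmat (k : Fin (m + 2)) (t : K) :
    Matrix.transvection (0 : Fin (m + 3)) k.succ t = 1 + nmat (Pi.single k t) := by
  unfold Matrix.transvection
  congr 1
  ext i j
  by_cases hi : i = 0
  · subst hi
    induction j using Fin.cases with
    | zero => simp [nmat, Matrix.single_apply, (Fin.succ_ne_zero k)]
    | succ j => simp [nmat, Matrix.single_apply, Pi.single_apply, eq_comm]
  · simp [nmat, hi, Matrix.single_apply, Ne.symm hi]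

/-- The matrices `1 + nmat r` as a homomorphism. -/
def amatHom (K : Type*) [Field K] (m : ℕ) :
    (Fin (m + 2) → Multiplicative K) →* Matrix (Fin (m + 3)) (Fin (m + 3)) K where
  toFun c := 1 + nmat (fun k => Multiplicative.toAdd (c k))
  map_one' := by
    have e : (fun k => Multiplicative.toAdd ((1 : Fin (m + 2) → Multiplicative K) k)) =
        (0 : Fin (m + 2) → K) := rfl
    rw [e, nmat_zero, add_zero]
  map_mul' c c' := by
    have e : (fun k => Multiplicative.toAdd ((c * c') k)) =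
        (fun k => Multiplicative.toAdd (c k)) + (fun k => Multiplicative.toAdd (c' k)) := rfl
    rw [e, nmat_add, mul_add, add_mul, add_mul, one_mul, one_mul, mul_one, nmat_mul, add_zero,
      add_assoc]

/-- The coercion of `SL_n` to matrices as a homomorphism. -/
def coeHom (K : Type*) [Field K] (n : ℕ) :
    Matrix.SpecialLinearGroup (Fin n) K →* Matrix (Fin n) (Fin n) K where
  toFun g := g.1
  map_one' := rfl
  map_mul' _ _ := rfl

theorem pi_phiA (c : Fin (m + 2) → Multiplicative K) :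
    (piHom K (m + 3) (phiA K m c)).1 = 1 + nmat (fun k => Multiplicative.toAdd (c k)) := by
  have h : ((coeHom K (m + 3)).comp (piHom K (m + 3))).comp (phiA K m) = amatHom K m := by
    apply MonoidHom.pi_ext
    intro k t
    change (piHom K (m + 3) (phiA K m (Pi.mulSingle k t))).1 =
      1 + nmat (fun k' => Multiplicative.toAdd ((Pi.mulSingle k t : Fin (m + 2) → Multiplicative K) k'))
    rw [phiA_single, piHom_xg_coe (Fin.succ_ne_zero k).symm, transvection_eq_nmat]
    congr 2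
  exact DFunLike.congr_fun h c

theorem A_inj {a : St K (m + 3)} (ha : a ∈ Subgroup.closure (gA K m))
    (h1 : piHom K (m + 3) a = 1) : a = 1 := by
  obtain ⟨c, rfl⟩ := A_le ha
  have h2 := pi_phiA c
  rw [h1] at h2
  have h3 : c = 1 := by
    funext k
    have h4 := congrFun (congrFun h2 0) k.succ
    simp [nmat, Matrix.one_apply, (Fin.succ_ne_zero k).symm] at h4
    exact h4.symm
  rw [h3, map_one]

/-! ### Injectivity on `P` -/

theorem rowsA : ∀ a ∈ Subgroup.closure (gA K m), ∀ (i : Fin (m + 2)) (j : Fin (m + 3)),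
    (piHom K (m + 3) a).1 i.succ j = (1 : Matrix (Fin (m + 3)) (Fin (m + 3)) K) i.succ j := by
  refine cl_ind gA_inv ?_ ?_ ?_
  · intro i j
    rw [map_one]
    rfl
  · rintro _ ⟨k, t, rfl⟩ i j
    rw [piHom_xg_coe (Fin.succ_ne_zero k).symm]
    simp [Matrix.transvection, Matrix.single_apply, (Fin.succ_ne_zero i).symm]
  · intro a b ha hb i j
    rw [map_mul, Matrix.SpecialLinearGroup.coe_mul, Matrix.mul_apply]
    simp_rw [ha i]
    rw [← Matrix.mul_apply, Matrix.one_mul]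
    exact hb i j

theorem row0L : ∀ l ∈ Subgroup.closure (gL K m), ∀ (j : Fin (m + 3)),
    (piHom K (m + 3) l).1 0 j = (1 : Matrix (Fin (m + 3)) (Fin (m + 3)) K) 0 j := by
  refine cl_ind gL_inv ?_ ?_ ?_
  · intro j
    rw [map_one]
    rfl
  · rintro _ ⟨i, k, t, rfl⟩ j
    by_cases hik : i = k
    · subst hik
      rw [xg_self, map_one]
      rfl
    · rw [piHom_xg_coe (succ_ne hik)]
      simp [Matrix.transvection, Matrix.single_apply, (Fin.succ_ne_zero i)]
  · intro a b ha hb j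
    rw [map_mul, Matrix.SpecialLinearGroup.coe_mul, Matrix.mul_apply]
    simp_rw [ha]
    rw [← Matrix.mul_apply, Matrix.one_mul]
    exact hb j

theorem P_inj (HL : ∀ l ∈ Subgroup.closure (gL K m), piHom K (m + 3) l = 1 → l = 1)
    {p : St K (m + 3)} (hp : p ∈ Subgroup.closure (gP K m)) (h1 : piHom K (m + 3) p = 1) :
    p = 1 := by
  obtain ⟨a, ha, l, hl, rfl⟩ := P_decomp p hp
  rw [map_mul] at h1
  have e : piHom K (m + 3) a = piHom K (m + 3) l⁻¹ := by
    rw [map_inv]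
    exact eq_inv_of_mul_eq_one_left h1
  have ha1 : piHom K (m + 3) a = 1 := by
    apply Subtype.ext
    ext i j
    induction i using Fin.cases with
    | zero =>
      rw [e]
      exact row0L l⁻¹ (Subgroup.inv_mem _ hl) j
    | succ i => exact rowsA a ha i j
  have ha2 := A_inj ha ha1
  subst ha2
  rw [map_one, one_mul] at h1
  rw [HL l hl h1, mul_one]

/-- The map to `SL_{m+3}` is injective if it is injective on the Levi factor. -/
theorem inj_of_HL [Finite K]
    (HL : ∀ l ∈ Subgroup.closure (gL K m), piHom K (m + 3) l = 1 → l = 1) :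
    Function.Injective (piHom K (m + 3)) := by
  rw [injective_iff_map_eq_one]
  intro g hg
  exact P_inj HL (ker_le_P hg) hg

/-- The base case: the Levi factor of `SL₃` is a rank one group. -/
theorem HL_base [Finite K] :
    ∀ l ∈ Subgroup.closure (gL K 0), piHom K (0 + 3) l = 1 → l = 1 := by
  intro l hl h1
  have hS : IsSteinberg (xg (K := K) (1 : Fin (0 + 3)) 2) (xg 2 1) :=
    steinberg_pair (k := 0) (by decide) (by decide) (by decide)
  refine rk1_inj (i := 1) (j := 2) (by decide) hS ?_ h1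
  refine (Subgroup.closure_le _).mpr ?_ hl
  rintro _ ⟨i, j, t, rfl⟩
  fin_cases i <;> fin_cases j
  · rw [xg_self]
    exact Subgroup.one_mem _
  · exact Subgroup.subset_closure (Or.inl ⟨t, rfl⟩)
  · exact Subgroup.subset_closure (Or.inr ⟨t, rfl⟩)
  · rw [xg_self]
    exact Subgroup.one_mem _

/-! ### The shift homomorphism -/

section Shift

variable {n : ℕ}

/-- The images of the generators under the index shift. -/
def shF (K : Type*) [Field K] (n : ℕ) : Idx n × K → St K (n + 1) :=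
  fun x => xg x.1.1.1.succ x.1.1.2.succ x.2

theorem shF_rels : ∀ r ∈ rels K n, FreeGroup.lift (shF K n) r = 1 := by
  rintro r ((⟨a, t, u, rfl⟩ | ⟨a, b, t, u, h1, h2, rfl⟩) | ⟨a, b, h, t, u, h1, rfl⟩)
  · simp only [map_mul, map_inv, FreeGroup.lift_apply_of, shF]
    rw [xg_mul, mul_inv_cancel]
  · simp only [map_mul, map_inv, FreeGroup.lift_apply_of, shF]
    rw [xg_comm (succ_ne h1) (succ_ne h2)]
    group
  · simp only [map_mul, map_inv, FreeGroup.lift_apply_of, shF]
    obtain ⟨⟨i, j⟩, hij⟩ := a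
    obtain ⟨⟨j', l⟩, hjl⟩ := b
    simp only at h1 h hij hjl
    subst h1
    rw [xg_comm3 (succ_ne hij) (succ_ne hjl) (succ_ne h), mul_inv_cancel]

/-- The index shift `St_n → St_{n+1}`. -/
noncomputable def shHom (K : Type*) [Field K] (n : ℕ) : St K n →* St K (n + 1) :=
  PresentedGroup.toGroup (shF_rels (K := K) (n := n))

theorem shHom_xg (i j : Fin n) (t : K) : shHom K n (xg i j t) = xg i.succ j.succ t := by
  by_cases h : i = j
  · subst h
    rw [xg_self, xg_self, map_one]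
  · rw [xg_of h]
    exact PresentedGroup.toGroup.of _

/-- The block matrix `diag(1, M)`. -/
def bm (M : Matrix (Fin n) (Fin n) K) : Matrix (Fin (n + 1)) (Fin (n + 1)) K :=
  fun i j => Fin.cases (Fin.cases 1 (fun _ => 0) j) (fun i' => Fin.cases 0 (fun j' => M i' j') j) i

theorem bm_00 (M : Matrix (Fin n) (Fin n) K) : bm M 0 0 = 1 := by simp [bm]

theorem bm_0s (M : Matrix (Fin n) (Fin n) K) (j : Fin n) : bm M 0 j.succ = 0 := by simp [bm]

theorem bm_s0 (M : Matrix (Fin n) (Fin n) K) (i : Fin n) : bm M i.succ 0 = 0 := by simp [bm]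

theorem bm_ss (M : Matrix (Fin n) (Fin n) K) (i j : Fin n) : bm M i.succ j.succ = M i j := by
  simp [bm]

theorem bm_one : bm (1 : Matrix (Fin n) (Fin n) K) = 1 := by
  ext i j
  induction i using Fin.cases with
  | zero =>
    induction j using Fin.cases with
    | zero => simp [bm_00]
    | succ j => simp [bm_0s, Matrix.one_apply, (Fin.succ_ne_zero j).symm]
  | succ i =>
    induction j using Fin.cases with
    | zero => simp [bm_s0, Matrix.one_apply, (Fin.succ_ne_zero i)]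
    | succ j => simp [bm_ss, Matrix.one_apply]

theorem bm_mul (M N : Matrix (Fin n) (Fin n) K) : bm (M * N) = bm M * bm N := by
  ext i j
  rw [Matrix.mul_apply, Fin.sum_univ_succ]
  induction i using Fin.cases with
  | zero =>
    induction j using Fin.cases with
    | zero => simp [bm_00, bm_0s]
    | succ j => simp [bm_00, bm_0s]
  | succ i =>
    induction j using Fin.cases with
    | zero => simp [bm_s0]
    | succ j => simp [bm_s0, bm_ss, Matrix.mul_apply]

theorem bm_inj {M N : Matrix (Fin n) (Fin n) K} (h : bm M = bm N) : M = N := by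
  ext i j
  have h2 := congrFun (congrFun h i.succ) j.succ
  rwa [bm_ss, bm_ss] at h2

theorem bm_transv (i j : Fin n) (t : K) :
    bm (Matrix.transvection i j t) = Matrix.transvection i.succ j.succ t := by
  ext a b
  induction a using Fin.cases with
  | zero =>
    induction b using Fin.cases with
    | zero => simp [bm_00, Matrix.transvection, Matrix.single_apply, (Fin.succ_ne_zero i)]
    | succ b => simp [bm_0s, Matrix.transvection, Matrix.single_apply, Matrix.one_apply,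
        (Fin.succ_ne_zero i), (Fin.succ_ne_zero b).symm]
  | succ a =>
    induction b using Fin.cases with
    | zero => simp [bm_s0, Matrix.transvection, Matrix.single_apply, Matrix.one_apply,
        (Fin.succ_ne_zero j), (Fin.succ_ne_zero a)]
    | succ b => simp [bm_ss, Matrix.transvection, Matrix.single_apply, Matrix.one_apply]

theorem pi_sh (g : St K n) : (piHom K (n + 1) (shHom K n g)).1 = bm (piHom K n g).1 := by
  have h : ∀ g ∈ Subgroup.closure {g : St K n | ∃ (i j : Fin n) (t : K), g = xg i j t},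
      (piHom K (n + 1) (shHom K n g)).1 = bm (piHom K n g).1 := by
    refine cl_ind xg_set_inv ?_ ?_ ?_
    · rw [map_one, map_one, map_one]
      exact bm_one.symm
    · rintro _ ⟨i, j, t, rfl⟩
      by_cases hij : i = j
      · subst hij
        rw [xg_self, map_one, map_one, map_one]
        exact bm_one.symm
      · rw [shHom_xg, piHom_xg_coe (succ_ne hij), piHom_xg_coe hij, bm_transv]
    · intro a b ha hb
      rw [map_mul, map_mul, map_mul, Matrix.SpecialLinearGroup.coe_mul,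
        Matrix.SpecialLinearGroup.coe_mul, ha, hb, bm_mul]
  exact h g (by rw [closure_xg]; exact Subgroup.mem_top g)

end Shift

/-- The induction step: injectivity for `SL_{m+3}` gives injectivity on the Levi factor of
`SL_{m+4}`. -/
theorem HL_step (hinj : Function.Injective (piHom K (m + 3))) :
    ∀ l ∈ Subgroup.closure (gL K (m + 1)), piHom K (m + 1 + 3) l = 1 → l = 1 := by
  intro l hl h1
  have hle : Subgroup.closure (gL K (m + 1)) ≤ (shHom K (m + 3)).range := by
    rw [Subgroup.closure_le]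
    rintro _ ⟨i, j, t, rfl⟩
    exact ⟨xg i j t, shHom_xg i j t⟩
  obtain ⟨g, rfl⟩ := hle hl
  have h2 := pi_sh g
  have h3 : (piHom K (m + 3) g).1 = (1 : Matrix (Fin (m + 3)) (Fin (m + 3)) K) := by
    apply bm_inj
    rw [← h2, bm_one]
    exact congrArg Subtype.val h1
  have h4 : piHom K (m + 3) g = 1 := Subtype.ext h3
  rw [hinj (h4.trans (map_one _).symm), map_one]

/-- The map from the presented group to `SL_n` is injective for `n ≥ 3`. -/
theorem piHom_inj [Finite K] : ∀ m : ℕ, Function.Injective (piHom K (m + 3)) := by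
  intro m
  induction m with
  | zero => exact inj_of_HL HL_base
  | succ m ih => exact inj_of_HL (HL_step ih)

/-- The Steinberg presentation of `SL_n` over a finite field, `n ≥ 3`. -/
theorem presentation [Finite K] (n : ℕ) (hn : 3 ≤ n) :
    ∃ e : St K n ≃* Matrix.SpecialLinearGroup (Fin n) K,
      ∀ (a : Idx n) (t : K), ((e (PresentedGroup.of (a, t)) : Matrix (Fin n) (Fin n) K)) =
        Matrix.transvection a.1.1 a.1.2 t := by
  obtain ⟨m, rfl⟩ : ∃ m, n = m + 3 := ⟨n - 3, by omega⟩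
  refine ⟨MulEquiv.ofBijective (piHom K (m + 3)) ⟨piHom_inj m, piHom_surj⟩, ?_⟩
  rintro ⟨⟨i, j⟩, h⟩ t
  have e : (MulEquiv.ofBijective (piHom K (m + 3)) ⟨piHom_inj m, piHom_surj⟩)
      (PresentedGroup.of ((⟨(i, j), h⟩ : Idx (m + 3)), t)) = piHom K (m + 3) (xg i j t) := by
    rw [xg_of h]
    rfl
  rw [e, piHom_xg_coe h]

end Cfsg.Agent.H85.StLin
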