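import Cfsg.Agent.H23.IcDefs

/-!
# S5751 (team project IC, helper23): the piece IC-TAB

`tab : Cfsg.Agent.H23.Ic.StTab` — the table facts, each conjunct by kernel evaluation.
-/

set_option autoImplicit false

namespace Cfsg.Agent.H85.Ic

open Cfsg.Lie Cfsg.Agent.H23.Ic

set_option maxRecDepth 100000 in
theorem ict_par : crs.length = 30 ∧ crs.getD 0 [] = reflC 3 levC ∧
    (∀ j < 8, j ≠ 3 → reflC j levC = levC) ∧
    ∀ i < 29, (par.getD i (0, 0)).1 < i + 1 ∧ (par.getD i (0, 0)).2 < 8 ∧ (par.getD i (0, 0)).2 ≠ 3 ∧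
      crs.getD (i + 1) [] = reflC (par.getD i (0, 0)).2 (crs.getD (par.getD i (0, 0)).1 []) := by
  decide +kernel

theorem ict_sum : ∀ c < 248, (crs.map fun cr => wN cr c).sum = 29 * wN levC c := by
  decide +kernel

set_option synthInstance.maxSize 1024 in
set_option synthInstance.maxHeartbeats 400000 in
theorem ict_sep : ∀ a < 248, ∀ c < 248, wN levC a = wN levC c → (∀ cr ∈ crs, wN cr c ≤ wN cr a) →
    a = c ∨ (240 ≤ a ∧ 240 ≤ c) := by
  decide +kernel

theorem ict_neg : ∀ r < 240, chevE8.IsPosRoot r → wN levC r ≤ 1 →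
    ∃ cr ∈ crs, 0 < wN cr (chevE8.neg r) := by
  decide +kernel

theorem ict_le6 : ∀ r < 240, wN levC r ≤ 6 := by
  decide +kernel

theorem ict_nonneg : ∀ r < 240, chevE8.IsPosRoot r → 0 ≤ wN levC r := by
  decide +kernel

theorem ict_wspos : ∀ r < 240, chevE8.IsPosRoot r → 0 < wN wsC r := by
  decide +kernel

set_option synthInstance.maxSize 1024 in
set_option synthInstance.maxHeartbeats 400000 in
theorem ict_wsmin : ∀ r < 240, chevE8.IsPosRoot r → wN levC r ≤ 1 → ∀ s < 240, chevE8.IsPosRoot s →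
    wN wsC s ≤ wN wsC r → wN levC s ≤ 1 := by
  decide +kernel

/-- IC-TAB. -/
theorem tab : StTab :=
  ⟨ict_par, ict_sum, ict_sep, ict_neg, ict_le6, ict_nonneg, ict_wspos, ict_wsmin⟩

example : Cfsg.Agent.H23.Ic.StTab := Cfsg.Agent.H85.Ic.tab

end Cfsg.Agent.H85.Ic
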