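import Mathlib
import Cfsg.Prelude
import Cfsg.Agent.H85.McLDefs
import Cfsg.Agent.H11.McLGenSp
import Cfsg.Agent.H11.McLSpB
import Cfsg.Agent.H14.McLRad
import Cfsg.Agent.H14.McLRestr
import Cfsg.Agent.H28.McLOpp
import Cfsg.Agent.H28.McLGenSL
import Cfsg.Agent.H67.McLSLA
import Cfsg.Agent.H60.McLInv
import Cfsg.Agent.H60.McLTv
import Cfsg.Agent.H32.McLComp
import Cfsg.Agent.H62.McLSPA
import Cfsg.Agent.H62.McLSLB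

/-!
# S5075: the pieces proved by the team (helpers 11, 14, 28, 32, 60, 62, 67), re-exported under
one namespace with the exact statements used by the assembly.
-/

set_option autoImplicit false
namespace Cfsg.Agent.H85.McL
open Module

variable {p : ℕ} [Fact p.Prime] {V : Type*} [AddCommGroup V] [Module (ZMod p) V]

theorem tv_of_order [Finite V] (t : V ≃ₗ[ZMod p] V) (ho : orderOf t = p)
    (hk : Module.finrank (ZMod p) ↥(LinearMap.ker ((t : V →ₗ[ZMod p] V) - LinearMap.id)) + 1 =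
      Module.finrank (ZMod p) V) :
    ∃ (a : V) (φ : Dual (ZMod p) V), a ≠ 0 ∧ φ ≠ 0 ∧ φ a = 0 ∧ ∀ x, t x = x + φ x • a :=
  Cfsg.Agent.H60.McL.tv_of_order t ho hk

theorem hasOpp_of_pCore [Finite V] (hp2 : p ≠ 2) (G : Subgroup (V ≃ₗ[ZMod p] V))
    (hO : Cfsg.pCore p ↥G = ⊥) : HasOpp G :=
  Cfsg.Agent.H28.McL.hasOpp_of_pCore hp2 G hO

theorem radical_left (hp2 : p ≠ 2) {G : Subgroup (V ≃ₗ[ZMod p] V)} (hopp : HasOpp G) {r : V}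
    (hr : r ∈ centers G) (h0 : ∀ b ψ, Root G b ψ → ψ r = 0) : r = 0 :=
  Cfsg.Agent.H14.McL.radical_left hp2 hopp hr h0

theorem radical_right (hp2 : p ≠ 2) {G : Subgroup (V ≃ₗ[ZMod p] V)} (hopp : HasOpp G)
    {f : Dual (ZMod p) V} (hf : f ∈ axes G) (h0 : ∀ b ψ, Root G b ψ → f b = 0) : f = 0 :=
  Cfsg.Agent.H14.McL.radical_right hp2 hopp hf h0

theorem isCompl_centers [Finite V] (hp2 : p ≠ 2) {G : Subgroup (V ≃ₗ[ZMod p] V)}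
    (hopp : HasOpp G) : IsCompl (centers G) (rootKer G) :=
  Cfsg.Agent.H14.McL.isCompl_centers hp2 hopp

theorem inv_left {G : Subgroup (V ≃ₗ[ZMod p] V)} (hopp : HasOpp G) (hconn : Conn G)
    (hA : centers G = ⊤) (hΦ : axes G = ⊤) (U : Submodule (ZMod p) V)
    (hU : ∀ c χ, Root G c χ → c ∈ U ∨ ∀ u ∈ U, χ u = 0) : U = ⊥ ∨ U = ⊤ :=
  Cfsg.Agent.H60.McL.inv_left hopp hconn hA hΦ U hU

theorem inv_right {G : Subgroup (V ≃ₗ[ZMod p] V)} (hopp : HasOpp G) (hconn : Conn G)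
    (hA : centers G = ⊤) (hΦ : axes G = ⊤) (Θ : Submodule (ZMod p) (Dual (ZMod p) V))
    (hΘ : ∀ c χ, Root G c χ → χ ∈ Θ ∨ ∀ θ ∈ Θ, θ c = 0) : Θ = ⊥ ∨ Θ = ⊤ :=
  Cfsg.Agent.H60.McL.inv_right hopp hconn hA hΦ Θ hΘ

theorem full_extend {G : Subgroup (V ≃ₗ[ZMod p] V)} {X : Submodule (ZMod p) V}
    {Y : Submodule (ZMod p) (Dual (ZMod p) V)} (h : Full G X Y) {c' : V}
    {χ' : Dual (ZMod p) V} (hc : ∀ y ∈ Y, y c' = 0) (hχ : ∀ x ∈ X, χ' x = 0) (hne : χ' c' ≠ 0)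
    (hα : ∀ x ∈ X, x ≠ 0 → Root G x χ') (hβ : ∀ y ∈ Y, y ≠ 0 → Root G c' y) :
    Full G (X ⊔ Submodule.span (ZMod p) {c'}) (Y ⊔ Submodule.span (ZMod p) {χ'}) :=
  Cfsg.Agent.H67.McL.full_extend h hc hχ hne hα hβ

theorem exists_full_three [Finite V] {G : Subgroup (V ≃ₗ[ZMod p] V)} (hopp : HasOpp G)
    (h2 : ∃ a φ₁ φ₂, Root G a φ₁ ∧ Root G a φ₂ ∧ ∀ k : ZMod p, φ₂ ≠ k • φ₁) :
    ∃ (X : Submodule (ZMod p) V) (Y : Submodule (ZMod p) (Dual (ZMod p) V)),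
      Full G X Y ∧ 3 ≤ Module.finrank (ZMod p) ↥X :=
  Cfsg.Agent.H67.McL.exists_full_three hopp h2

theorem full_grow [Finite V] {G : Subgroup (V ≃ₗ[ZMod p] V)}
    (hinvL : ∀ U : Submodule (ZMod p) V,
      (∀ c χ, Root G c χ → c ∈ U ∨ ∀ u ∈ U, χ u = 0) → U = ⊥ ∨ U = ⊤)
    (hinvR : ∀ Θ : Submodule (ZMod p) (Dual (ZMod p) V),
      (∀ c χ, Root G c χ → χ ∈ Θ ∨ ∀ θ ∈ Θ, θ c = 0) → Θ = ⊥ ∨ Θ = ⊤)
    (hext : ∀ (X : Submodule (ZMod p) V) (Y : Submodule (ZMod p) (Dual (ZMod p) V)) (c' : V)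
      (χ' : Dual (ZMod p) V), Full G X Y → (∀ y ∈ Y, y c' = 0) → (∀ x ∈ X, χ' x = 0) →
      χ' c' ≠ 0 → (∀ x ∈ X, x ≠ 0 → Root G x χ') → (∀ y ∈ Y, y ≠ 0 → Root G c' y) →
      Full G (X ⊔ Submodule.span (ZMod p) {c'}) (Y ⊔ Submodule.span (ZMod p) {χ'}))
    {X : Submodule (ZMod p) V} {Y : Submodule (ZMod p) (Dual (ZMod p) V)} (h : Full G X Y)
    (h3 : 3 ≤ Module.finrank (ZMod p) ↥X) :
    ∀ a φ, a ≠ 0 → φ ≠ 0 → φ a = 0 → Root G a φ :=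
  Cfsg.Agent.H62.McL.full_grow hinvL hinvR hext h h3

theorem spFull_base {G : Subgroup (V ≃ₗ[ZMod p] V)} {a b : V} {φ ψ : Dual (ZMod p) V}
    (h : Root G a φ) (h' : Root G b ψ) (h1 : φ b ≠ 0) (h2 : ψ a ≠ 0) :
    ∃ (X : Submodule (ZMod p) V) (J : V →ₗ[ZMod p] Dual (ZMod p) V), SpFull G X J ∧ a ∈ X :=
  Cfsg.Agent.H62.McL.spFull_base h h' h1 h2

theorem sp_types {G : Subgroup (V ≃ₗ[ZMod p] V)}
    (h1 : ∀ a φ φ', Root G a φ → Root G a φ' → ∃ k : ZMod p, φ' = k • φ)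
    {X : Submodule (ZMod p) V} {J : V →ₗ[ZMod p] Dual (ZMod p) V} (h : SpFull G X J)
    {c : V} {χ : Dual (ZMod p) V} (hc : Root G c χ) :
    (c ∈ X ∧ ∃ k : ZMod p, k ≠ 0 ∧ χ = k • J c) ∨
    ((∀ y ∈ X, J y c = 0) ∧ ∀ x ∈ X, χ x = 0) ∨
    (∃ c₁ ∈ X, ∃ k : ZMod p, c₁ ≠ 0 ∧ k ≠ 0 ∧ c - c₁ ≠ 0 ∧ χ - k • J c₁ ≠ 0 ∧
      (∀ y ∈ X, J y (c - c₁) = 0) ∧ ∀ x ∈ X, (χ - k • J c₁) x = 0) :=
  Cfsg.Agent.H62.McL.sp_types h1 h hc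

theorem sp_fin {G : Subgroup (V ≃ₗ[ZMod p] V)}
    (h1 : ∀ a φ φ', Root G a φ → Root G a φ' → ∃ k : ZMod p, φ' = k • φ)
    {X : Submodule (ZMod p) V} {J : V →ₗ[ZMod p] Dual (ZMod p) V} (h : SpFull G X J)
    (hX : X = ⊤) :
    ∃ B : LinearMap.BilinForm (ZMod p) V, B.IsAlt ∧ B.Nondegenerate ∧
      ∀ a φ, Root G a φ ↔ a ≠ 0 ∧ ∃ k : ZMod p, k ≠ 0 ∧ φ = k • B a :=
  Cfsg.Agent.H62.McL.sp_fin h1 h hX

theorem spFull_step [Finite V] (hp2 : p ≠ 2) {G : Subgroup (V ≃ₗ[ZMod p] V)} (hopp : HasOpp G)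
    {X : Submodule (ZMod p) V} {J : V →ₗ[ZMod p] Dual (ZMod p) V} (h : SpFull G X J)
    (htypes : ∀ c χ, Root G c χ →
      (c ∈ X ∧ ∃ k : ZMod p, k ≠ 0 ∧ χ = k • J c) ∨
      ((∀ y ∈ X, J y c = 0) ∧ ∀ x ∈ X, χ x = 0) ∨
      (∃ c₁ ∈ X, ∃ k : ZMod p, c₁ ≠ 0 ∧ k ≠ 0 ∧ c - c₁ ≠ 0 ∧ χ - k • J c₁ ≠ 0 ∧
        (∀ y ∈ X, J y (c - c₁) = 0) ∧ ∀ x ∈ X, (χ - k • J c₁) x = 0))
    {c₁ c₀ : V} {χ₀ : Dual (ZMod p) V} (hc₁ : c₁ ∈ X) (hc₁0 : c₁ ≠ 0) (hc₀ : c₀ ≠ 0)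
    (hχ₀ : χ₀ ≠ 0) (hc₀X : ∀ y ∈ X, J y c₀ = 0) (hχ₀X : ∀ x ∈ X, χ₀ x = 0)
    (hr : Root G (c₁ + c₀) (J c₁ + χ₀)) :
    ∃ (X' : Submodule (ZMod p) V) (J' : V →ₗ[ZMod p] Dual (ZMod p) V), SpFull G X' J' ∧
      Module.finrank (ZMod p) ↥X < Module.finrank (ZMod p) ↥X' :=
  Cfsg.Agent.H11.McL.spFull_step hp2 hopp h htypes hc₁ hc₁0 hc₀ hχ₀ hc₀X hχ₀X hr

theorem sl_le [Finite V] (G : Subgroup (V ≃ₗ[ZMod p] V))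
    (h : ∀ a φ, a ≠ 0 → φ ≠ 0 → φ a = 0 → Root G a φ) (f : V ≃ₗ[ZMod p] V)
    (hf : LinearMap.det (f : V →ₗ[ZMod p] V) = 1) : f ∈ G :=
  Cfsg.Agent.H28.McL.sl_le G h f hf

theorem sp_le [Finite V] (G : Subgroup (V ≃ₗ[ZMod p] V))
    (B : LinearMap.BilinForm (ZMod p) V) (hB : B.IsAlt) (hnd : B.Nondegenerate)
    (h : ∀ a : V, a ≠ 0 → Root G a (B a)) (f : V ≃ₗ[ZMod p] V)
    (hf : ∀ x y, B (f x) (f y) = B x y) : f ∈ G :=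
  Cfsg.Agent.H11.McL.sp_le G B hB hnd h f hf

theorem root_restrict (G : Subgroup (V ≃ₗ[ZMod p] V)) (A C : Submodule (ZMod p) V)
    (π : V →ₗ[ZMod p] ↥A) (hπA : ∀ a : ↥A, π (a : V) = a) (hπC : ∀ c ∈ C, π c = 0)
    (hAC : IsCompl A C) (hA : ∀ g ∈ G, ∀ v ∈ A, g v ∈ A) (hC : ∀ g ∈ G, ∀ v ∈ C, g v = v) :
    ∃ ρ : ↥G →* (↥A ≃ₗ[ZMod p] ↥A),
      (∀ (g : ↥G) (v : ↥A), ((ρ g v : ↥A) : V) = (g : V ≃ₗ[ZMod p] V) (v : V)) ∧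
      Function.Injective ρ ∧
      (∀ (a : ↥A) (f : Dual (ZMod p) ↥A), Root ρ.range a f ↔ Root G (a : V) (f ∘ₗ π)) :=
  Cfsg.Agent.H14.McL.root_restrict G A C π hπA hπC hAC hA hC

theorem exists_components [Finite V] (H : Subgroup (V ≃ₗ[ZMod p] V)) (hopp : HasOpp H)
    (hgen : H = Subgroup.closure (rootElems H)) :
    ∃ (n : ℕ) (K : Fin n → Subgroup (V ≃ₗ[ZMod p] V)),
      (∀ j, K j ≤ H ∧ ((K j).subgroupOf H).Normal ∧ HasOpp (K j) ∧ Conn (K j) ∧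
        K j = Subgroup.closure (rootElems (K j)) ∧ ∃ a φ, Root (K j) a φ) ∧
      (⨆ j, K j) = H ∧
      (∀ j j', j ≠ j' → ∀ a φ b ψ, Root (K j) a φ → Root (K j') b ψ → ψ a = 0 ∧ φ b = 0) ∧
      (∀ a φ, Root H a φ → ∃ j, Root (K j) a φ) :=
  Cfsg.Agent.H32.McL.exists_components H hopp hgen

end Cfsg.Agent.H85.McL
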