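import Mathlib
import Cfsg.Prelude
import Cfsg.Agent.H85.McLDefs
import Cfsg.Agent.H85.McLPieces

/-!
# S5075: the connected case

A group `G` generated by its root elements, with opposite roots and a connected root graph,
induces on `centers G` the special linear group or a symplectic group.
-/

set_option autoImplicit false

namespace Cfsg.Agent.H85.McL

open Module

variable {p : ℕ} [Fact p.Prime] {V : Type*} [AddCommGroup V] [Module (ZMod p) V]

theorem Root.mono {G G' : Subgroup (V ≃ₗ[ZMod p] V)} (hle : G ≤ G') {a : V}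
    {φ : Dual (ZMod p) V} (h : Root G a φ) : Root G' a φ := by
  obtain ⟨ha, hφ, h0, g, hg, hgx⟩ := h
  exact ⟨ha, hφ, h0, g, hle hg, hgx⟩

theorem rootElems_subset (G : Subgroup (V ≃ₗ[ZMod p] V)) : rootElems G ⊆ G := by
  rintro t ⟨a, φ, ⟨-, -, -, g, hg, hgx⟩, ht⟩
  have : t = g := by
    ext x
    rw [ht, hgx]
  rw [this]
  exact hg

/-- Elements of a group generated by root elements fix `rootKer` pointwise. -/
theorem fix_of_gen {G : Subgroup (V ≃ₗ[ZMod p] V)} (hgen : G = Subgroup.closure (rootElems G)) :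
    ∀ g ∈ G, ∀ v ∈ rootKer G, g v = v := by
  intro g hg
  have hg' : g ∈ Subgroup.closure (rootElems G) := by
    rw [← hgen]
    exact hg
  refine Subgroup.closure_induction (p := fun g _ => ∀ v ∈ rootKer G, g v = v) ?_ ?_ ?_ ?_ hg'
  · rintro t ⟨a, φ, hr, ht⟩ v hv
    rw [ht, hv a φ hr, zero_smul, add_zero]
  · intro v _
    rfl
  · intro x y _ _ hx hy v hv
    rw [LinearEquiv.mul_apply, hy v hv, hx v hv]
  · intro x _ hx v hv
    have h1 : x⁻¹ (x v) = v := by
      rw [← LinearEquiv.mul_apply, inv_mul_cancel]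
      rfl
    rw [hx v hv] at h1
    exact h1

/-- Elements of a group generated by root elements move every vector inside `centers`. -/
theorem move_of_gen {G : Subgroup (V ≃ₗ[ZMod p] V)}
    (hgen : G = Subgroup.closure (rootElems G)) :
    ∀ g ∈ G, ∀ v, g v - v ∈ centers G := by
  intro g hg
  have hg' : g ∈ Subgroup.closure (rootElems G) := by
    rw [← hgen]
    exact hg
  refine Subgroup.closure_induction (p := fun g _ => ∀ v, g v - v ∈ centers G) ?_ ?_ ?_ ?_ hg'
  · rintro t ⟨a, φ, hr, ht⟩ v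
    rw [ht, add_sub_cancel_left]
    exact Submodule.smul_mem _ _ (Submodule.subset_span ⟨φ, hr⟩)
  · intro v
    have e : (1 : V ≃ₗ[ZMod p] V) v - v = 0 := sub_self v
    rw [e]
    exact Submodule.zero_mem _
  · intro x y _ _ hx hy v
    have e : (x * y) v - v = (x (y v) - y v) + (y v - v) := by
      rw [LinearEquiv.mul_apply]
      abel
    rw [e]
    exact Submodule.add_mem _ (hx _) (hy _)
  · intro x _ hx v
    have h1 : x (x⁻¹ v) = v := by
      rw [← LinearEquiv.mul_apply, mul_inv_cancel]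
      rfl
    have e : x⁻¹ v - v = -(x (x⁻¹ v) - x⁻¹ v) := by
      rw [h1]
      abel
    rw [e]
    exact Submodule.neg_mem _ (hx _)

theorem map_mem_centers {G : Subgroup (V ≃ₗ[ZMod p] V)} {g : V ≃ₗ[ZMod p] V} (hg : g ∈ G)
    {v : V} (hv : v ∈ centers G) : g v ∈ centers G := by
  have hle : centers G ≤ (centers G).comap (g : V →ₗ[ZMod p] V) := by
    refine Submodule.span_le.2 ?_
    rintro a ⟨φ, hr⟩
    exact Submodule.subset_span ⟨_, hr.map hg⟩
  exact hle hv

theorem det_eq_one_of_pow {W : Type*} [AddCommGroup W] [Module (ZMod p) W]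
    (f : W ≃ₗ[ZMod p] W) (hf : f ^ p = 1) : LinearMap.det (f : W →ₗ[ZMod p] W) = 1 := by
  have h1 : (LinearEquiv.det f) ^ p = 1 := by
    rw [← map_pow, hf, map_one]
  have h2 : ((LinearEquiv.det f : (ZMod p)ˣ) : ZMod p) ^ p = 1 := by
    rw [← Units.val_pow_eq_pow_val, h1, Units.val_one]
  rw [ZMod.pow_card] at h2
  rw [← LinearEquiv.coe_det]
  exact h2

/-- Induction over the root elements generating `G`, through a homomorphism. -/
theorem gen_induction {G : Subgroup (V ≃ₗ[ZMod p] V)}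
    (hgen : G = Subgroup.closure (rootElems G)) {M : Type*} [Group M] (ρ : ↥G →* M)
    (S : Subgroup M)
    (h : ∀ (g : ↥G) (a : V) (φ : Dual (ZMod p) V), Root G a φ →
      (∀ x, (g : V ≃ₗ[ZMod p] V) x = x + φ x • a) → ρ g ∈ S) :
    ∀ g : ↥G, ρ g ∈ S := by
  intro g
  have hle : Subgroup.closure (rootElems G) ≤ (S.comap ρ).map G.subtype := by
    rw [Subgroup.closure_le]
    rintro t ⟨a, φ, hr, ht⟩
    have htG : t ∈ G := rootElems_subset G ⟨a, φ, hr, ht⟩
    exact ⟨⟨t, htG⟩, h ⟨t, htG⟩ a φ hr ht, rfl⟩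
  have hg : (g : V ≃ₗ[ZMod p] V) ∈ Subgroup.closure (rootElems G) := by
    rw [← hgen]
    exact g.2
  obtain ⟨g', hg', e⟩ := hle hg
  have : g' = g := Subtype.ext e
  rw [← this]
  exact hg'

/-- The isometry group of a bilinear form, as a subgroup. -/
def isoSub {W : Type*} [AddCommGroup W] [Module (ZMod p) W]
    (B : LinearMap.BilinForm (ZMod p) W) : Subgroup (W ≃ₗ[ZMod p] W) where
  carrier := {f | ∀ x y, B (f x) (f y) = B x y}
  mul_mem' := by
    intro f g hf hg x y
    rw [LinearEquiv.mul_apply, LinearEquiv.mul_apply, hf, hg]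
  one_mem' := by
    intro x y
    rfl
  inv_mem' := by
    intro f hf x y
    have e : ∀ z, f (f⁻¹ z) = z := fun z => by
      rw [← LinearEquiv.mul_apply, mul_inv_cancel]
      rfl
    have := hf (f⁻¹ x) (f⁻¹ y)
    rw [e, e] at this
    exact this.symm

theorem mem_isoSub {W : Type*} [AddCommGroup W] [Module (ZMod p) W]
    (B : LinearMap.BilinForm (ZMod p) W) (f : W ≃ₗ[ZMod p] W) :
    f ∈ isoSub B ↔ ∀ x y, B (f x) (f y) = B x y := Iff.rfl

/-- **The connected case.** -/
theorem conn_main [Finite V] (hp2 : p ≠ 2) (G : Subgroup (V ≃ₗ[ZMod p] V)) (hopp : HasOpp G)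
    (hconn : Conn G) (hgen : G = Subgroup.closure (rootElems G)) (hne : ∃ a φ, Root G a φ) :
    ∃ ρ : ↥G →* (↥(centers G) ≃ₗ[ZMod p] ↥(centers G)),
      (∀ (h : ↥G) (v : ↥(centers G)),
        ((ρ h v : ↥(centers G)) : V) = (h : V ≃ₗ[ZMod p] V) (v : V)) ∧
      ((ρ.range : Set (↥(centers G) ≃ₗ[ZMod p] ↥(centers G))) =
          {f : ↥(centers G) ≃ₗ[ZMod p] ↥(centers G) |
            LinearMap.det (f : ↥(centers G) →ₗ[ZMod p] ↥(centers G)) = 1} ∨
        ∃ B : LinearMap.BilinForm (ZMod p) ↥(centers G), B.IsAlt ∧ B.Nondegenerate ∧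
          (ρ.range : Set (↥(centers G) ≃ₗ[ZMod p] ↥(centers G))) =
            {f : ↥(centers G) ≃ₗ[ZMod p] ↥(centers G) | ∀ x y, B (f x) (f y) = B x y}) := by
  classical
  have hAC : IsCompl (centers G) (rootKer G) := isCompl_centers hp2 hopp
  set A : Submodule (ZMod p) V := centers G with hAdef
  set π : V →ₗ[ZMod p] ↥A := Submodule.projectionOnto A (rootKer G) hAC with hπdef
  have hπA : ∀ a : ↥A, π (a : V) = a := fun a => Submodule.projectionOnto_apply_left hAC a
  have hπC : ∀ c ∈ rootKer G, π c = 0 := fun c hc =>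
    (Submodule.projectionOnto_apply_eq_zero_iff hAC).2 hc
  have hπsub : ∀ x : V, x - (π x : V) ∈ rootKer G := by
    intro x
    rw [← Submodule.projectionOnto_apply_eq_zero_iff hAC, map_sub]
    change π x - π (π x : V) = 0
    rw [hπA, sub_self]
  obtain ⟨ρ, hρ, -, hroot⟩ := root_restrict G A (rootKer G) π hπA hπC hAC
    (fun g hg v hv => map_mem_centers hg hv) (fun g hg v hv => fix_of_gen hgen g hg v hv)
  refine ⟨ρ, hρ, ?_⟩
  -- an axis of `G` factors through `π`
  have haxis : ∀ b ψ, Root G b ψ → (ψ ∘ₗ A.subtype) ∘ₗ π = ψ := by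
    intro b ψ hb
    ext x
    have h0 : ψ (x - (π x : V)) = 0 := hπsub x b ψ hb
    rw [map_sub, sub_eq_zero] at h0
    simp only [LinearMap.comp_apply, Submodule.subtype_apply]
    exact h0.symm
  have hmem : ∀ b ψ, Root G b ψ → b ∈ A := fun b ψ hb => Submodule.subset_span ⟨ψ, hb⟩
  have hdown : ∀ b ψ (hb : Root G b ψ),
      Root ρ.range (⟨b, hmem b ψ hb⟩ : ↥A) (ψ ∘ₗ A.subtype) := by
    intro b ψ hb
    rw [hroot, haxis b ψ hb]
    exact hb
  have hopp' : HasOpp ρ.range := by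
    intro a f haf
    have h1 := (hroot a f).1 haf
    obtain ⟨b, ψ, hb, h2, h3⟩ := hopp _ _ h1
    refine ⟨⟨b, hmem b ψ hb⟩, ψ ∘ₗ A.subtype, hdown b ψ hb, ?_, ?_⟩
    · simpa using h2
    · have e : π b = ⟨b, hmem b ψ hb⟩ := hπA ⟨b, hmem b ψ hb⟩
      rw [LinearMap.comp_apply, e] at h3
      exact h3
  have hconn' : Conn ρ.range := by
    intro r s hr hs
    let Ψ : V × Dual (ZMod p) V → ↥A × Dual (ZMod p) ↥A := fun t => (π t.1, t.2 ∘ₗ A.subtype)
    have hΨadj : ∀ t u, Adj G t u → Adj ρ.range (Ψ t) (Ψ u) := by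
      rintro ⟨t1, t2⟩ ⟨u1, u2⟩ ⟨ht, hu, hor⟩
      have e1 : π t1 = ⟨t1, hmem t1 t2 ht⟩ := hπA ⟨t1, hmem t1 t2 ht⟩
      have e2 : π u1 = ⟨u1, hmem u1 u2 hu⟩ := hπA ⟨u1, hmem u1 u2 hu⟩
      refine ⟨?_, ?_, ?_⟩
      · change Root ρ.range (π t1) (t2 ∘ₗ A.subtype)
        rw [e1]
        exact hdown t1 t2 ht
      · change Root ρ.range (π u1) (u2 ∘ₗ A.subtype)
        rw [e2]
        exact hdown u1 u2 hu
      · change (u2 ∘ₗ A.subtype) (π t1) ≠ 0 ∨ (t2 ∘ₗ A.subtype) (π u1) ≠ 0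
        rw [e1, e2]
        exact hor
    have h1 := hconn ((r.1 : V), r.2 ∘ₗ π) ((s.1 : V), s.2 ∘ₗ π) ((hroot _ _).1 hr)
      ((hroot _ _).1 hs)
    have h2 : Relation.ReflTransGen (Adj ρ.range) (Ψ ((r.1 : V), r.2 ∘ₗ π))
        (Ψ ((s.1 : V), s.2 ∘ₗ π)) := Relation.ReflTransGen.lift Ψ hΨadj _ _ h1
    have e : ∀ t : ↥A × Dual (ZMod p) ↥A, Ψ ((t.1 : V), t.2 ∘ₗ π) = t := by
      rintro ⟨t1, t2⟩
      refine Prod.ext (hπA t1) ?_
      ext x
      change t2 (π (x : V)) = t2 x
      rw [hπA]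
    rw [e r, e s] at h2
    exact h2
  have hA' : centers ρ.range = ⊤ := by
    rw [eq_top_iff]
    rintro ⟨a, ha⟩ -
    have hle : A ≤ (centers ρ.range).map A.subtype := by
      refine Submodule.span_le.2 ?_
      rintro b ⟨ψ, hb⟩
      exact ⟨⟨b, hmem b ψ hb⟩, Submodule.subset_span ⟨_, hdown b ψ hb⟩, rfl⟩
    obtain ⟨a', ha', e⟩ := hle ha
    have : a' = ⟨a, ha⟩ := Subtype.ext e
    rw [← this]
    exact ha'
  have hΦ' : axes ρ.range = ⊤ := by
    have hco : (axes ρ.range).dualCoannihilator = ⊥ := by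
      rw [eq_bot_iff]
      intro a ha
      rw [Submodule.mem_dualCoannihilator] at ha
      have h1 : (a : V) ∈ rootKer G := by
        intro b ψ hb
        have := ha (ψ ∘ₗ A.subtype) (Submodule.subset_span ⟨_, hdown b ψ hb⟩)
        simpa using this
      have h0 : (a : V) = 0 := by
        have := hAC.disjoint.le_bot (⟨a.2, h1⟩ : (a : V) ∈ A ⊓ rootKer G)
        simpa using this
      rw [Submodule.mem_bot]
      exact Subtype.ext h0
    have h := Subspace.dualCoannihilator_dualAnnihilator_eq (W := axes ρ.range)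
    rw [hco] at h
    rw [← h]
    exact Submodule.dualAnnihilator_bot
  have hinvL := inv_left hopp' hconn' hA' hΦ'
  have hinvR := inv_right hopp' hconn' hA' hΦ'
  -- the image of a root element
  have hρpow : ∀ (g : ↥G) (a : V) (φ : Dual (ZMod p) V), Root G a φ →
      (∀ x, (g : V ≃ₗ[ZMod p] V) x = x + φ x • a) → ρ g ^ p = 1 := by
    intro g a φ hr hg
    have : g ^ p = 1 := by
      apply Subtype.ext
      ext x
      rw [Subgroup.coe_pow, pow_tv hg hr.2.2.1, CharP.cast_eq_zero, zero_mul, zero_smul, add_zero]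
      rfl
    rw [← map_pow, this, map_one]
  by_cases hcase : ∃ a φ₁ φ₂, Root ρ.range a φ₁ ∧ Root ρ.range a φ₂ ∧ ∀ k : ZMod p, φ₂ ≠ k • φ₁
  · left
    obtain ⟨X, Y, hXY, h3⟩ := exists_full_three hopp' hcase
    have hall := full_grow hinvL hinvR
      (fun X Y c' χ' h hc hχ hne hα hβ => full_extend h hc hχ hne hα hβ) hXY h3
    have hdet : ∀ g : ↥G, ρ g ∈ (LinearEquiv.det : (↥A ≃ₗ[ZMod p] ↥A) →* (ZMod p)ˣ).ker := by
      refine gen_induction hgen ρ _ ?_
      intro g a φ hr hg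
      rw [MonoidHom.mem_ker]
      apply Units.ext
      rw [LinearEquiv.coe_det, Units.val_one]
      exact det_eq_one_of_pow _ (hρpow g a φ hr hg)
    ext f
    constructor
    · rintro ⟨g, rfl⟩
      have := hdet g
      rw [MonoidHom.mem_ker] at this
      change LinearMap.det ((ρ g : ↥A ≃ₗ[ZMod p] ↥A) : ↥A →ₗ[ZMod p] ↥A) = 1
      rw [← LinearEquiv.coe_det, this, Units.val_one]
    · intro hf
      exact sl_le ρ.range hall f hf
  · right
    have h1 : ∀ a φ φ', Root ρ.range a φ → Root ρ.range a φ' → ∃ k : ZMod p, φ' = k • φ := by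
      intro a φ φ' h h'
      by_contra hcon
      push Not at hcon
      exact hcase ⟨a, φ, φ', h, h', hcon⟩
    obtain ⟨a₀, φ₀, hr₀⟩ := hne
    have hr₀' := hdown a₀ φ₀ hr₀
    obtain ⟨b₀, ψ₀, hb₀, hb1, hb2⟩ := hopp' _ _ hr₀'
    obtain ⟨X₀, J₀, hSp₀, haX₀⟩ := spFull_base hr₀' hb₀ hb2 hb1
    have key : ∀ n : ℕ, ∀ (X : Submodule (ZMod p) ↥A) (J : ↥A →ₗ[ZMod p] Dual (ZMod p) ↥A),
        SpFull ρ.range X J → X ≠ ⊥ → finrank (ZMod p) ↥A - finrank (ZMod p) ↥X ≤ n →
        ∃ J', SpFull ρ.range ⊤ J' := by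
      intro n
      induction n with
      | zero =>
        intro X J hSp hX hn
        have hle := Submodule.finrank_le X
        have hX' : X = ⊤ := Submodule.eq_top_of_finrank_eq (le_antisymm hle (by omega))
        subst hX'
        exact ⟨J, hSp⟩
      | succ n ih =>
        intro X J hSp hX hn
        by_cases hmix : ∃ c χ, Root ρ.range c χ ∧ ∃ c₁ ∈ X, ∃ k : ZMod p, c₁ ≠ 0 ∧ k ≠ 0 ∧
            c - c₁ ≠ 0 ∧ χ - k • J c₁ ≠ 0 ∧ (∀ y ∈ X, J y (c - c₁) = 0) ∧
            ∀ x ∈ X, (χ - k • J c₁) x = 0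
        · obtain ⟨c, χ, hc, c₁, hc₁, k, hc₁0, hk, hc0, hχ0, hJ, hχX⟩ := hmix
          have hr : Root ρ.range (c₁ + (c - c₁)) (J c₁ + k⁻¹ • (χ - k • J c₁)) := by
            have e1 : c₁ + (c - c₁) = c := by abel
            have e2 : J c₁ + k⁻¹ • (χ - k • J c₁) = k⁻¹ • χ := by
              rw [smul_sub, _root_.smul_smul, inv_mul_cancel₀ hk, one_smul]
              abel
            rw [e1, e2]
            exact hc.smul_right (inv_ne_zero hk)
          obtain ⟨X', J', hSp', hlt⟩ := spFull_step hp2 hopp' hSp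
            (fun c χ h => sp_types h1 hSp h) hc₁ hc₁0 hc0
            (smul_ne_zero (inv_ne_zero hk) hχ0) hJ (fun x hx => by
              rw [LinearMap.smul_apply, hχX x hx, smul_zero]) hr
          refine ih X' J' hSp' ?_ ?_
          · rintro rfl
            simp at hlt
          · have := Submodule.finrank_le X'
            omega
        · have hX' : X = ⊥ ∨ X = ⊤ := by
            apply hinvL
            intro c χ hc
            rcases sp_types h1 hSp hc with h | h | h
            · exact Or.inl h.1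
            · exact Or.inr h.2
            · exact absurd ⟨c, χ, hc, h⟩ hmix
          rcases hX' with h | h
          · exact absurd h hX
          · subst h
            exact ⟨J, hSp⟩
    have hX₀ : X₀ ≠ ⊥ := by
      rintro rfl
      rw [Submodule.mem_bot] at haX₀
      exact hr₀'.1 haX₀
    obtain ⟨J', hSp'⟩ := key _ X₀ J₀ hSp₀ hX₀ le_rfl
    obtain ⟨B, hBalt, hBnd, hBroot⟩ := sp_fin h1 hSp' rfl
    refine ⟨B, hBalt, hBnd, ?_⟩
    have hpres : ∀ g : ↥G, ρ g ∈ isoSub B := by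
      refine gen_induction hgen ρ _ ?_
      intro g a φ hr hg
      obtain ⟨ha', k, hk, hφk⟩ := (hBroot _ _).1 (hdown a φ hr)
      have hact : ∀ v : ↥A, ρ g v = v + (k * B ⟨a, hmem a φ hr⟩ v) • (⟨a, hmem a φ hr⟩ : ↥A) := by
        intro v
        apply Subtype.ext
        rw [hρ, hg]
        have e : φ (v : V) = k * B ⟨a, hmem a φ hr⟩ v := by
          have := congrArg (fun f : Dual (ZMod p) ↥A => f v) hφk
          simpa using this
        rw [e]
        rfl
      rw [mem_isoSub]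
      intro x y
      rw [hact x, hact y]
      have hs : B x ⟨a, hmem a φ hr⟩ = -B ⟨a, hmem a φ hr⟩ x := (LinearMap.BilinForm.IsAlt.neg_eq hBalt _ _).symm
      simp only [map_add, map_smul, LinearMap.add_apply, LinearMap.smul_apply, smul_eq_mul,
        hBalt ⟨a, hmem a φ hr⟩, hs]
      ring
    ext f
    constructor
    · rintro ⟨g, rfl⟩
      exact (mem_isoSub B _).1 (hpres g)
    · intro hf
      exact sp_le ρ.range B hBalt hBnd
        (fun a ha => (hBroot a (B a)).2 ⟨ha, 1, one_ne_zero, (one_smul _ _).symm⟩) f hf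

end Cfsg.Agent.H85.McL
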