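import Mathlib
import Cfsg.Prelude
import Cfsg.Agent.H85.McLDefs
import Cfsg.Agent.H85.McLPieces
import Cfsg.Agent.H85.McLConn

/-!
# S5075: assembly of the components
-/

set_option autoImplicit false

namespace Cfsg.Agent.H85.McL

open Module

variable {p : ℕ} [Fact p.Prime] {V : Type*} [AddCommGroup V] [Module (ZMod p) V]

/-- Conjugating a root of a subgroup `K` normal in `H` by an element of `H`. -/
theorem Root.map_normal {H K : Subgroup (V ≃ₗ[ZMod p] V)} (hKH : K ≤ H)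
    (hn : (K.subgroupOf H).Normal) {a : V} {φ : Dual (ZMod p) V} (h : Root K a φ)
    {g : V ≃ₗ[ZMod p] V} (hg : g ∈ H) :
    Root K (g a) (φ ∘ₗ (g.symm : V →ₗ[ZMod p] V)) := by
  obtain ⟨ha, hφ, h0, t, ht, htx⟩ := h
  have hmem : g * t * g⁻¹ ∈ K := by
    have h1 : (⟨t, hKH ht⟩ : ↥H) ∈ K.subgroupOf H := Subgroup.mem_subgroupOf.2 ht
    have h2 := hn.conj_mem _ h1 ⟨g, hg⟩
    exact Subgroup.mem_subgroupOf.1 h2
  refine ⟨?_, ?_, ?_, g * t * g⁻¹, hmem, ?_⟩
  · intro h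
    exact ha (by simpa using h)
  · intro h
    apply hφ
    ext x
    have := congrArg (fun f : Dual (ZMod p) V => f (g x)) h
    simpa using this
  · simp [h0]
  · intro x
    rw [LinearEquiv.mul_apply, LinearEquiv.mul_apply, htx, map_add, map_smul]
    simp

/-- The pointwise fixer of a submodule. -/
def fixSub (S : Submodule (ZMod p) V) : Subgroup (V ≃ₗ[ZMod p] V) where
  carrier := {g | ∀ v ∈ S, g v = v}
  mul_mem' := by
    intro f g hf hg v hv
    rw [LinearEquiv.mul_apply, hg v hv, hf v hv]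
  one_mem' := by
    intro v _
    rfl
  inv_mem' := by
    intro f hf v hv
    have h1 : f⁻¹ (f v) = v := by
      rw [← LinearEquiv.mul_apply, inv_mul_cancel]
      rfl
    rw [hf v hv] at h1
    exact h1

theorem map_eq_of_forall {H : Subgroup (V ≃ₗ[ZMod p] V)} {S : Submodule (ZMod p) V}
    (hS : ∀ h ∈ H, ∀ v ∈ S, h v ∈ S) :
    ∀ h ∈ H, S.map (h : V →ₗ[ZMod p] V) = S := by
  intro h hh
  apply le_antisymm
  · rintro _ ⟨v, hv, rfl⟩
    exact hS h hh v hv
  · intro v hv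
    refine ⟨h⁻¹ v, hS h⁻¹ (H.inv_mem hh) v hv, ?_⟩
    change h (h⁻¹ v) = v
    rw [← LinearEquiv.mul_apply, mul_inv_cancel]
    rfl

/-- The statement for the trivial group. -/
theorem mcl_trivial (H : Subgroup (V ≃ₗ[ZMod p] V)) (hH : H = ⊥) :
    ∃ (n : ℕ) (W : Fin (n + 1) → Submodule (ZMod p) V) (K : Fin n → Subgroup (V ≃ₗ[ZMod p] V)),
      1 ≤ n ∧ DirectSum.IsInternal W ∧
      (∀ h ∈ H, ∀ i, (W i).map (h : V →ₗ[ZMod p] V) = W i) ∧
      (∀ j, K j ≤ H ∧ ((K j).subgroupOf H).Normal) ∧ ⨆ j, K j = H ∧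
      (∀ j, K j ⊓ (⨆ j' ∈ {j' : Fin n | j' ≠ j}, K j') = ⊥) ∧
      (∀ j j', j ≠ j' → ∀ a ∈ K j, ∀ b ∈ K j', a * b = b * a) ∧
      (∀ j, ∀ h ∈ K j, ∀ i : Fin (n + 1), i ≠ j.succ → ∀ v ∈ W i, h v = v) ∧
      (∀ j, ∃ ρ : ↥(K j) →* (↥(W j.succ) ≃ₗ[ZMod p] ↥(W j.succ)),
        (∀ (h : ↥(K j)) (v : ↥(W j.succ)),
          ((ρ h v : ↥(W j.succ)) : V) = (h : V ≃ₗ[ZMod p] V) (v : V)) ∧
        ((ρ.range : Set (↥(W j.succ) ≃ₗ[ZMod p] ↥(W j.succ))) =
            {f : ↥(W j.succ) ≃ₗ[ZMod p] ↥(W j.succ) |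
              LinearMap.det (f : ↥(W j.succ) →ₗ[ZMod p] ↥(W j.succ)) = 1} ∨
          ∃ B : LinearMap.BilinForm (ZMod p) ↥(W j.succ), B.IsAlt ∧ B.Nondegenerate ∧
            (ρ.range : Set (↥(W j.succ) ≃ₗ[ZMod p] ↥(W j.succ))) =
              {f : ↥(W j.succ) ≃ₗ[ZMod p] ↥(W j.succ) | ∀ x y, B (f x) (f y) = B x y})) := by
  classical
  subst hH
  refine ⟨1, fun i => if i = 0 then ⊤ else ⊥, fun _ => ⊥, le_rfl, ?_, ?_, ?_, ?_, ?_, ?_, ?_, ?_⟩
  · rw [DirectSum.isInternal_submodule_iff_iSupIndep_and_iSup_eq_top]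
    constructor
    · rw [iSupIndep_def]
      intro i
      by_cases hi : i = 0
      · have : (⨆ (j : Fin 2) (_ : j ≠ i), (if j = 0 then (⊤ : Submodule (ZMod p) V) else ⊥)) = ⊥ := by
          rw [eq_bot_iff]
          refine iSup₂_le ?_
          intro j hj
          rw [if_neg (fun h => hj (h.trans hi.symm))]
        rw [this]
        exact disjoint_bot_right
      · simp only [if_neg hi]
        exact disjoint_bot_left
    · rw [eq_top_iff]
      refine le_trans ?_ (le_iSup _ (0 : Fin 2))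
      simp
  · intro h hh i
    rw [Subgroup.mem_bot] at hh
    subst hh
    exact Submodule.map_id _
  · intro j
    refine ⟨le_rfl, ?_⟩
    rw [Subgroup.bot_subgroupOf]
    infer_instance
  · simp
  · intro j
    simp
  · intro j j' _ a ha b hb
    rw [Subgroup.mem_bot] at ha hb
    rw [ha, hb]
  · intro j h hh i _ v _
    rw [Subgroup.mem_bot] at hh
    rw [hh]
    rfl
  · intro j
    have key : ∀ (S : Submodule (ZMod p) V), S = ⊥ →
        ∃ ρ : ↥(⊥ : Subgroup (V ≃ₗ[ZMod p] V)) →* (↥S ≃ₗ[ZMod p] ↥S),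
        (∀ (h : ↥(⊥ : Subgroup (V ≃ₗ[ZMod p] V))) (v : ↥S),
          ((ρ h v : ↥S) : V) = (h : V ≃ₗ[ZMod p] V) (v : V)) ∧
        ((ρ.range : Set (↥S ≃ₗ[ZMod p] ↥S)) =
            {f : ↥S ≃ₗ[ZMod p] ↥S | LinearMap.det (f : ↥S →ₗ[ZMod p] ↥S) = 1} ∨
          ∃ B : LinearMap.BilinForm (ZMod p) ↥S, B.IsAlt ∧ B.Nondegenerate ∧
            (ρ.range : Set (↥S ≃ₗ[ZMod p] ↥S)) =
              {f : ↥S ≃ₗ[ZMod p] ↥S | ∀ x y, B (f x) (f y) = B x y}) := by
      rintro S rfl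
      refine ⟨1, ?_, Or.inl ?_⟩
      · rintro ⟨h, hh⟩ v
        rw [Subgroup.mem_bot] at hh
        subst hh
        rfl
      · have hsub : ∀ f : ↥(⊥ : Submodule (ZMod p) V) ≃ₗ[ZMod p] ↥(⊥ : Submodule (ZMod p) V),
            f = 1 := by
          intro f
          apply LinearEquiv.ext
          intro x
          exact Subsingleton.elim _ _
        ext f
        constructor
        · intro _
          rw [hsub f]
          change LinearMap.det (LinearMap.id : ↥(⊥ : Submodule (ZMod p) V) →ₗ[ZMod p] _) = 1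
          exact LinearMap.det_id
        · intro _
          rw [hsub f]
          exact Subgroup.one_mem _
    have hW : (if j.succ = 0 then (⊤ : Submodule (ZMod p) V) else ⊥) = ⊥ :=
      if_neg (Fin.succ_ne_zero j)
    exact key _ hW

/-- The statement, given the components. -/
theorem mcl_of_components [Finite V] (hp2 : p ≠ 2) (H : Subgroup (V ≃ₗ[ZMod p] V))
    (hopp : HasOpp H) (hgen : H = Subgroup.closure (rootElems H)) (n : ℕ)
    (K : Fin n → Subgroup (V ≃ₗ[ZMod p] V))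
    (hK : ∀ j, K j ≤ H ∧ ((K j).subgroupOf H).Normal ∧ HasOpp (K j) ∧ Conn (K j) ∧
        K j = Subgroup.closure (rootElems (K j)) ∧ ∃ a φ, Root (K j) a φ)
    (hsup : (⨆ j, K j) = H)
    (hcomm : ∀ j j', j ≠ j' → ∀ a φ b ψ, Root (K j) a φ → Root (K j') b ψ → ψ a = 0 ∧ φ b = 0)
    (hex : ∀ a φ, Root H a φ → ∃ j, Root (K j) a φ) :
    ∃ (W : Fin (n + 1) → Submodule (ZMod p) V),
      DirectSum.IsInternal W ∧
      (∀ h ∈ H, ∀ i, (W i).map (h : V →ₗ[ZMod p] V) = W i) ∧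
      (∀ j, K j ≤ H ∧ ((K j).subgroupOf H).Normal) ∧ ⨆ j, K j = H ∧
      (∀ j, K j ⊓ (⨆ j' ∈ {j' : Fin n | j' ≠ j}, K j') = ⊥) ∧
      (∀ j j', j ≠ j' → ∀ a ∈ K j, ∀ b ∈ K j', a * b = b * a) ∧
      (∀ j, ∀ h ∈ K j, ∀ i : Fin (n + 1), i ≠ j.succ → ∀ v ∈ W i, h v = v) ∧
      (∀ j, ∃ ρ : ↥(K j) →* (↥(W j.succ) ≃ₗ[ZMod p] ↥(W j.succ)),
        (∀ (h : ↥(K j)) (v : ↥(W j.succ)),
          ((ρ h v : ↥(W j.succ)) : V) = (h : V ≃ₗ[ZMod p] V) (v : V)) ∧
        ((ρ.range : Set (↥(W j.succ) ≃ₗ[ZMod p] ↥(W j.succ))) =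
            {f : ↥(W j.succ) ≃ₗ[ZMod p] ↥(W j.succ) |
              LinearMap.det (f : ↥(W j.succ) →ₗ[ZMod p] ↥(W j.succ)) = 1} ∨
          ∃ B : LinearMap.BilinForm (ZMod p) ↥(W j.succ), B.IsAlt ∧ B.Nondegenerate ∧
            (ρ.range : Set (↥(W j.succ) ≃ₗ[ZMod p] ↥(W j.succ))) =
              {f : ↥(W j.succ) ≃ₗ[ZMod p] ↥(W j.succ) | ∀ x y, B (f x) (f y) = B x y})) := by
  classical
  have hKle : ∀ j, K j ≤ H := fun j => (hK j).1
  have hKn : ∀ j, ((K j).subgroupOf H).Normal := fun j => (hK j).2.1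
  have hKopp : ∀ j, HasOpp (K j) := fun j => (hK j).2.2.1
  have hKconn : ∀ j, Conn (K j) := fun j => (hK j).2.2.2.1
  have hKgen : ∀ j, K j = Subgroup.closure (rootElems (K j)) := fun j => (hK j).2.2.2.2.1
  have hKne : ∀ j, ∃ a φ, Root (K j) a φ := fun j => (hK j).2.2.2.2.2
  have hAC : ∀ j, IsCompl (centers (K j)) (rootKer (K j)) := fun j =>
    isCompl_centers hp2 (hKopp j)
  have hHC : IsCompl (centers H) (rootKer H) := isCompl_centers hp2 hopp
  have hAle : ∀ j, centers (K j) ≤ centers H := by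
    intro j
    refine Submodule.span_mono ?_
    rintro a ⟨φ, hr⟩
    exact ⟨φ, hr.mono (hKle j)⟩
  have hCle : ∀ j, rootKer H ≤ rootKer (K j) := by
    intro j v hv b ψ hb
    exact hv b ψ (hb.mono (hKle j))
  have hAA : ∀ j j', j' ≠ j → centers (K j') ≤ rootKer (K j) := by
    intro j j' hne
    refine Submodule.span_le.2 ?_
    rintro b ⟨ψ, hb⟩ a φ ha
    exact (hcomm j j' hne.symm a φ b ψ ha hb).2
  have hcH : centers H ≤ ⨆ j, centers (K j) := by
    refine Submodule.span_le.2 ?_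
    rintro a ⟨φ, hr⟩
    obtain ⟨j, hj⟩ := hex a φ hr
    exact (le_iSup (fun j => centers (K j)) j) (Submodule.subset_span ⟨φ, hj⟩)
  let W : Fin (n + 1) → Submodule (ZMod p) V :=
    Fin.cons (rootKer H) (fun j => centers (K j))
  have hW0 : W 0 = rootKer H := rfl
  have hWs : ∀ j : Fin n, W j.succ = centers (K j) := fun j => Fin.cons_succ _ _ _
  refine ⟨W, ?_, ?_, fun j => ⟨hKle j, hKn j⟩, hsup, ?_, ?_, ?_, ?_⟩
  · rw [DirectSum.isInternal_submodule_iff_iSupIndep_and_iSup_eq_top]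
    constructor
    · rw [iSupIndep_def]
      intro i
      rcases Fin.eq_zero_or_eq_succ i with rfl | ⟨j, rfl⟩
      · rw [hW0]
        refine Disjoint.mono_right ?_ hHC.disjoint.symm
        refine iSup₂_le ?_
        intro i' hi'
        obtain ⟨j, rfl⟩ := Fin.exists_succ_eq.2 hi'
        rw [hWs]
        exact hAle j
      · rw [hWs]
        refine Disjoint.mono_right ?_ (hAC j).disjoint
        refine iSup₂_le ?_
        intro i' hi'
        rcases Fin.eq_zero_or_eq_succ i' with rfl | ⟨j', rfl⟩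
        · rw [hW0]
          exact hCle j
        · rw [hWs]
          exact hAA j j' (fun e => hi' (by rw [e]))
    · rw [eq_top_iff, ← hHC.sup_eq_top]
      refine sup_le ?_ ?_
      · refine hcH.trans (iSup_le fun j => ?_)
        rw [← hWs j]
        exact le_iSup W j.succ
      · rw [← hW0]
        exact le_iSup W 0
  · intro h hh i
    revert h
    rcases Fin.eq_zero_or_eq_succ i with rfl | ⟨j, rfl⟩
    · rw [hW0]
      refine map_eq_of_forall ?_
      intro h hh v hv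
      rw [fix_of_gen hgen h hh v hv]
      exact hv
    · rw [hWs]
      refine map_eq_of_forall ?_
      intro h hh v hv
      have hle : centers (K j) ≤ (centers (K j)).comap (h : V →ₗ[ZMod p] V) := by
        refine Submodule.span_le.2 ?_
        rintro a ⟨φ, hr⟩
        exact Submodule.subset_span ⟨_, hr.map_normal (hKle j) (hKn j) hh⟩
      exact hle hv
  · intro j
    rw [eq_bot_iff]
    rintro g ⟨hg1, hg2⟩
    have h1 : ∀ v ∈ rootKer (K j), g v = v := fix_of_gen (hKgen j) g hg1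
    have h2 : ∀ v ∈ centers (K j), g v = v := by
      have hle : (⨆ j' ∈ {j' : Fin n | j' ≠ j}, K j') ≤ fixSub (centers (K j)) := by
        refine iSup₂_le ?_
        intro j' hj' g' hg' v hv
        exact fix_of_gen (hKgen j') g' hg' v (hAA j' j (fun e => hj' e.symm) hv)
      exact hle hg2
    rw [Subgroup.mem_bot]
    ext v
    have hv : v ∈ centers (K j) ⊔ rootKer (K j) := by
      rw [(hAC j).sup_eq_top]
      exact Submodule.mem_top
    obtain ⟨a, ha, c, hc, rfl⟩ := Submodule.mem_sup.1 hv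
    rw [map_add, h2 a ha, h1 c hc]
    rfl
  · intro j j' hjj a ha b hb
    ext v
    rw [LinearEquiv.mul_apply, LinearEquiv.mul_apply]
    have h1 : a (b v - v) = b v - v :=
      fix_of_gen (hKgen j) a ha _ (hAA j j' hjj.symm (move_of_gen (hKgen j') b hb v))
    have h2 : b (a v - v) = a v - v :=
      fix_of_gen (hKgen j') b hb _ (hAA j' j hjj (move_of_gen (hKgen j) a ha v))
    rw [map_sub] at h1 h2
    have e1 : a (b v) = b v - v + a v := by
      rw [← h1]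
      abel
    have e2 : b (a v) = a v - v + b v := by
      rw [← h2]
      abel
    rw [e1, e2]
    abel
  · intro j h hh i hi v hv
    apply fix_of_gen (hKgen j) h hh
    rcases Fin.eq_zero_or_eq_succ i with rfl | ⟨j', rfl⟩
    · rw [hW0] at hv
      exact hCle j hv
    · rw [hWs] at hv
      exact hAA j j' (fun e => hi (by rw [e])) hv
  · intro j
    have key : ∀ (S : Submodule (ZMod p) V), S = centers (K j) →
        ∃ ρ : ↥(K j) →* (↥S ≃ₗ[ZMod p] ↥S),
        (∀ (h : ↥(K j)) (v : ↥S), ((ρ h v : ↥S) : V) = (h : V ≃ₗ[ZMod p] V) (v : V)) ∧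
        ((ρ.range : Set (↥S ≃ₗ[ZMod p] ↥S)) =
            {f : ↥S ≃ₗ[ZMod p] ↥S | LinearMap.det (f : ↥S →ₗ[ZMod p] ↥S) = 1} ∨
          ∃ B : LinearMap.BilinForm (ZMod p) ↥S, B.IsAlt ∧ B.Nondegenerate ∧
            (ρ.range : Set (↥S ≃ₗ[ZMod p] ↥S)) =
              {f : ↥S ≃ₗ[ZMod p] ↥S | ∀ x y, B (f x) (f y) = B x y}) := by
      rintro S rfl
      exact conn_main hp2 (K j) (hKopp j) (hKconn j) (hKgen j) (hKne j)
    exact key (W j.succ) (hWs j)

/-- **McLaughlin's theorem over the prime field** (S5075). -/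
theorem mcl_main [Finite V] (hp2 : p ≠ 2) (H : Subgroup (V ≃ₗ[ZMod p] V))
    (T : Set (V ≃ₗ[ZMod p] V)) (hHT : H = Subgroup.closure T)
    (hT : ∀ t ∈ T, orderOf t = p ∧
      Module.finrank (ZMod p) ↥(LinearMap.ker ((t : V →ₗ[ZMod p] V) - LinearMap.id)) + 1 =
        Module.finrank (ZMod p) V)
    (hOp : Cfsg.pCore p ↥H = ⊥) :
    ∃ (n : ℕ) (W : Fin (n + 1) → Submodule (ZMod p) V) (K : Fin n → Subgroup (V ≃ₗ[ZMod p] V)),
      1 ≤ n ∧ DirectSum.IsInternal W ∧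
      (∀ h ∈ H, ∀ i, (W i).map (h : V →ₗ[ZMod p] V) = W i) ∧
      (∀ j, K j ≤ H ∧ ((K j).subgroupOf H).Normal) ∧ ⨆ j, K j = H ∧
      (∀ j, K j ⊓ (⨆ j' ∈ {j' : Fin n | j' ≠ j}, K j') = ⊥) ∧
      (∀ j j', j ≠ j' → ∀ a ∈ K j, ∀ b ∈ K j', a * b = b * a) ∧
      (∀ j, ∀ h ∈ K j, ∀ i : Fin (n + 1), i ≠ j.succ → ∀ v ∈ W i, h v = v) ∧
      (∀ j, ∃ ρ : ↥(K j) →* (↥(W j.succ) ≃ₗ[ZMod p] ↥(W j.succ)),
        (∀ (h : ↥(K j)) (v : ↥(W j.succ)),
          ((ρ h v : ↥(W j.succ)) : V) = (h : V ≃ₗ[ZMod p] V) (v : V)) ∧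
        ((ρ.range : Set (↥(W j.succ) ≃ₗ[ZMod p] ↥(W j.succ))) =
            {f : ↥(W j.succ) ≃ₗ[ZMod p] ↥(W j.succ) |
              LinearMap.det (f : ↥(W j.succ) →ₗ[ZMod p] ↥(W j.succ)) = 1} ∨
          ∃ B : LinearMap.BilinForm (ZMod p) ↥(W j.succ), B.IsAlt ∧ B.Nondegenerate ∧
            (ρ.range : Set (↥(W j.succ) ≃ₗ[ZMod p] ↥(W j.succ))) =
              {f : ↥(W j.succ) ≃ₗ[ZMod p] ↥(W j.succ) | ∀ x y, B (f x) (f y) = B x y})) := by
  classical
  have hTroot : T ⊆ rootElems H := by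
    intro t ht
    obtain ⟨a, φ, ha, hφ, h0, htx⟩ := tv_of_order t (hT t ht).1 (hT t ht).2
    have htH : t ∈ H := by
      rw [hHT]
      exact Subgroup.subset_closure ht
    exact ⟨a, φ, root_of_mem htH htx ha hφ h0, htx⟩
  have hgen : H = Subgroup.closure (rootElems H) := by
    apply le_antisymm
    · exact hHT.le.trans (Subgroup.closure_mono hTroot)
    · rw [Subgroup.closure_le]
      exact rootElems_subset H
  have hopp : HasOpp H := hasOpp_of_pCore hp2 H hOp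
  obtain ⟨n, K, hK, hsup, hcomm, hex⟩ := exists_components H hopp hgen
  rcases Nat.eq_zero_or_pos n with h0 | hpos
  · subst h0
    have hno : rootElems H = ∅ := by
      rw [Set.eq_empty_iff_forall_notMem]
      rintro t ⟨a, φ, hr, -⟩
      obtain ⟨j, -⟩ := hex a φ hr
      exact j.elim0
    have hbot : H = ⊥ := by
      rw [hgen, hno, Subgroup.closure_empty]
    exact mcl_trivial H hbot
  · obtain ⟨W, h1, h2, h3, h4, h5, h6, h7, h8⟩ :=
      mcl_of_components hp2 H hopp hgen n K hK hsup hcomm hex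
    exact ⟨n, W, K, hpos, h1, h2, h3, h4, h5, h6, h7, h8⟩

end Cfsg.Agent.H85.McL
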