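import Mathlib

set_option autoImplicit false

/-!
Recognition of the group `C_3 wr S_3` of order 162 as the centralizer in `S_9` of a
fixed-point-free element of order 3.
-/

namespace Cfsg.Agent.H85.Ord162

variable {G : Type*} [Group G]

/-- The conjugation action of a subgroup on a subgroup that it normalizes. -/
@[instance_reducible]
def conjAction (S N : Subgroup G) (hnorm : ∀ g ∈ S, ∀ x ∈ N, g * x * g⁻¹ ∈ N) :
    MulAction ↥S ↥N where
  smul g x := ⟨(g : G) * x * (g : G)⁻¹, hnorm g g.2 x x.2⟩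
  one_smul x := Subtype.ext (by
    show ((1 : ↥S) : G) * x * ((1 : ↥S) : G)⁻¹ = x
    simp)
  mul_smul g h x := Subtype.ext (by
    show ((g * h : ↥S) : G) * x * ((g * h : ↥S) : G)⁻¹ =
      (g : G) * ((h : G) * x * (h : G)⁻¹) * (g : G)⁻¹
    simp [mul_assoc])

/-- A nontrivial subgroup of a `p`-group `S` normalized by `S` contains a nontrivial element
central in `S`. -/
theorem exists_central_in_normal {p : ℕ} [Fact p.Prime] (S N : Subgroup G) [Finite ↥N]
    (hS : IsPGroup p ↥S) (hN : N ≤ S) (hnorm : ∀ g ∈ S, ∀ x ∈ N, g * x * g⁻¹ ∈ N)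
    (hne : N ≠ ⊥) : ∃ c ∈ N, c ≠ 1 ∧ ∀ g ∈ S, g * c = c * g := by
  let _ := conjAction S N hnorm
  have hNp : IsPGroup p ↥N := hS.to_le hN
  have hnt : Nontrivial ↥N := (Subgroup.nontrivial_iff_ne_bot N).mpr hne
  have hdvd : p ∣ Nat.card ↥N := by
    obtain ⟨k, hk⟩ := IsPGroup.iff_card.mp hNp
    rw [hk]
    have hk0 : k ≠ 0 := by
      rintro rfl
      rw [pow_zero] at hk
      have := Finite.one_lt_card (α := ↥N)
      omega
    exact dvd_pow_self p hk0
  have h1 : (1 : ↥N) ∈ MulAction.fixedPoints ↥S ↥N := by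
    intro g
    apply Subtype.ext
    show (g : G) * ((1 : ↥N) : G) * (g : G)⁻¹ = ((1 : ↥N) : G)
    simp
  obtain ⟨b, hb, hb1⟩ := hS.exists_fixed_point_of_prime_dvd_card_of_fixed_point (α := ↥N) hdvd h1
  refine ⟨b, b.2, fun h => hb1 (Subtype.ext h.symm), fun g hg => ?_⟩
  have h2 : g * (b : G) * g⁻¹ = b := congrArg Subtype.val (hb ⟨g, hg⟩)
  calc g * (b : G) = (g * (b : G) * g⁻¹) * g := by group
    _ = (b : G) * g := by rw [h2]

theorem pow_three_cases {x : G} (hx : x ^ 3 = 1) (i : ℤ) :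
    x ^ i = 1 ∨ x ^ i = x ∨ x ^ i = x⁻¹ := by
  have h3 : x ^ (3 : ℤ) = 1 := by exact_mod_cast hx
  have key : x ^ i = x ^ (i % 3) := by
    have := Int.emod_add_mul_ediv i 3
    conv_lhs => rw [← this]
    rw [zpow_add, zpow_mul, h3, one_zpow, mul_one]
  have hlt := Int.emod_lt_of_pos i (by norm_num : (0 : ℤ) < 3)
  have hge := Int.emod_nonneg i (by norm_num : (3 : ℤ) ≠ 0)
  rw [key]
  obtain h | h | h : i % 3 = 0 ∨ i % 3 = 1 ∨ i % 3 = 2 := by omega
  · left; rw [h, zpow_zero]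
  · right; left; rw [h, zpow_one]
  · right; right
    rw [h, eq_inv_iff_mul_eq_one]
    have : x ^ (2 : ℤ) * x = x ^ (3 : ℤ) := by
      rw [show (3 : ℤ) = 2 + 1 by norm_num, zpow_add, zpow_one]
    rw [this, h3]

theorem pow_card_of_mem {H : Subgroup G} [Finite ↥H] {x : G} (hx : x ∈ H) :
    x ^ Nat.card ↥H = 1 := by
  have := pow_card_eq_one' (G := ↥H) (x := ⟨x, hx⟩)
  exact congrArg Subtype.val this

/-- Adjoining an element to a subgroup inside a commutative subgroup. -/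
def adj (J Y : Subgroup G) (hJc : ∀ x ∈ J, ∀ y ∈ J, x * y = y * x) (hYJ : Y ≤ J) (b : G)
    (hb : b ∈ J) : Subgroup G where
  carrier := {x | ∃ y ∈ Y, ∃ i : ℤ, x = y * b ^ i}
  mul_mem' := by
    rintro _ _ ⟨y, hy, i, rfl⟩ ⟨y', hy', j, rfl⟩
    refine ⟨y * y', Y.mul_mem hy hy', i + j, ?_⟩
    have hc : b ^ i * y' = y' * b ^ i := hJc _ (J.zpow_mem hb i) _ (hYJ hy')
    rw [zpow_add]
    calc y * b ^ i * (y' * b ^ j) = y * (b ^ i * y') * b ^ j := by group
      _ = y * (y' * b ^ i) * b ^ j := by rw [hc]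
      _ = y * y' * (b ^ i * b ^ j) := by group
  one_mem' := ⟨1, Y.one_mem, 0, by simp⟩
  inv_mem' := by
    rintro _ ⟨y, hy, i, rfl⟩
    refine ⟨y⁻¹, Y.inv_mem hy, -i, ?_⟩
    have hc : b ^ i * y = y * b ^ i := hJc _ (J.zpow_mem hb i) _ (hYJ hy)
    rw [← hc, zpow_neg]
    group

theorem mem_adj {J Y : Subgroup G} {hJc : ∀ x ∈ J, ∀ y ∈ J, x * y = y * x} {hYJ : Y ≤ J} {b : G}
    {hb : b ∈ J} {x : G} : x ∈ adj J Y hJc hYJ b hb ↔ ∃ y ∈ Y, ∃ i : ℤ, x = y * b ^ i := Iff.rfl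

/-- An invariant complement to a fixed subgroup of order 3 in an elementary abelian 3-group
with an involutory automorphism. -/
theorem exists_invariant_complement [Finite G] (J : Subgroup G)
    (hJc : ∀ x ∈ J, ∀ y ∈ J, x * y = y * x) (hJ3 : ∀ a ∈ J, a ^ 3 = 1) (t z : G)
    (ht : t * t = 1) (htJ : ∀ x ∈ J, t * x * t⁻¹ ∈ J) (hzJ : z ∈ J) (hz1 : z ≠ 1)
    (htz : t * z * t⁻¹ = z) :
    ∃ Y : Subgroup G, Y ≤ J ∧ z ∉ Y ∧ (∀ y ∈ Y, t * y * t⁻¹ ∈ Y) ∧
      ∀ a ∈ J, ∃ y ∈ Y, ∃ i : ℤ, a = y * z ^ i := by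
  obtain ⟨Y, -, hYmax⟩ := Finite.exists_le_maximal
    (p := fun Y : Subgroup G => Y ≤ J ∧ z ∉ Y ∧ ∀ y ∈ Y, t * y * t⁻¹ ∈ Y) (a := ⊥)
    ⟨bot_le, by simpa [Subgroup.mem_bot] using hz1, by
      intro y hy
      rw [Subgroup.mem_bot] at hy ⊢
      rw [hy]; simp⟩
  obtain ⟨hYJ, hzY, hYt⟩ := hYmax.prop
  refine ⟨Y, hYJ, hzY, hYt, ?_⟩
  have mem_of_max : ∀ b (hb : b ∈ J), (t * b * t⁻¹ = b ∨ t * b * t⁻¹ = b⁻¹) → b ∉ Y →
      ∃ y ∈ Y, ∃ i : ℤ, z = y * b ^ i := by
    intro b hb htb hbY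
    by_contra hcon
    have hle : Y ≤ adj J Y hJc hYJ b hb := fun y hy => ⟨y, hy, 0, by simp⟩
    have hbm : b ∈ adj J Y hJc hYJ b hb := ⟨1, Y.one_mem, 1, by simp⟩
    have hp : adj J Y hJc hYJ b hb ≤ J ∧ z ∉ adj J Y hJc hYJ b hb ∧
        ∀ y ∈ adj J Y hJc hYJ b hb, t * y * t⁻¹ ∈ adj J Y hJc hYJ b hb := by
      refine ⟨?_, hcon, ?_⟩
      · rintro _ ⟨y, hy, i, rfl⟩
        exact J.mul_mem (hYJ hy) (J.zpow_mem hb i)
      · rintro _ ⟨y, hy, i, rfl⟩
        have h1 : t * (y * b ^ i) * t⁻¹ = (t * y * t⁻¹) * (t * b * t⁻¹) ^ i := by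
          rw [conj_zpow]; group
        rw [h1]
        rcases htb with h | h
        · rw [h]; exact ⟨_, hYt y hy, i, rfl⟩
        · rw [h, inv_zpow, ← zpow_neg]; exact ⟨_, hYt y hy, -i, rfl⟩
    exact hbY (hYmax.le_of_ge hp hle hbm)
  intro a ha
  have ha'J : t * a * t⁻¹ ∈ J := htJ a ha
  have hta' : t * (t * a * t⁻¹) * t⁻¹ = a := by
    have : t * (t * a * t⁻¹) * t⁻¹ = (t * t) * a * (t * t)⁻¹ := by group
    rw [this, ht]; simp
  have huJ : a * (t * a * t⁻¹) ∈ J := J.mul_mem ha ha'J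
  have hwJ : a * (t * a * t⁻¹)⁻¹ ∈ J := J.mul_mem ha (J.inv_mem ha'J)
  have hu : t * (a * (t * a * t⁻¹)) * t⁻¹ = a * (t * a * t⁻¹) := by
    have : t * (a * (t * a * t⁻¹)) * t⁻¹ = (t * a * t⁻¹) * (t * (t * a * t⁻¹) * t⁻¹) := by group
    rw [this, hta']
    exact hJc _ ha'J _ ha
  have hw : t * (a * (t * a * t⁻¹)⁻¹) * t⁻¹ = (a * (t * a * t⁻¹)⁻¹)⁻¹ := by
    have : t * (a * (t * a * t⁻¹)⁻¹) * t⁻¹ = (t * a * t⁻¹) * (t * (t * a * t⁻¹) * t⁻¹)⁻¹ := by
      group
    rw [this, hta']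
    group
  have hz3 := hJ3 z hzJ
  have hwY : a * (t * a * t⁻¹)⁻¹ ∈ Y := by
    by_contra hwn
    obtain ⟨y, hy, i, hyi⟩ := mem_of_max _ hwJ (Or.inr hw) hwn
    have h1 : z = (t * y * t⁻¹) * ((a * (t * a * t⁻¹)⁻¹) ^ i)⁻¹ := by
      conv_lhs => rw [← htz, hyi]
      have : t * (y * (a * (t * a * t⁻¹)⁻¹) ^ i) * t⁻¹ =
          (t * y * t⁻¹) * (t * (a * (t * a * t⁻¹)⁻¹) * t⁻¹) ^ i := by
        rw [conj_zpow]; group
      rw [this, hw, inv_zpow]
    have hc : (a * (t * a * t⁻¹)⁻¹) ^ i * (t * y * t⁻¹) =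
        (t * y * t⁻¹) * (a * (t * a * t⁻¹)⁻¹) ^ i :=
      hJc _ (J.zpow_mem hwJ i) _ (htJ y (hYJ hy))
    have hzz : z * z = y * (t * y * t⁻¹) := by
      calc z * z = (y * (a * (t * a * t⁻¹)⁻¹) ^ i) *
            ((t * y * t⁻¹) * ((a * (t * a * t⁻¹)⁻¹) ^ i)⁻¹) := by rw [← hyi, ← h1]
        _ = y * ((a * (t * a * t⁻¹)⁻¹) ^ i * (t * y * t⁻¹)) *
            ((a * (t * a * t⁻¹)⁻¹) ^ i)⁻¹ := by group
        _ = y * ((t * y * t⁻¹) * (a * (t * a * t⁻¹)⁻¹) ^ i) *
            ((a * (t * a * t⁻¹)⁻¹) ^ i)⁻¹ := by rw [hc]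
        _ = y * (t * y * t⁻¹) := by group
    have hz2 : z * z ∈ Y := by
      rw [hzz]; exact Y.mul_mem hy (hYt y hy)
    have hz4 : z = (z * z) * (z * z) := by
      have : (z * z) * (z * z) = z ^ 3 * z := by simp [pow_succ, mul_assoc]
      rw [this, hz3, one_mul]
    exact hzY (hz4 ▸ Y.mul_mem hz2 hz2)
  have huZ : ∃ y ∈ Y, ∃ i : ℤ, a * (t * a * t⁻¹) = y * z ^ i := by
    by_cases huY : a * (t * a * t⁻¹) ∈ Y
    · exact ⟨_, huY, 0, by simp⟩
    · obtain ⟨y, hy, i, hyi⟩ := mem_of_max _ huJ (Or.inl hu) huY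
      rcases pow_three_cases (hJ3 _ huJ) i with h | h | h
      · rw [h, mul_one] at hyi
        exact absurd (hyi ▸ hy) hzY
      · rw [h] at hyi
        exact ⟨y⁻¹, Y.inv_mem hy, 1, by rw [zpow_one, hyi]; group⟩
      · rw [h] at hyi
        refine ⟨y, hy, -1, ?_⟩
        have hc : z⁻¹ * y = y * z⁻¹ := hJc _ (J.inv_mem hzJ) _ (hYJ hy)
        rw [zpow_neg, zpow_one, ← hc, hyi]
        group
  obtain ⟨y, hy, i, hui⟩ := huZ
  have haa : a * a = (y * (a * (t * a * t⁻¹)⁻¹)) * z ^ i := by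
    have h1 : a * a = (a * (t * a * t⁻¹)) * (a * (t * a * t⁻¹)⁻¹) := by
      have hc : (t * a * t⁻¹) * a = a * (t * a * t⁻¹) := hJc _ ha'J _ ha
      calc a * a = a * (a * (t * a * t⁻¹)) * (t * a * t⁻¹)⁻¹ := by group
        _ = a * ((t * a * t⁻¹) * a) * (t * a * t⁻¹)⁻¹ := by rw [hc]
        _ = (a * (t * a * t⁻¹)) * (a * (t * a * t⁻¹)⁻¹) := by group
    rw [h1, hui]
    have hc : z ^ i * (a * (t * a * t⁻¹)⁻¹) = (a * (t * a * t⁻¹)⁻¹) * z ^ i :=
      hJc _ (J.zpow_mem hzJ i) _ hwJ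
    calc y * z ^ i * (a * (t * a * t⁻¹)⁻¹) = y * (z ^ i * (a * (t * a * t⁻¹)⁻¹)) := by group
      _ = y * ((a * (t * a * t⁻¹)⁻¹) * z ^ i) := by rw [hc]
      _ = y * (a * (t * a * t⁻¹)⁻¹) * z ^ i := by group
  have ha3 := hJ3 a ha
  have ha4 : a = (a * a) * (a * a) := by
    have : (a * a) * (a * a) = a ^ 3 * a := by simp [pow_succ, mul_assoc]
    rw [this, ha3, one_mul]
  refine ⟨(y * (a * (t * a * t⁻¹)⁻¹)) * (y * (a * (t * a * t⁻¹)⁻¹)),
    Y.mul_mem (Y.mul_mem hy hwY) (Y.mul_mem hy hwY), i + i, ?_⟩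
  have hc : z ^ i * (y * (a * (t * a * t⁻¹)⁻¹)) = (y * (a * (t * a * t⁻¹)⁻¹)) * z ^ i :=
    hJc _ (J.zpow_mem hzJ i) _ (J.mul_mem (hYJ hy) hwJ)
  rw [zpow_add]
  calc a = (a * a) * (a * a) := ha4
    _ = y * (a * (t * a * t⁻¹)⁻¹) * (z ^ i * (y * (a * (t * a * t⁻¹)⁻¹))) * z ^ i := by
        rw [haa]; group
    _ = y * (a * (t * a * t⁻¹)⁻¹) * ((y * (a * (t * a * t⁻¹)⁻¹)) * z ^ i) * z ^ i := by rw [hc]
    _ = y * (a * (t * a * t⁻¹)⁻¹) * (y * (a * (t * a * t⁻¹)⁻¹)) * (z ^ i * z ^ i) := by group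

/-- The subgroup `Y ⋊ ⟨t⟩` for an involution `t` normalizing `Y`. -/
def ext2 (Y : Subgroup G) (t : G) (ht : t * t = 1) (hYt : ∀ y ∈ Y, t * y * t⁻¹ ∈ Y) :
    Subgroup G where
  carrier := {x | x ∈ Y ∨ x * t ∈ Y}
  one_mem' := Or.inl Y.one_mem
  mul_mem' := by
    have htinv : t⁻¹ = t := inv_eq_of_mul_eq_one_left ht
    rintro x x' (hx | hx) (hx' | hx')
    · exact Or.inl (Y.mul_mem hx hx')
    · right
      show x * x' * t ∈ Y
      rw [mul_assoc]; exact Y.mul_mem hx hx'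
    · right
      show x * x' * t ∈ Y
      have : (x * t) * (t * x' * t⁻¹) = x * x' * t := by
        calc (x * t) * (t * x' * t⁻¹) = x * (t * t) * x' * t⁻¹ := by group
          _ = x * x' * t := by rw [ht, mul_one, htinv]
      rw [← this]; exact Y.mul_mem hx (hYt _ hx')
    · left
      show x * x' ∈ Y
      have : (x * t) * (t * (x' * t) * t⁻¹) = x * x' := by
        calc (x * t) * (t * (x' * t) * t⁻¹) = x * (t * t) * x' := by group
          _ = x * x' := by rw [ht, mul_one]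
      rw [← this]; exact Y.mul_mem hx (hYt _ hx')
  inv_mem' := by
    have htinv : t⁻¹ = t := inv_eq_of_mul_eq_one_left ht
    rintro x (hx | hx)
    · exact Or.inl (Y.inv_mem hx)
    · right
      show x⁻¹ * t ∈ Y
      have : t * (x * t)⁻¹ * t⁻¹ = x⁻¹ * t := by
        calc t * (x * t)⁻¹ * t⁻¹ = x⁻¹ * t⁻¹ := by group
          _ = x⁻¹ * t := by rw [htinv]
      rw [← this]; exact hYt _ (Y.inv_mem hx)

theorem mem_ext2 {Y : Subgroup G} {t : G} {ht : t * t = 1} {hYt : ∀ y ∈ Y, t * y * t⁻¹ ∈ Y}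
    {x : G} : x ∈ ext2 Y t ht hYt ↔ x ∈ Y ∨ x * t ∈ Y := Iff.rfl

/-- The structural part: a core-free subgroup of index 9 and a central element of order 3
outside it. -/
theorem exists_core_free [Finite G] (hG : Nat.card G = 162)
    (S : Sylow 3 G) (T : Sylow 2 G) (J : Subgroup G) [hJn : J.Normal]
    (hJc : ∀ x ∈ J, ∀ y ∈ J, x * y = y * x)
    (hJexp : ∀ a ∈ J, a ^ 3 = 1) (hJcard : Nat.card J = 27)
    (Z : Subgroup G)
    (hZ : Z = (S : Subgroup G) ⊓ Subgroup.centralizer ((S : Subgroup G) : Set G))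
    (hZcard : Nat.card Z = 3)
    (hZT : Z ≤ Subgroup.centralizer ((T : Subgroup G) : Set G))
    (hST : (S : Subgroup G) ⊓ Subgroup.centralizer ((T : Subgroup G) : Set G) ≠ S) :
    ∃ (K : Subgroup G) (z : G), K.index = 9 ∧ K.normalCore = ⊥ ∧ z ^ 3 = 1 ∧ z ∉ K ∧
      ∀ g, g * z = z * g := by
  have hp3 : Fact (Nat.Prime 3) := ⟨Nat.prime_three⟩
  have hp2 : Fact (Nat.Prime 2) := ⟨Nat.prime_two⟩
  have hScard : Nat.card (S : Subgroup G) = 81 := by
    rw [Sylow.card_eq_multiplicity, hG, Nat.factorization_def _ Nat.prime_three]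
    have h : (162 : ℕ) = 3 ^ 4 * 2 := by norm_num
    rw [h, padicValNat.mul (by norm_num) (by norm_num), padicValNat.prime_pow]
    simp [padicValNat.eq_zero_of_not_dvd]
  have hTcard : Nat.card (T : Subgroup G) = 2 := by
    rw [Sylow.card_eq_multiplicity, hG, Nat.factorization_def _ Nat.prime_two]
    have h : (162 : ℕ) = 2 ^ 1 * 81 := by norm_num
    rw [h, padicValNat.mul (by norm_num) (by norm_num), padicValNat.prime_pow]
    simp [padicValNat.eq_zero_of_not_dvd]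
  have hSidx : (S : Subgroup G).index = 2 := by
    have := Subgroup.card_mul_index (S : Subgroup G)
    rw [hScard, hG] at this
    omega
  have hSn : (S : Subgroup G).Normal := Subgroup.normal_of_index_eq_two hSidx
  -- the involution
  obtain ⟨t', ht'1, ht'u⟩ := (Nat.card_eq_two_iff' (1 : ↥(T : Subgroup G))).mp hTcard
  obtain ⟨t, htT⟩ := t'
  have ht1 : t ≠ 1 := fun h => ht'1 (Subtype.ext h)
  have hTel : ∀ s ∈ (T : Subgroup G), s = 1 ∨ s = t := by
    intro s hs
    by_cases h : s = 1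
    · exact Or.inl h
    · right
      have := ht'u ⟨s, hs⟩ (fun h' => h (congrArg Subtype.val h'))
      exact congrArg Subtype.val this
  have htt : t * t = 1 := by
    rcases hTel (t * t) (Subgroup.mul_mem _ htT htT) with h | h
    · exact h
    · exfalso; apply ht1
      exact mul_left_cancel (a := t) (by rw [h, mul_one])
  have htinv : t⁻¹ = t := inv_eq_of_mul_eq_one_left htt
  have htS : t ∉ (S : Subgroup G) := by
    intro h
    have h81 : t ^ 81 = 1 := by
      have := pow_card_of_mem h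
      rwa [hScard] at this
    have h2 : t ^ 2 = 1 := by rw [pow_two]; exact htt
    have h3 : t ^ 81 = t := by
      have : t ^ 81 = (t ^ 2) ^ 40 * t := by rw [← pow_mul, ← pow_succ]
      rw [this, h2, one_pow, one_mul]
    exact ht1 (h3.symm.trans h81)
  -- J ≤ S
  have hJS : J ≤ (S : Subgroup G) := by
    have hJp : IsPGroup 3 ↥J := IsPGroup.of_card (n := 3) (by rw [hJcard]; norm_num)
    exact hJp.le_sylow_of_normal S
  -- the central element
  have hJne : J ≠ ⊥ := by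
    intro h
    rw [h, Subgroup.card_bot] at hJcard
    omega
  obtain ⟨z, hzJ, hz1, hzS⟩ := exists_central_in_normal (p := 3) (S : Subgroup G) J
    S.isPGroup' hJS (fun g _ x hx => hJn.conj_mem x hx g) hJne
  have hz3 : z ^ 3 = 1 := hJexp z hzJ
  have hzZ : z ∈ Z := by
    rw [hZ]
    exact ⟨hJS hzJ, Subgroup.mem_centralizer_iff.mpr hzS⟩
  have hzt : t * z = z * t := by
    have := hZT hzZ
    rw [Subgroup.mem_centralizer_iff] at this
    exact this t htT
  have hzc : ∀ g, g * z = z * g := by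
    intro g
    by_cases hg : g ∈ (S : Subgroup G)
    · exact hzS g hg
    · have hgt : g * t ∈ (S : Subgroup G) := by
        rw [Subgroup.mul_mem_iff_of_index_two hSidx]
        exact ⟨fun h => absurd h hg, fun h => absurd h htS⟩
      have h1 := hzS _ hgt
      have h2 : t * z * t⁻¹ = z := by rw [hzt]; group
      calc g * z = g * (t * z * t⁻¹) := by rw [h2]
        _ = (g * t * z) * t⁻¹ := by group
        _ = (z * (g * t)) * t⁻¹ := by rw [h1]
        _ = z * g := by group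
  obtain ⟨Y, hYJ, hzY, hYt, hYgen⟩ := exists_invariant_complement J hJc hJexp t z htt
    (fun x hx => hJn.conj_mem x hx t) hzJ hz1 (by rw [hzt]; group)
  have htY : t ∉ Y := fun h => htS (hJS (hYJ h))
  have hKmem : ∀ x, x ∈ ext2 Y t htt hYt ↔ x ∈ Y ∨ x * t ∈ Y := fun x => Iff.rfl
  have hzK : z ∉ ext2 Y t htt hYt := by
    rintro (h | h)
    · exact hzY h
    · have : z * t ∈ (S : Subgroup G) := hJS (hYJ h)
      rw [Subgroup.mul_mem_iff_of_index_two hSidx] at this
      exact htS (this.mp (hJS hzJ))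
  have hYcard : Nat.card ↥Y = 9 := by
    have hzo : Nat.card ↥(Subgroup.zpowers z) = 3 := by
      rw [Nat.card_zpowers]
      exact orderOf_eq_prime hz3 hz1
    have hzle : Subgroup.zpowers z ≤ J := (Subgroup.zpowers_le).mpr hzJ
    have hbij : Function.Bijective (fun p : ↥Y × ↥(Subgroup.zpowers z) =>
        (⟨(p.1 : G) * (p.2 : G), J.mul_mem (hYJ p.1.2) (hzle p.2.2)⟩ : ↥J)) := by
      constructor
      · rintro ⟨⟨y, hy⟩, ⟨w, hw⟩⟩ ⟨⟨y', hy'⟩, ⟨w', hw'⟩⟩ h
        have h' : y * w = y' * w' := congrArg Subtype.val h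
        have hmem : w' * w⁻¹ ∈ Subgroup.zpowers z :=
          Subgroup.mul_mem _ hw' (Subgroup.inv_mem _ hw)
        have heq : y'⁻¹ * y = w' * w⁻¹ := by
          calc y'⁻¹ * y = y'⁻¹ * (y * w) * w⁻¹ := by group
            _ = y'⁻¹ * (y' * w') * w⁻¹ := by rw [h']
            _ = w' * w⁻¹ := by group
        have hY' : w' * w⁻¹ ∈ Y := heq ▸ Y.mul_mem (Y.inv_mem hy') hy
        obtain ⟨i, hi⟩ := Subgroup.mem_zpowers_iff.mp hmem
        have h1 : w' * w⁻¹ = 1 := by
          rcases pow_three_cases hz3 i with h | h | h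
          · rw [← hi, h]
          · exfalso; apply hzY; rw [← h, hi]; exact hY'
          · exfalso; apply hzY
            have : z = (w' * w⁻¹)⁻¹ := by rw [← hi, h, inv_inv]
            rw [this]; exact Y.inv_mem hY'
        have hw_eq : w' = w := mul_inv_eq_one.mp h1
        have hy_eq : y' = y := by
          have : y'⁻¹ * y = 1 := by rw [heq, h1]
          exact inv_mul_eq_one.mp this
        subst hw_eq; subst hy_eq; rfl
      · rintro ⟨a, ha⟩
        obtain ⟨y, hy, i, hyi⟩ := hYgen a ha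
        exact ⟨(⟨y, hy⟩, ⟨z ^ i, Subgroup.zpow_mem_zpowers z i⟩), Subtype.ext hyi.symm⟩
    have := Nat.card_congr (Equiv.ofBijective _ hbij)
    rw [Nat.card_prod, hzo, hJcard] at this
    omega
  have hKcard : Nat.card ↥(ext2 Y t htt hYt) = 18 := by
    have hmemK : ∀ y ∈ Y, ∀ s ∈ (T : Subgroup G), y * s ∈ ext2 Y t htt hYt := by
      intro y hy s hs
      rcases hTel s hs with h | h
      · left; rw [h, mul_one]; exact hy
      · right
        show y * s * t ∈ Y
        rw [h, mul_assoc, htt, mul_one]; exact hy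
    have hbij : Function.Bijective (fun p : ↥Y × ↥(T : Subgroup G) =>
        (⟨(p.1 : G) * (p.2 : G), hmemK _ p.1.2 _ p.2.2⟩ : ↥(ext2 Y t htt hYt))) := by
      constructor
      · rintro ⟨⟨y, hy⟩, ⟨w, hw⟩⟩ ⟨⟨y', hy'⟩, ⟨w', hw'⟩⟩ h
        have h' : y * w = y' * w' := congrArg Subtype.val h
        have hmem : w' * w⁻¹ ∈ (T : Subgroup G) :=
          Subgroup.mul_mem _ hw' (Subgroup.inv_mem _ hw)
        have heq : y'⁻¹ * y = w' * w⁻¹ := by
          calc y'⁻¹ * y = y'⁻¹ * (y * w) * w⁻¹ := by group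
            _ = y'⁻¹ * (y' * w') * w⁻¹ := by rw [h']
            _ = w' * w⁻¹ := by group
        have hY' : w' * w⁻¹ ∈ Y := heq ▸ Y.mul_mem (Y.inv_mem hy') hy
        have h1 : w' * w⁻¹ = 1 := by
          rcases hTel _ hmem with h | h
          · exact h
          · exact absurd (h ▸ hY') htY
        have hw_eq : w' = w := mul_inv_eq_one.mp h1
        have hy_eq : y' = y := by
          have : y'⁻¹ * y = 1 := by rw [heq, h1]
          exact inv_mul_eq_one.mp this
        subst hw_eq; subst hy_eq; rfl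
      · rintro ⟨a, ha⟩
        rcases ha with h | h
        · exact ⟨(⟨a, h⟩, ⟨1, Subgroup.one_mem _⟩), Subtype.ext (mul_one a)⟩
        · refine ⟨(⟨a * t, h⟩, ⟨t, htT⟩), Subtype.ext ?_⟩
          show a * t * t = a
          rw [mul_assoc, htt, mul_one]
    have := Nat.card_congr (Equiv.ofBijective _ hbij)
    rw [Nat.card_prod, hYcard, hTcard] at this
    omega
  have hcore : (ext2 Y t htt hYt).normalCore = ⊥ := by
    have hNn : ((ext2 Y t htt hYt).normalCore).Normal := Subgroup.normalCore_normal _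
    have hNK : (ext2 Y t htt hYt).normalCore ≤ ext2 Y t htt hYt := Subgroup.normalCore_le _
    generalize (ext2 Y t htt hYt).normalCore = N at hNn hNK
    have hNS : N ⊓ (S : Subgroup G) = ⊥ := by
      by_contra hne
      obtain ⟨c, hcN, hc1, hcS⟩ := exists_central_in_normal (p := 3) (S : Subgroup G)
        (N ⊓ (S : Subgroup G)) S.isPGroup' inf_le_right
        (fun g hg x hx => ⟨hNn.conj_mem x hx.1 g, hSn.conj_mem x hx.2 g⟩) hne
      have hcZ : c ∈ Z := by
        rw [hZ]; exact ⟨hcN.2, Subgroup.mem_centralizer_iff.mpr hcS⟩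
      have hzp : Subgroup.zpowers (⟨z, hzZ⟩ : ↥Z) = ⊤ :=
        zpowers_eq_top_of_prime_card hZcard (fun h => hz1 (congrArg Subtype.val h))
      have hcm : (⟨c, hcZ⟩ : ↥Z) ∈ Subgroup.zpowers (⟨z, hzZ⟩ : ↥Z) := by
        rw [hzp]; trivial
      obtain ⟨i, hi⟩ := Subgroup.mem_zpowers_iff.mp hcm
      have hi' : z ^ i = c := by
        have := congrArg Subtype.val hi
        simpa using this
      rcases pow_three_cases hz3 i with h | h | h
      · exact hc1 (by rw [← hi', h])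
      · exact hzK (hNK (by rw [← h, hi']; exact hcN.1))
      · apply hzK; apply hNK
        have : z = c⁻¹ := by rw [← hi', h, inv_inv]
        rw [this]; exact N.inv_mem hcN.1
    rw [eq_bot_iff]
    intro x hxN
    rw [Subgroup.mem_bot]
    by_contra hx1
    have hxS : x ∉ (S : Subgroup G) := fun h => hx1 (by
      have : x ∈ N ⊓ (S : Subgroup G) := ⟨hxN, h⟩
      rw [hNS] at this; exact Subgroup.mem_bot.mp this)
    have hxx : x * x = 1 := by
      have h1 : x * x ∈ (S : Subgroup G) := by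
        rw [Subgroup.mul_mem_iff_of_index_two hSidx]
      have : x * x ∈ N ⊓ (S : Subgroup G) := ⟨N.mul_mem hxN hxN, h1⟩
      rw [hNS] at this; exact Subgroup.mem_bot.mp this
    have hxc : ∀ g ∈ (S : Subgroup G), g * x = x * g := by
      intro g hg
      have h1 : g * x * g⁻¹ * x⁻¹ ∈ N ⊓ (S : Subgroup G) := by
        refine ⟨N.mul_mem (hNn.conj_mem x hxN g) (N.inv_mem hxN), ?_⟩
        have : g * x * g⁻¹ * x⁻¹ = g * (x * g⁻¹ * x⁻¹) := by group
        rw [this]
        exact Subgroup.mul_mem _ hg (hSn.conj_mem _ (Subgroup.inv_mem _ hg) x)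
      rw [hNS, Subgroup.mem_bot] at h1
      calc g * x = (g * x * g⁻¹ * x⁻¹) * x * g := by group
        _ = x * g := by rw [h1, one_mul]
    have hxt : x * t ∈ Y := by
      rcases (hKmem x).mp (hNK hxN) with h | h
      · exact absurd (hJS (hYJ h)) hxS
      · exact h
    have hyS : x * t ∈ (S : Subgroup G) := hJS (hYJ hxt)
    have hxy : x = (x * t) * t := by rw [mul_assoc, htt, mul_one]
    generalize x * t = y at hxt hyS hxy
    have hty : t * y = y * t := by
      have h1 := hxc y hyS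
      rw [hxy] at h1
      have : y * (y * t) = y * (t * y) := by rw [h1]; group
      exact (mul_left_cancel this).symm
    have hy2 : y * y = 1 := by
      have : x * x = y * y := by
        rw [hxy]
        calc y * t * (y * t) = y * (t * y) * t := by group
          _ = y * (y * t) * t := by rw [hty]
          _ = y * y * (t * t) := by group
          _ = y * y := by rw [htt, mul_one]
      rw [← this, hxx]
    have hy1 : y = 1 := by
      have h3 := hJexp y (hYJ hxt)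
      have : y ^ 3 = y * y * y := by rw [pow_succ, pow_two]
      rw [this, hy2, one_mul] at h3
      exact h3
    have hxt' : x = t := by rw [hxy, hy1, one_mul]
    apply hST
    apply le_antisymm inf_le_left
    intro g hg
    refine ⟨hg, Subgroup.mem_centralizer_iff.mpr ?_⟩
    intro s hs
    rcases hTel s hs with h | h
    · rw [h]; simp
    · rw [h, ← hxt']; exact (hxc g hg).symm
  refine ⟨ext2 Y t htt hYt, z, ?_, hcore, hz3, hzK, hzc⟩
  have := Subgroup.card_mul_index (ext2 Y t htt hYt)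
  rw [hKcard, hG] at this
  omega

/-- A fixed-point-free permutation of order 3 on 9 points has cycle type `(3,3,3)`. -/
theorem cycleType_of_fpf (τ : Equiv.Perm (Fin 9)) (h3 : τ ^ 3 = 1) (hfp : ∀ i, τ i ≠ i) :
    τ.cycleType = Multiset.replicate 3 3 := by
  have hτ1 : τ ≠ 1 := by
    intro h
    exact hfp 0 (by rw [h]; rfl)
  have hord : orderOf τ = 3 := orderOf_eq_prime h3 hτ1
  obtain ⟨n, hn⟩ := Equiv.Perm.cycleType_prime_order (σ := τ) (by rw [hord]; exact Nat.prime_three)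
  have hsum := Equiv.Perm.sum_cycleType τ
  have hsupp : τ.support = Finset.univ := by
    ext i
    simp [Equiv.Perm.mem_support, hfp i]
  rw [hn, hsupp, Multiset.sum_replicate, hord] at hsum
  simp at hsum
  have hn2 : n + 1 = 3 := by omega
  rw [hn, hord, hn2]

theorem sigma_pow_three :
    (Equiv.swap (0 : Fin 9) 1 * Equiv.swap 1 2 * Equiv.swap 3 4 * Equiv.swap 4 5 *
      Equiv.swap 6 7 * Equiv.swap 7 8 : Equiv.Perm (Fin 9)) ^ 3 = 1 := by
  decide

theorem sigma_fpf : ∀ i : Fin 9,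
    (Equiv.swap (0 : Fin 9) 1 * Equiv.swap 1 2 * Equiv.swap 3 4 * Equiv.swap 4 5 *
      Equiv.swap 6 7 * Equiv.swap 7 8 : Equiv.Perm (Fin 9)) i ≠ i := by
  decide

/-- The recognition step: a group of order 162 with a core-free subgroup of index 9 and a
central element of order 3 outside it is the centralizer of a fixed-point-free element of
order 3 in the symmetric group of degree 9. -/
theorem iso_of_core_free [Finite G] (hG : Nat.card G = 162) (K : Subgroup G) (z : G)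
    (hK : K.index = 9) (hcore : K.normalCore = ⊥) (hz3 : z ^ 3 = 1) (hzK : z ∉ K)
    (hzc : ∀ g, g * z = z * g) :
    Nonempty (G ≃* Subgroup.centralizer
      ({Equiv.swap (0 : Fin 9) 1 * Equiv.swap 1 2 * Equiv.swap 3 4 * Equiv.swap 4 5 *
        Equiv.swap 6 7 * Equiv.swap 7 8} : Set (Equiv.Perm (Fin 9)))) := by
  classical
  have hs3 := sigma_pow_three
  have hsf := sigma_fpf
  generalize (Equiv.swap (0 : Fin 9) 1 * Equiv.swap 1 2 * Equiv.swap 3 4 * Equiv.swap 4 5 *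
        Equiv.swap 6 7 * Equiv.swap 7 8 : Equiv.Perm (Fin 9)) = σ at hs3 hsf ⊢
  have hφinj : Function.Injective (MulAction.toPermHom G (G ⧸ K)) := by
    rw [← MonoidHom.ker_eq_bot_iff, ← Subgroup.normalCore_eq_ker, hcore]
  have hcard : Nat.card (G ⧸ K) = 9 := hK
  have hfin : Finite (G ⧸ K) := inferInstance
  let e : (G ⧸ K) ≃ Fin 9 := Finite.equivFinOfCardEq hcard
  let φ' : G →* Equiv.Perm (Fin 9) :=
    (e.permCongrHom).toMonoidHom.comp (MulAction.toPermHom G (G ⧸ K))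
  have hφ'inj : Function.Injective φ' := by
    intro a b hab
    apply hφinj
    exact (e.permCongrHom).injective hab
  have hζ3 : (φ' z) ^ 3 = 1 := by rw [← map_pow, hz3, map_one]
  have hζf : ∀ i, φ' z i ≠ i := by
    intro i hi
    have h1 : φ' z i = e (z • e.symm i) := rfl
    rw [h1] at hi
    have h2 : z • e.symm i = e.symm i := by
      apply e.injective; rw [hi]; simp
    obtain ⟨g, hg⟩ := QuotientGroup.mk_surjective (e.symm i)
    rw [← hg] at h2
    have h3 : ((z * g : G) : G ⧸ K) = (g : G ⧸ K) := h2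
    rw [QuotientGroup.eq] at h3
    apply hzK
    have h4 : (z * g)⁻¹ * g = z⁻¹ := by
      rw [← hzc g]; group
    rw [h4] at h3
    simpa using K.inv_mem h3
  have hct : (φ' z).cycleType = σ.cycleType := by
    rw [cycleType_of_fpf _ hζ3 hζf, cycleType_of_fpf _ hs3 hsf]
  obtain ⟨c, hc⟩ := isConj_iff.mp (Equiv.Perm.isConj_iff_cycleType_eq.mpr hct)
  let ψ : G →* Equiv.Perm (Fin 9) := (MulAut.conj c).toMonoidHom.comp φ'
  have hψinj : Function.Injective ψ := by
    intro a b hab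
    apply hφ'inj
    exact (MulAut.conj c).injective hab
  have hψz : ψ z = σ := by
    show c * φ' z * c⁻¹ = σ
    exact hc
  have hle : ψ.range ≤ Subgroup.centralizer ({σ} : Set (Equiv.Perm (Fin 9))) := by
    rintro _ ⟨g, rfl⟩
    rw [Subgroup.mem_centralizer_iff]
    intro h hh
    rw [Set.mem_singleton_iff] at hh
    rw [hh, ← hψz, ← map_mul, ← map_mul, hzc g]
  have hcc : Nat.card (Subgroup.centralizer ({σ} : Set (Equiv.Perm (Fin 9)))) = 162 := by
    rw [Equiv.Perm.nat_card_centralizer, cycleType_of_fpf _ hs3 hsf]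
    decide
  have hcr : Nat.card ψ.range = 162 := by
    rw [← hG]
    exact (Nat.card_congr (MonoidHom.ofInjective hψinj).toEquiv).symm
  have heq : ψ.range = Subgroup.centralizer ({σ} : Set (Equiv.Perm (Fin 9))) :=
    Subgroup.eq_of_le_of_card_ge hle (by rw [hcc, hcr])
  exact ⟨(MonoidHom.ofInjective hψinj).trans (MulEquiv.subgroupCongr heq)⟩

/-- The full recognition theorem. -/
theorem main [Finite G] (hG : Nat.card G = 162)
    (S : Sylow 3 G) (T : Sylow 2 G) (J : Subgroup G) [hJn : J.Normal]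
    (hJcomm : IsMulCommutative J)
    (hJexp : ∀ a ∈ J, a ^ 3 = 1) (hJcard : Nat.card J = 27)
    (Z : Subgroup G)
    (hZ : Z = (S : Subgroup G) ⊓ Subgroup.centralizer ((S : Subgroup G) : Set G))
    (hZcard : Nat.card Z = 3)
    (hZT : Z ≤ Subgroup.centralizer ((T : Subgroup G) : Set G))
    (hST : (S : Subgroup G) ⊓ Subgroup.centralizer ((T : Subgroup G) : Set G) ≠ S) :
    Nonempty (G ≃* Subgroup.centralizer
      ({Equiv.swap (0 : Fin 9) 1 * Equiv.swap 1 2 * Equiv.swap 3 4 * Equiv.swap 4 5 *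
        Equiv.swap 6 7 * Equiv.swap 7 8} : Set (Equiv.Perm (Fin 9)))) := by
  have hJc : ∀ x ∈ J, ∀ y ∈ J, x * y = y * x := by
    intro x hx y hy
    have := hJcomm.is_comm.comm (⟨x, hx⟩ : ↥J) ⟨y, hy⟩
    exact congrArg Subtype.val this
  obtain ⟨K, z, hK, hcore, hz3, hzK, hzc⟩ :=
    exists_core_free hG S T J hJc hJexp hJcard Z hZ hZcard hZT hST
  exact iso_of_core_free hG K z hK hcore hz3 hzK hzc

end Cfsg.Agent.H85.Ord162
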