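import Mathlib
import Cfsg.Agent.H34.PgDefs

/-!
# PG-NZ (helper85, for helper34's S3663 project): a non-constant function of `IsW`

`f x = L (hh x a) - L (hh x b)` on the isotropic vectors not orthogonal to `a`, `b` (`L` the
discrete logarithm modulo 5), and `0` elsewhere.  The line sums reduce to a check over the four
scalars `hh u a`, `hh v a`, `hh u b`, `hh v b`, which satisfy a Gram determinant identity.
The arithmetic of the concrete field with 16 elements is tabulated for the kernel.
-/

set_option autoImplicit false

namespace Cfsg.Agent.H85.PG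

open Matrix Cfsg.Agent.H34.PG

/-! ## Tables -/

def mR0 : K → K
  | ⟨false, false, false, false⟩ => ⟨false, false, false, false⟩
  | ⟨true, false, false, false⟩ => ⟨false, false, false, false⟩
  | ⟨false, true, false, false⟩ => ⟨false, false, false, false⟩
  | ⟨true, true, false, false⟩ => ⟨false, false, false, false⟩
  | ⟨false, false, true, false⟩ => ⟨false, false, false, false⟩
  | ⟨true, false, true, false⟩ => ⟨false, false, false, false⟩
  | ⟨false, true, true, false⟩ => ⟨false, false, false, false⟩
  | ⟨true, true, true, false⟩ => ⟨false, false, false, false⟩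
  | ⟨false, false, false, true⟩ => ⟨false, false, false, false⟩
  | ⟨true, false, false, true⟩ => ⟨false, false, false, false⟩
  | ⟨false, true, false, true⟩ => ⟨false, false, false, false⟩
  | ⟨true, true, false, true⟩ => ⟨false, false, false, false⟩
  | ⟨false, false, true, true⟩ => ⟨false, false, false, false⟩
  | ⟨true, false, true, true⟩ => ⟨false, false, false, false⟩
  | ⟨false, true, true, true⟩ => ⟨false, false, false, false⟩
  | ⟨true, true, true, true⟩ => ⟨false, false, false, false⟩

def mR1 : K → K
  | ⟨false, false, false, false⟩ => ⟨false, false, false, false⟩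
  | ⟨true, false, false, false⟩ => ⟨true, false, false, false⟩
  | ⟨false, true, false, false⟩ => ⟨false, true, false, false⟩
  | ⟨true, true, false, false⟩ => ⟨true, true, false, false⟩
  | ⟨false, false, true, false⟩ => ⟨false, false, true, false⟩
  | ⟨true, false, true, false⟩ => ⟨true, false, true, false⟩
  | ⟨false, true, true, false⟩ => ⟨false, true, true, false⟩
  | ⟨true, true, true, false⟩ => ⟨true, true, true, false⟩
  | ⟨false, false, false, true⟩ => ⟨false, false, false, true⟩
  | ⟨true, false, false, true⟩ => ⟨true, false, false, true⟩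
  | ⟨false, true, false, true⟩ => ⟨false, true, false, true⟩
  | ⟨true, true, false, true⟩ => ⟨true, true, false, true⟩
  | ⟨false, false, true, true⟩ => ⟨false, false, true, true⟩
  | ⟨true, false, true, true⟩ => ⟨true, false, true, true⟩
  | ⟨false, true, true, true⟩ => ⟨false, true, true, true⟩
  | ⟨true, true, true, true⟩ => ⟨true, true, true, true⟩

def mR2 : K → K
  | ⟨false, false, false, false⟩ => ⟨false, false, false, false⟩
  | ⟨true, false, false, false⟩ => ⟨false, true, false, false⟩
  | ⟨false, true, false, false⟩ => ⟨false, false, true, false⟩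
  | ⟨true, true, false, false⟩ => ⟨false, true, true, false⟩
  | ⟨false, false, true, false⟩ => ⟨false, false, false, true⟩
  | ⟨true, false, true, false⟩ => ⟨false, true, false, true⟩
  | ⟨false, true, true, false⟩ => ⟨false, false, true, true⟩
  | ⟨true, true, true, false⟩ => ⟨false, true, true, true⟩
  | ⟨false, false, false, true⟩ => ⟨true, true, false, false⟩
  | ⟨true, false, false, true⟩ => ⟨true, false, false, false⟩
  | ⟨false, true, false, true⟩ => ⟨true, true, true, false⟩
  | ⟨true, true, false, true⟩ => ⟨true, false, true, false⟩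
  | ⟨false, false, true, true⟩ => ⟨true, true, false, true⟩
  | ⟨true, false, true, true⟩ => ⟨true, false, false, true⟩
  | ⟨false, true, true, true⟩ => ⟨true, true, true, true⟩
  | ⟨true, true, true, true⟩ => ⟨true, false, true, true⟩

def mR3 : K → K
  | ⟨false, false, false, false⟩ => ⟨false, false, false, false⟩
  | ⟨true, false, false, false⟩ => ⟨true, true, false, false⟩
  | ⟨false, true, false, false⟩ => ⟨false, true, true, false⟩
  | ⟨true, true, false, false⟩ => ⟨true, false, true, false⟩
  | ⟨false, false, true, false⟩ => ⟨false, false, true, true⟩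
  | ⟨true, false, true, false⟩ => ⟨true, true, true, true⟩
  | ⟨false, true, true, false⟩ => ⟨false, true, false, true⟩
  | ⟨true, true, true, false⟩ => ⟨true, false, false, true⟩
  | ⟨false, false, false, true⟩ => ⟨true, true, false, true⟩
  | ⟨true, false, false, true⟩ => ⟨false, false, false, true⟩
  | ⟨false, true, false, true⟩ => ⟨true, false, true, true⟩
  | ⟨true, true, false, true⟩ => ⟨false, true, true, true⟩
  | ⟨false, false, true, true⟩ => ⟨true, true, true, false⟩
  | ⟨true, false, true, true⟩ => ⟨false, false, true, false⟩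
  | ⟨false, true, true, true⟩ => ⟨true, false, false, false⟩
  | ⟨true, true, true, true⟩ => ⟨false, true, false, false⟩

def mR4 : K → K
  | ⟨false, false, false, false⟩ => ⟨false, false, false, false⟩
  | ⟨true, false, false, false⟩ => ⟨false, false, true, false⟩
  | ⟨false, true, false, false⟩ => ⟨false, false, false, true⟩
  | ⟨true, true, false, false⟩ => ⟨false, false, true, true⟩
  | ⟨false, false, true, false⟩ => ⟨true, true, false, false⟩
  | ⟨true, false, true, false⟩ => ⟨true, true, true, false⟩
  | ⟨false, true, true, false⟩ => ⟨true, true, false, true⟩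
  | ⟨true, true, true, false⟩ => ⟨true, true, true, true⟩
  | ⟨false, false, false, true⟩ => ⟨false, true, true, false⟩
  | ⟨true, false, false, true⟩ => ⟨false, true, false, false⟩
  | ⟨false, true, false, true⟩ => ⟨false, true, true, true⟩
  | ⟨true, true, false, true⟩ => ⟨false, true, false, true⟩
  | ⟨false, false, true, true⟩ => ⟨true, false, true, false⟩
  | ⟨true, false, true, true⟩ => ⟨true, false, false, false⟩
  | ⟨false, true, true, true⟩ => ⟨true, false, true, true⟩
  | ⟨true, true, true, true⟩ => ⟨true, false, false, true⟩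

def mR5 : K → K
  | ⟨false, false, false, false⟩ => ⟨false, false, false, false⟩
  | ⟨true, false, false, false⟩ => ⟨true, false, true, false⟩
  | ⟨false, true, false, false⟩ => ⟨false, true, false, true⟩
  | ⟨true, true, false, false⟩ => ⟨true, true, true, true⟩
  | ⟨false, false, true, false⟩ => ⟨true, true, true, false⟩
  | ⟨true, false, true, false⟩ => ⟨false, true, false, false⟩
  | ⟨false, true, true, false⟩ => ⟨true, false, true, true⟩
  | ⟨true, true, true, false⟩ => ⟨false, false, false, true⟩
  | ⟨false, false, false, true⟩ => ⟨false, true, true, true⟩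
  | ⟨true, false, false, true⟩ => ⟨true, true, false, true⟩
  | ⟨false, true, false, true⟩ => ⟨false, false, true, false⟩
  | ⟨true, true, false, true⟩ => ⟨true, false, false, false⟩
  | ⟨false, false, true, true⟩ => ⟨true, false, false, true⟩
  | ⟨true, false, true, true⟩ => ⟨false, false, true, true⟩
  | ⟨false, true, true, true⟩ => ⟨true, true, false, false⟩
  | ⟨true, true, true, true⟩ => ⟨false, true, true, false⟩

def mR6 : K → K
  | ⟨false, false, false, false⟩ => ⟨false, false, false, false⟩
  | ⟨true, false, false, false⟩ => ⟨false, true, true, false⟩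
  | ⟨false, true, false, false⟩ => ⟨false, false, true, true⟩
  | ⟨true, true, false, false⟩ => ⟨false, true, false, true⟩
  | ⟨false, false, true, false⟩ => ⟨true, true, false, true⟩
  | ⟨true, false, true, false⟩ => ⟨true, false, true, true⟩
  | ⟨false, true, true, false⟩ => ⟨true, true, true, false⟩
  | ⟨true, true, true, false⟩ => ⟨true, false, false, false⟩
  | ⟨false, false, false, true⟩ => ⟨true, false, true, false⟩
  | ⟨true, false, false, true⟩ => ⟨true, true, false, false⟩
  | ⟨false, true, false, true⟩ => ⟨true, false, false, true⟩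
  | ⟨true, true, false, true⟩ => ⟨true, true, true, true⟩
  | ⟨false, false, true, true⟩ => ⟨false, true, true, true⟩
  | ⟨true, false, true, true⟩ => ⟨false, false, false, true⟩
  | ⟨false, true, true, true⟩ => ⟨false, true, false, false⟩
  | ⟨true, true, true, true⟩ => ⟨false, false, true, false⟩

def mR7 : K → K
  | ⟨false, false, false, false⟩ => ⟨false, false, false, false⟩
  | ⟨true, false, false, false⟩ => ⟨true, true, true, false⟩
  | ⟨false, true, false, false⟩ => ⟨false, true, true, true⟩
  | ⟨true, true, false, false⟩ => ⟨true, false, false, true⟩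
  | ⟨false, false, true, false⟩ => ⟨true, true, true, true⟩
  | ⟨true, false, true, false⟩ => ⟨false, false, false, true⟩
  | ⟨false, true, true, false⟩ => ⟨true, false, false, false⟩
  | ⟨true, true, true, false⟩ => ⟨false, true, true, false⟩
  | ⟨false, false, false, true⟩ => ⟨true, false, true, true⟩
  | ⟨true, false, false, true⟩ => ⟨false, true, false, true⟩
  | ⟨false, true, false, true⟩ => ⟨true, true, false, false⟩
  | ⟨true, true, false, true⟩ => ⟨false, false, true, false⟩
  | ⟨false, false, true, true⟩ => ⟨false, true, false, false⟩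
  | ⟨true, false, true, true⟩ => ⟨true, false, true, false⟩
  | ⟨false, true, true, true⟩ => ⟨false, false, true, true⟩
  | ⟨true, true, true, true⟩ => ⟨true, true, false, true⟩

def mR8 : K → K
  | ⟨false, false, false, false⟩ => ⟨false, false, false, false⟩
  | ⟨true, false, false, false⟩ => ⟨false, false, false, true⟩
  | ⟨false, true, false, false⟩ => ⟨true, true, false, false⟩
  | ⟨true, true, false, false⟩ => ⟨true, true, false, true⟩
  | ⟨false, false, true, false⟩ => ⟨false, true, true, false⟩
  | ⟨true, false, true, false⟩ => ⟨false, true, true, true⟩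
  | ⟨false, true, true, false⟩ => ⟨true, false, true, false⟩
  | ⟨true, true, true, false⟩ => ⟨true, false, true, true⟩
  | ⟨false, false, false, true⟩ => ⟨false, false, true, true⟩
  | ⟨true, false, false, true⟩ => ⟨false, false, true, false⟩
  | ⟨false, true, false, true⟩ => ⟨true, true, true, true⟩
  | ⟨true, true, false, true⟩ => ⟨true, true, true, false⟩
  | ⟨false, false, true, true⟩ => ⟨false, true, false, true⟩
  | ⟨true, false, true, true⟩ => ⟨false, true, false, false⟩
  | ⟨false, true, true, true⟩ => ⟨true, false, false, true⟩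
  | ⟨true, true, true, true⟩ => ⟨true, false, false, false⟩

def mR9 : K → K
  | ⟨false, false, false, false⟩ => ⟨false, false, false, false⟩
  | ⟨true, false, false, false⟩ => ⟨true, false, false, true⟩
  | ⟨false, true, false, false⟩ => ⟨true, false, false, false⟩
  | ⟨true, true, false, false⟩ => ⟨false, false, false, true⟩
  | ⟨false, false, true, false⟩ => ⟨false, true, false, false⟩
  | ⟨true, false, true, false⟩ => ⟨true, true, false, true⟩
  | ⟨false, true, true, false⟩ => ⟨true, true, false, false⟩
  | ⟨true, true, true, false⟩ => ⟨false, true, false, true⟩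
  | ⟨false, false, false, true⟩ => ⟨false, false, true, false⟩
  | ⟨true, false, false, true⟩ => ⟨true, false, true, true⟩
  | ⟨false, true, false, true⟩ => ⟨true, false, true, false⟩
  | ⟨true, true, false, true⟩ => ⟨false, false, true, true⟩
  | ⟨false, false, true, true⟩ => ⟨false, true, true, false⟩
  | ⟨true, false, true, true⟩ => ⟨true, true, true, true⟩
  | ⟨false, true, true, true⟩ => ⟨true, true, true, false⟩
  | ⟨true, true, true, true⟩ => ⟨false, true, true, true⟩

def mR10 : K → K
  | ⟨false, false, false, false⟩ => ⟨false, false, false, false⟩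
  | ⟨true, false, false, false⟩ => ⟨false, true, false, true⟩
  | ⟨false, true, false, false⟩ => ⟨true, true, true, false⟩
  | ⟨true, true, false, false⟩ => ⟨true, false, true, true⟩
  | ⟨false, false, true, false⟩ => ⟨false, true, true, true⟩
  | ⟨true, false, true, false⟩ => ⟨false, false, true, false⟩
  | ⟨false, true, true, false⟩ => ⟨true, false, false, true⟩
  | ⟨true, true, true, false⟩ => ⟨true, true, false, false⟩
  | ⟨false, false, false, true⟩ => ⟨true, true, true, true⟩
  | ⟨true, false, false, true⟩ => ⟨true, false, true, false⟩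
  | ⟨false, true, false, true⟩ => ⟨false, false, false, true⟩
  | ⟨true, true, false, true⟩ => ⟨false, true, false, false⟩
  | ⟨false, false, true, true⟩ => ⟨true, false, false, false⟩
  | ⟨true, false, true, true⟩ => ⟨true, true, false, true⟩
  | ⟨false, true, true, true⟩ => ⟨false, true, true, false⟩
  | ⟨true, true, true, true⟩ => ⟨false, false, true, true⟩

def mR11 : K → K
  | ⟨false, false, false, false⟩ => ⟨false, false, false, false⟩
  | ⟨true, false, false, false⟩ => ⟨true, true, false, true⟩
  | ⟨false, true, false, false⟩ => ⟨true, false, true, false⟩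
  | ⟨true, true, false, false⟩ => ⟨false, true, true, true⟩
  | ⟨false, false, true, false⟩ => ⟨false, true, false, true⟩
  | ⟨true, false, true, false⟩ => ⟨true, false, false, false⟩
  | ⟨false, true, true, false⟩ => ⟨true, true, true, true⟩
  | ⟨true, true, true, false⟩ => ⟨false, false, true, false⟩
  | ⟨false, false, false, true⟩ => ⟨true, true, true, false⟩
  | ⟨true, false, false, true⟩ => ⟨false, false, true, true⟩
  | ⟨false, true, false, true⟩ => ⟨false, true, false, false⟩
  | ⟨true, true, false, true⟩ => ⟨true, false, false, true⟩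
  | ⟨false, false, true, true⟩ => ⟨true, false, true, true⟩
  | ⟨true, false, true, true⟩ => ⟨false, true, true, false⟩
  | ⟨false, true, true, true⟩ => ⟨false, false, false, true⟩
  | ⟨true, true, true, true⟩ => ⟨true, true, false, false⟩

def mR12 : K → K
  | ⟨false, false, false, false⟩ => ⟨false, false, false, false⟩
  | ⟨true, false, false, false⟩ => ⟨false, false, true, true⟩
  | ⟨false, true, false, false⟩ => ⟨true, true, false, true⟩
  | ⟨true, true, false, false⟩ => ⟨true, true, true, false⟩
  | ⟨false, false, true, false⟩ => ⟨true, false, true, false⟩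
  | ⟨true, false, true, false⟩ => ⟨true, false, false, true⟩
  | ⟨false, true, true, false⟩ => ⟨false, true, true, true⟩
  | ⟨true, true, true, false⟩ => ⟨false, true, false, false⟩
  | ⟨false, false, false, true⟩ => ⟨false, true, false, true⟩
  | ⟨true, false, false, true⟩ => ⟨false, true, true, false⟩
  | ⟨false, true, false, true⟩ => ⟨true, false, false, false⟩
  | ⟨true, true, false, true⟩ => ⟨true, false, true, true⟩
  | ⟨false, false, true, true⟩ => ⟨true, true, true, true⟩
  | ⟨true, false, true, true⟩ => ⟨true, true, false, false⟩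
  | ⟨false, true, true, true⟩ => ⟨false, false, true, false⟩
  | ⟨true, true, true, true⟩ => ⟨false, false, false, true⟩

def mR13 : K → K
  | ⟨false, false, false, false⟩ => ⟨false, false, false, false⟩
  | ⟨true, false, false, false⟩ => ⟨true, false, true, true⟩
  | ⟨false, true, false, false⟩ => ⟨true, false, false, true⟩
  | ⟨true, true, false, false⟩ => ⟨false, false, true, false⟩
  | ⟨false, false, true, false⟩ => ⟨true, false, false, false⟩
  | ⟨true, false, true, false⟩ => ⟨false, false, true, true⟩
  | ⟨false, true, true, false⟩ => ⟨false, false, false, true⟩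
  | ⟨true, true, true, false⟩ => ⟨true, false, true, false⟩
  | ⟨false, false, false, true⟩ => ⟨false, true, false, false⟩
  | ⟨true, false, false, true⟩ => ⟨true, true, true, true⟩
  | ⟨false, true, false, true⟩ => ⟨true, true, false, true⟩
  | ⟨true, true, false, true⟩ => ⟨false, true, true, false⟩
  | ⟨false, false, true, true⟩ => ⟨true, true, false, false⟩
  | ⟨true, false, true, true⟩ => ⟨false, true, true, true⟩
  | ⟨false, true, true, true⟩ => ⟨false, true, false, true⟩
  | ⟨true, true, true, true⟩ => ⟨true, true, true, false⟩

def mR14 : K → K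
  | ⟨false, false, false, false⟩ => ⟨false, false, false, false⟩
  | ⟨true, false, false, false⟩ => ⟨false, true, true, true⟩
  | ⟨false, true, false, false⟩ => ⟨true, true, true, true⟩
  | ⟨true, true, false, false⟩ => ⟨true, false, false, false⟩
  | ⟨false, false, true, false⟩ => ⟨true, false, true, true⟩
  | ⟨true, false, true, false⟩ => ⟨true, true, false, false⟩
  | ⟨false, true, true, false⟩ => ⟨false, true, false, false⟩
  | ⟨true, true, true, false⟩ => ⟨false, false, true, true⟩
  | ⟨false, false, false, true⟩ => ⟨true, false, false, true⟩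
  | ⟨true, false, false, true⟩ => ⟨true, true, true, false⟩
  | ⟨false, true, false, true⟩ => ⟨false, true, true, false⟩
  | ⟨true, true, false, true⟩ => ⟨false, false, false, true⟩
  | ⟨false, false, true, true⟩ => ⟨false, false, true, false⟩
  | ⟨true, false, true, true⟩ => ⟨false, true, false, true⟩
  | ⟨false, true, true, true⟩ => ⟨true, true, false, true⟩
  | ⟨true, true, true, true⟩ => ⟨true, false, true, false⟩

def mR15 : K → K
  | ⟨false, false, false, false⟩ => ⟨false, false, false, false⟩
  | ⟨true, false, false, false⟩ => ⟨true, true, true, true⟩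
  | ⟨false, true, false, false⟩ => ⟨true, false, true, true⟩
  | ⟨true, true, false, false⟩ => ⟨false, true, false, false⟩
  | ⟨false, false, true, false⟩ => ⟨true, false, false, true⟩
  | ⟨true, false, true, false⟩ => ⟨false, true, true, false⟩
  | ⟨false, true, true, false⟩ => ⟨false, false, true, false⟩
  | ⟨true, true, true, false⟩ => ⟨true, true, false, true⟩
  | ⟨false, false, false, true⟩ => ⟨true, false, false, false⟩
  | ⟨true, false, false, true⟩ => ⟨false, true, true, true⟩
  | ⟨false, true, false, true⟩ => ⟨false, false, true, true⟩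
  | ⟨true, true, false, true⟩ => ⟨true, true, false, false⟩
  | ⟨false, false, true, true⟩ => ⟨false, false, false, true⟩
  | ⟨true, false, true, true⟩ => ⟨true, true, true, false⟩
  | ⟨false, true, true, true⟩ => ⟨true, false, true, false⟩
  | ⟨true, true, true, true⟩ => ⟨false, true, false, true⟩

/-- multiplication by table -/
def mulQ : K → K → K
  | ⟨false, false, false, false⟩ => mR0
  | ⟨true, false, false, false⟩ => mR1
  | ⟨false, true, false, false⟩ => mR2
  | ⟨true, true, false, false⟩ => mR3
  | ⟨false, false, true, false⟩ => mR4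
  | ⟨true, false, true, false⟩ => mR5
  | ⟨false, true, true, false⟩ => mR6
  | ⟨true, true, true, false⟩ => mR7
  | ⟨false, false, false, true⟩ => mR8
  | ⟨true, false, false, true⟩ => mR9
  | ⟨false, true, false, true⟩ => mR10
  | ⟨true, true, false, true⟩ => mR11
  | ⟨false, false, true, true⟩ => mR12
  | ⟨true, false, true, true⟩ => mR13
  | ⟨false, true, true, true⟩ => mR14
  | ⟨true, true, true, true⟩ => mR15

def aR0 : K → K
  | ⟨false, false, false, false⟩ => ⟨false, false, false, false⟩
  | ⟨true, false, false, false⟩ => ⟨true, false, false, false⟩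
  | ⟨false, true, false, false⟩ => ⟨false, true, false, false⟩
  | ⟨true, true, false, false⟩ => ⟨true, true, false, false⟩
  | ⟨false, false, true, false⟩ => ⟨false, false, true, false⟩
  | ⟨true, false, true, false⟩ => ⟨true, false, true, false⟩
  | ⟨false, true, true, false⟩ => ⟨false, true, true, false⟩
  | ⟨true, true, true, false⟩ => ⟨true, true, true, false⟩
  | ⟨false, false, false, true⟩ => ⟨false, false, false, true⟩
  | ⟨true, false, false, true⟩ => ⟨true, false, false, true⟩
  | ⟨false, true, false, true⟩ => ⟨false, true, false, true⟩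
  | ⟨true, true, false, true⟩ => ⟨true, true, false, true⟩
  | ⟨false, false, true, true⟩ => ⟨false, false, true, true⟩
  | ⟨true, false, true, true⟩ => ⟨true, false, true, true⟩
  | ⟨false, true, true, true⟩ => ⟨false, true, true, true⟩
  | ⟨true, true, true, true⟩ => ⟨true, true, true, true⟩

def aR1 : K → K
  | ⟨false, false, false, false⟩ => ⟨true, false, false, false⟩
  | ⟨true, false, false, false⟩ => ⟨false, false, false, false⟩
  | ⟨false, true, false, false⟩ => ⟨true, true, false, false⟩
  | ⟨true, true, false, false⟩ => ⟨false, true, false, false⟩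
  | ⟨false, false, true, false⟩ => ⟨true, false, true, false⟩
  | ⟨true, false, true, false⟩ => ⟨false, false, true, false⟩
  | ⟨false, true, true, false⟩ => ⟨true, true, true, false⟩
  | ⟨true, true, true, false⟩ => ⟨false, true, true, false⟩
  | ⟨false, false, false, true⟩ => ⟨true, false, false, true⟩
  | ⟨true, false, false, true⟩ => ⟨false, false, false, true⟩
  | ⟨false, true, false, true⟩ => ⟨true, true, false, true⟩
  | ⟨true, true, false, true⟩ => ⟨false, true, false, true⟩
  | ⟨false, false, true, true⟩ => ⟨true, false, true, true⟩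
  | ⟨true, false, true, true⟩ => ⟨false, false, true, true⟩
  | ⟨false, true, true, true⟩ => ⟨true, true, true, true⟩
  | ⟨true, true, true, true⟩ => ⟨false, true, true, true⟩

def aR2 : K → K
  | ⟨false, false, false, false⟩ => ⟨false, true, false, false⟩
  | ⟨true, false, false, false⟩ => ⟨true, true, false, false⟩
  | ⟨false, true, false, false⟩ => ⟨false, false, false, false⟩
  | ⟨true, true, false, false⟩ => ⟨true, false, false, false⟩
  | ⟨false, false, true, false⟩ => ⟨false, true, true, false⟩
  | ⟨true, false, true, false⟩ => ⟨true, true, true, false⟩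
  | ⟨false, true, true, false⟩ => ⟨false, false, true, false⟩
  | ⟨true, true, true, false⟩ => ⟨true, false, true, false⟩
  | ⟨false, false, false, true⟩ => ⟨false, true, false, true⟩
  | ⟨true, false, false, true⟩ => ⟨true, true, false, true⟩
  | ⟨false, true, false, true⟩ => ⟨false, false, false, true⟩
  | ⟨true, true, false, true⟩ => ⟨true, false, false, true⟩
  | ⟨false, false, true, true⟩ => ⟨false, true, true, true⟩
  | ⟨true, false, true, true⟩ => ⟨true, true, true, true⟩
  | ⟨false, true, true, true⟩ => ⟨false, false, true, true⟩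
  | ⟨true, true, true, true⟩ => ⟨true, false, true, true⟩

def aR3 : K → K
  | ⟨false, false, false, false⟩ => ⟨true, true, false, false⟩
  | ⟨true, false, false, false⟩ => ⟨false, true, false, false⟩
  | ⟨false, true, false, false⟩ => ⟨true, false, false, false⟩
  | ⟨true, true, false, false⟩ => ⟨false, false, false, false⟩
  | ⟨false, false, true, false⟩ => ⟨true, true, true, false⟩
  | ⟨true, false, true, false⟩ => ⟨false, true, true, false⟩
  | ⟨false, true, true, false⟩ => ⟨true, false, true, false⟩
  | ⟨true, true, true, false⟩ => ⟨false, false, true, false⟩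
  | ⟨false, false, false, true⟩ => ⟨true, true, false, true⟩
  | ⟨true, false, false, true⟩ => ⟨false, true, false, true⟩
  | ⟨false, true, false, true⟩ => ⟨true, false, false, true⟩
  | ⟨true, true, false, true⟩ => ⟨false, false, false, true⟩
  | ⟨false, false, true, true⟩ => ⟨true, true, true, true⟩
  | ⟨true, false, true, true⟩ => ⟨false, true, true, true⟩
  | ⟨false, true, true, true⟩ => ⟨true, false, true, true⟩
  | ⟨true, true, true, true⟩ => ⟨false, false, true, true⟩

def aR4 : K → K
  | ⟨false, false, false, false⟩ => ⟨false, false, true, false⟩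
  | ⟨true, false, false, false⟩ => ⟨true, false, true, false⟩
  | ⟨false, true, false, false⟩ => ⟨false, true, true, false⟩
  | ⟨true, true, false, false⟩ => ⟨true, true, true, false⟩
  | ⟨false, false, true, false⟩ => ⟨false, false, false, false⟩
  | ⟨true, false, true, false⟩ => ⟨true, false, false, false⟩
  | ⟨false, true, true, false⟩ => ⟨false, true, false, false⟩
  | ⟨true, true, true, false⟩ => ⟨true, true, false, false⟩
  | ⟨false, false, false, true⟩ => ⟨false, false, true, true⟩
  | ⟨true, false, false, true⟩ => ⟨true, false, true, true⟩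
  | ⟨false, true, false, true⟩ => ⟨false, true, true, true⟩
  | ⟨true, true, false, true⟩ => ⟨true, true, true, true⟩
  | ⟨false, false, true, true⟩ => ⟨false, false, false, true⟩
  | ⟨true, false, true, true⟩ => ⟨true, false, false, true⟩
  | ⟨false, true, true, true⟩ => ⟨false, true, false, true⟩
  | ⟨true, true, true, true⟩ => ⟨true, true, false, true⟩

def aR5 : K → K
  | ⟨false, false, false, false⟩ => ⟨true, false, true, false⟩
  | ⟨true, false, false, false⟩ => ⟨false, false, true, false⟩
  | ⟨false, true, false, false⟩ => ⟨true, true, true, false⟩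
  | ⟨true, true, false, false⟩ => ⟨false, true, true, false⟩
  | ⟨false, false, true, false⟩ => ⟨true, false, false, false⟩
  | ⟨true, false, true, false⟩ => ⟨false, false, false, false⟩
  | ⟨false, true, true, false⟩ => ⟨true, true, false, false⟩
  | ⟨true, true, true, false⟩ => ⟨false, true, false, false⟩
  | ⟨false, false, false, true⟩ => ⟨true, false, true, true⟩
  | ⟨true, false, false, true⟩ => ⟨false, false, true, true⟩
  | ⟨false, true, false, true⟩ => ⟨true, true, true, true⟩
  | ⟨true, true, false, true⟩ => ⟨false, true, true, true⟩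
  | ⟨false, false, true, true⟩ => ⟨true, false, false, true⟩
  | ⟨true, false, true, true⟩ => ⟨false, false, false, true⟩
  | ⟨false, true, true, true⟩ => ⟨true, true, false, true⟩
  | ⟨true, true, true, true⟩ => ⟨false, true, false, true⟩

def aR6 : K → K
  | ⟨false, false, false, false⟩ => ⟨false, true, true, false⟩
  | ⟨true, false, false, false⟩ => ⟨true, true, true, false⟩
  | ⟨false, true, false, false⟩ => ⟨false, false, true, false⟩
  | ⟨true, true, false, false⟩ => ⟨true, false, true, false⟩
  | ⟨false, false, true, false⟩ => ⟨false, true, false, false⟩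
  | ⟨true, false, true, false⟩ => ⟨true, true, false, false⟩
  | ⟨false, true, true, false⟩ => ⟨false, false, false, false⟩
  | ⟨true, true, true, false⟩ => ⟨true, false, false, false⟩
  | ⟨false, false, false, true⟩ => ⟨false, true, true, true⟩
  | ⟨true, false, false, true⟩ => ⟨true, true, true, true⟩
  | ⟨false, true, false, true⟩ => ⟨false, false, true, true⟩
  | ⟨true, true, false, true⟩ => ⟨true, false, true, true⟩
  | ⟨false, false, true, true⟩ => ⟨false, true, false, true⟩
  | ⟨true, false, true, true⟩ => ⟨true, true, false, true⟩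
  | ⟨false, true, true, true⟩ => ⟨false, false, false, true⟩
  | ⟨true, true, true, true⟩ => ⟨true, false, false, true⟩

def aR7 : K → K
  | ⟨false, false, false, false⟩ => ⟨true, true, true, false⟩
  | ⟨true, false, false, false⟩ => ⟨false, true, true, false⟩
  | ⟨false, true, false, false⟩ => ⟨true, false, true, false⟩
  | ⟨true, true, false, false⟩ => ⟨false, false, true, false⟩
  | ⟨false, false, true, false⟩ => ⟨true, true, false, false⟩
  | ⟨true, false, true, false⟩ => ⟨false, true, false, false⟩
  | ⟨false, true, true, false⟩ => ⟨true, false, false, false⟩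
  | ⟨true, true, true, false⟩ => ⟨false, false, false, false⟩
  | ⟨false, false, false, true⟩ => ⟨true, true, true, true⟩
  | ⟨true, false, false, true⟩ => ⟨false, true, true, true⟩
  | ⟨false, true, false, true⟩ => ⟨true, false, true, true⟩
  | ⟨true, true, false, true⟩ => ⟨false, false, true, true⟩
  | ⟨false, false, true, true⟩ => ⟨true, true, false, true⟩
  | ⟨true, false, true, true⟩ => ⟨false, true, false, true⟩
  | ⟨false, true, true, true⟩ => ⟨true, false, false, true⟩
  | ⟨true, true, true, true⟩ => ⟨false, false, false, true⟩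

def aR8 : K → K
  | ⟨false, false, false, false⟩ => ⟨false, false, false, true⟩
  | ⟨true, false, false, false⟩ => ⟨true, false, false, true⟩
  | ⟨false, true, false, false⟩ => ⟨false, true, false, true⟩
  | ⟨true, true, false, false⟩ => ⟨true, true, false, true⟩
  | ⟨false, false, true, false⟩ => ⟨false, false, true, true⟩
  | ⟨true, false, true, false⟩ => ⟨true, false, true, true⟩
  | ⟨false, true, true, false⟩ => ⟨false, true, true, true⟩
  | ⟨true, true, true, false⟩ => ⟨true, true, true, true⟩
  | ⟨false, false, false, true⟩ => ⟨false, false, false, false⟩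
  | ⟨true, false, false, true⟩ => ⟨true, false, false, false⟩
  | ⟨false, true, false, true⟩ => ⟨false, true, false, false⟩
  | ⟨true, true, false, true⟩ => ⟨true, true, false, false⟩
  | ⟨false, false, true, true⟩ => ⟨false, false, true, false⟩
  | ⟨true, false, true, true⟩ => ⟨true, false, true, false⟩
  | ⟨false, true, true, true⟩ => ⟨false, true, true, false⟩
  | ⟨true, true, true, true⟩ => ⟨true, true, true, false⟩

def aR9 : K → K
  | ⟨false, false, false, false⟩ => ⟨true, false, false, true⟩
  | ⟨true, false, false, false⟩ => ⟨false, false, false, true⟩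
  | ⟨false, true, false, false⟩ => ⟨true, true, false, true⟩
  | ⟨true, true, false, false⟩ => ⟨false, true, false, true⟩
  | ⟨false, false, true, false⟩ => ⟨true, false, true, true⟩
  | ⟨true, false, true, false⟩ => ⟨false, false, true, true⟩
  | ⟨false, true, true, false⟩ => ⟨true, true, true, true⟩
  | ⟨true, true, true, false⟩ => ⟨false, true, true, true⟩
  | ⟨false, false, false, true⟩ => ⟨true, false, false, false⟩
  | ⟨true, false, false, true⟩ => ⟨false, false, false, false⟩
  | ⟨false, true, false, true⟩ => ⟨true, true, false, false⟩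
  | ⟨true, true, false, true⟩ => ⟨false, true, false, false⟩
  | ⟨false, false, true, true⟩ => ⟨true, false, true, false⟩
  | ⟨true, false, true, true⟩ => ⟨false, false, true, false⟩
  | ⟨false, true, true, true⟩ => ⟨true, true, true, false⟩
  | ⟨true, true, true, true⟩ => ⟨false, true, true, false⟩

def aR10 : K → K
  | ⟨false, false, false, false⟩ => ⟨false, true, false, true⟩
  | ⟨true, false, false, false⟩ => ⟨true, true, false, true⟩
  | ⟨false, true, false, false⟩ => ⟨false, false, false, true⟩
  | ⟨true, true, false, false⟩ => ⟨true, false, false, true⟩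
  | ⟨false, false, true, false⟩ => ⟨false, true, true, true⟩
  | ⟨true, false, true, false⟩ => ⟨true, true, true, true⟩
  | ⟨false, true, true, false⟩ => ⟨false, false, true, true⟩
  | ⟨true, true, true, false⟩ => ⟨true, false, true, true⟩
  | ⟨false, false, false, true⟩ => ⟨false, true, false, false⟩
  | ⟨true, false, false, true⟩ => ⟨true, true, false, false⟩
  | ⟨false, true, false, true⟩ => ⟨false, false, false, false⟩
  | ⟨true, true, false, true⟩ => ⟨true, false, false, false⟩
  | ⟨false, false, true, true⟩ => ⟨false, true, true, false⟩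
  | ⟨true, false, true, true⟩ => ⟨true, true, true, false⟩
  | ⟨false, true, true, true⟩ => ⟨false, false, true, false⟩
  | ⟨true, true, true, true⟩ => ⟨true, false, true, false⟩

def aR11 : K → K
  | ⟨false, false, false, false⟩ => ⟨true, true, false, true⟩
  | ⟨true, false, false, false⟩ => ⟨false, true, false, true⟩
  | ⟨false, true, false, false⟩ => ⟨true, false, false, true⟩
  | ⟨true, true, false, false⟩ => ⟨false, false, false, true⟩
  | ⟨false, false, true, false⟩ => ⟨true, true, true, true⟩
  | ⟨true, false, true, false⟩ => ⟨false, true, true, true⟩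
  | ⟨false, true, true, false⟩ => ⟨true, false, true, true⟩
  | ⟨true, true, true, false⟩ => ⟨false, false, true, true⟩
  | ⟨false, false, false, true⟩ => ⟨true, true, false, false⟩
  | ⟨true, false, false, true⟩ => ⟨false, true, false, false⟩
  | ⟨false, true, false, true⟩ => ⟨true, false, false, false⟩
  | ⟨true, true, false, true⟩ => ⟨false, false, false, false⟩
  | ⟨false, false, true, true⟩ => ⟨true, true, true, false⟩
  | ⟨true, false, true, true⟩ => ⟨false, true, true, false⟩
  | ⟨false, true, true, true⟩ => ⟨true, false, true, false⟩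
  | ⟨true, true, true, true⟩ => ⟨false, false, true, false⟩

def aR12 : K → K
  | ⟨false, false, false, false⟩ => ⟨false, false, true, true⟩
  | ⟨true, false, false, false⟩ => ⟨true, false, true, true⟩
  | ⟨false, true, false, false⟩ => ⟨false, true, true, true⟩
  | ⟨true, true, false, false⟩ => ⟨true, true, true, true⟩
  | ⟨false, false, true, false⟩ => ⟨false, false, false, true⟩
  | ⟨true, false, true, false⟩ => ⟨true, false, false, true⟩
  | ⟨false, true, true, false⟩ => ⟨false, true, false, true⟩
  | ⟨true, true, true, false⟩ => ⟨true, true, false, true⟩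
  | ⟨false, false, false, true⟩ => ⟨false, false, true, false⟩
  | ⟨true, false, false, true⟩ => ⟨true, false, true, false⟩
  | ⟨false, true, false, true⟩ => ⟨false, true, true, false⟩
  | ⟨true, true, false, true⟩ => ⟨true, true, true, false⟩
  | ⟨false, false, true, true⟩ => ⟨false, false, false, false⟩
  | ⟨true, false, true, true⟩ => ⟨true, false, false, false⟩
  | ⟨false, true, true, true⟩ => ⟨false, true, false, false⟩
  | ⟨true, true, true, true⟩ => ⟨true, true, false, false⟩

def aR13 : K → K
  | ⟨false, false, false, false⟩ => ⟨true, false, true, true⟩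
  | ⟨true, false, false, false⟩ => ⟨false, false, true, true⟩
  | ⟨false, true, false, false⟩ => ⟨true, true, true, true⟩
  | ⟨true, true, false, false⟩ => ⟨false, true, true, true⟩
  | ⟨false, false, true, false⟩ => ⟨true, false, false, true⟩
  | ⟨true, false, true, false⟩ => ⟨false, false, false, true⟩
  | ⟨false, true, true, false⟩ => ⟨true, true, false, true⟩
  | ⟨true, true, true, false⟩ => ⟨false, true, false, true⟩
  | ⟨false, false, false, true⟩ => ⟨true, false, true, false⟩
  | ⟨true, false, false, true⟩ => ⟨false, false, true, false⟩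
  | ⟨false, true, false, true⟩ => ⟨true, true, true, false⟩
  | ⟨true, true, false, true⟩ => ⟨false, true, true, false⟩
  | ⟨false, false, true, true⟩ => ⟨true, false, false, false⟩
  | ⟨true, false, true, true⟩ => ⟨false, false, false, false⟩
  | ⟨false, true, true, true⟩ => ⟨true, true, false, false⟩
  | ⟨true, true, true, true⟩ => ⟨false, true, false, false⟩

def aR14 : K → K
  | ⟨false, false, false, false⟩ => ⟨false, true, true, true⟩
  | ⟨true, false, false, false⟩ => ⟨true, true, true, true⟩
  | ⟨false, true, false, false⟩ => ⟨false, false, true, true⟩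
  | ⟨true, true, false, false⟩ => ⟨true, false, true, true⟩
  | ⟨false, false, true, false⟩ => ⟨false, true, false, true⟩
  | ⟨true, false, true, false⟩ => ⟨true, true, false, true⟩
  | ⟨false, true, true, false⟩ => ⟨false, false, false, true⟩
  | ⟨true, true, true, false⟩ => ⟨true, false, false, true⟩
  | ⟨false, false, false, true⟩ => ⟨false, true, true, false⟩
  | ⟨true, false, false, true⟩ => ⟨true, true, true, false⟩
  | ⟨false, true, false, true⟩ => ⟨false, false, true, false⟩
  | ⟨true, true, false, true⟩ => ⟨true, false, true, false⟩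
  | ⟨false, false, true, true⟩ => ⟨false, true, false, false⟩
  | ⟨true, false, true, true⟩ => ⟨true, true, false, false⟩
  | ⟨false, true, true, true⟩ => ⟨false, false, false, false⟩
  | ⟨true, true, true, true⟩ => ⟨true, false, false, false⟩

def aR15 : K → K
  | ⟨false, false, false, false⟩ => ⟨true, true, true, true⟩
  | ⟨true, false, false, false⟩ => ⟨false, true, true, true⟩
  | ⟨false, true, false, false⟩ => ⟨true, false, true, true⟩
  | ⟨true, true, false, false⟩ => ⟨false, false, true, true⟩
  | ⟨false, false, true, false⟩ => ⟨true, true, false, true⟩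
  | ⟨true, false, true, false⟩ => ⟨false, true, false, true⟩
  | ⟨false, true, true, false⟩ => ⟨true, false, false, true⟩
  | ⟨true, true, true, false⟩ => ⟨false, false, false, true⟩
  | ⟨false, false, false, true⟩ => ⟨true, true, true, false⟩
  | ⟨true, false, false, true⟩ => ⟨false, true, true, false⟩
  | ⟨false, true, false, true⟩ => ⟨true, false, true, false⟩
  | ⟨true, true, false, true⟩ => ⟨false, false, true, false⟩
  | ⟨false, false, true, true⟩ => ⟨true, true, false, false⟩
  | ⟨true, false, true, true⟩ => ⟨false, true, false, false⟩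
  | ⟨false, true, true, true⟩ => ⟨true, false, false, false⟩
  | ⟨true, true, true, true⟩ => ⟨false, false, false, false⟩

/-- addition by table -/
def addQ : K → K → K
  | ⟨false, false, false, false⟩ => aR0
  | ⟨true, false, false, false⟩ => aR1
  | ⟨false, true, false, false⟩ => aR2
  | ⟨true, true, false, false⟩ => aR3
  | ⟨false, false, true, false⟩ => aR4
  | ⟨true, false, true, false⟩ => aR5
  | ⟨false, true, true, false⟩ => aR6
  | ⟨true, true, true, false⟩ => aR7
  | ⟨false, false, false, true⟩ => aR8
  | ⟨true, false, false, true⟩ => aR9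
  | ⟨false, true, false, true⟩ => aR10
  | ⟨true, true, false, true⟩ => aR11
  | ⟨false, false, true, true⟩ => aR12
  | ⟨true, false, true, true⟩ => aR13
  | ⟨false, true, true, true⟩ => aR14
  | ⟨true, true, true, true⟩ => aR15

/-- fourth power by table -/
def p4Q : K → K
  | ⟨false, false, false, false⟩ => ⟨false, false, false, false⟩
  | ⟨true, false, false, false⟩ => ⟨true, false, false, false⟩
  | ⟨false, true, false, false⟩ => ⟨true, true, false, false⟩
  | ⟨true, true, false, false⟩ => ⟨false, true, false, false⟩
  | ⟨false, false, true, false⟩ => ⟨true, false, true, false⟩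
  | ⟨true, false, true, false⟩ => ⟨false, false, true, false⟩
  | ⟨false, true, true, false⟩ => ⟨false, true, true, false⟩
  | ⟨true, true, true, false⟩ => ⟨true, true, true, false⟩
  | ⟨false, false, false, true⟩ => ⟨true, true, true, true⟩
  | ⟨true, false, false, true⟩ => ⟨false, true, true, true⟩
  | ⟨false, true, false, true⟩ => ⟨false, false, true, true⟩
  | ⟨true, true, false, true⟩ => ⟨true, false, true, true⟩
  | ⟨false, false, true, true⟩ => ⟨false, true, false, true⟩
  | ⟨true, false, true, true⟩ => ⟨true, true, false, true⟩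
  | ⟨false, true, true, true⟩ => ⟨true, false, false, true⟩
  | ⟨true, true, true, true⟩ => ⟨false, false, false, true⟩

/-- fifth power by table -/
def p5Q : K → K
  | ⟨false, false, false, false⟩ => ⟨false, false, false, false⟩
  | ⟨true, false, false, false⟩ => ⟨true, false, false, false⟩
  | ⟨false, true, false, false⟩ => ⟨false, true, true, false⟩
  | ⟨true, true, false, false⟩ => ⟨false, true, true, false⟩
  | ⟨false, false, true, false⟩ => ⟨true, true, true, false⟩
  | ⟨true, false, true, false⟩ => ⟨true, true, true, false⟩
  | ⟨false, true, true, false⟩ => ⟨true, true, true, false⟩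
  | ⟨true, true, true, false⟩ => ⟨false, true, true, false⟩
  | ⟨false, false, false, true⟩ => ⟨true, false, false, false⟩
  | ⟨true, false, false, true⟩ => ⟨true, true, true, false⟩
  | ⟨false, true, false, true⟩ => ⟨true, false, false, false⟩
  | ⟨true, true, false, true⟩ => ⟨false, true, true, false⟩
  | ⟨false, false, true, true⟩ => ⟨true, false, false, false⟩
  | ⟨true, false, true, true⟩ => ⟨false, true, true, false⟩
  | ⟨false, true, true, true⟩ => ⟨true, true, true, false⟩
  | ⟨true, true, true, true⟩ => ⟨true, false, false, false⟩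

/-- the discrete logarithm to the base `ζ`, modulo 5 (`0 ↦ 0`) -/
def LLn : K → ℕ
  | ⟨false, false, false, false⟩ => 0
  | ⟨true, false, false, false⟩ => 0
  | ⟨false, true, false, false⟩ => 1
  | ⟨true, true, false, false⟩ => 4
  | ⟨false, false, true, false⟩ => 2
  | ⟨true, false, true, false⟩ => 3
  | ⟨false, true, true, false⟩ => 0
  | ⟨true, true, true, false⟩ => 0
  | ⟨false, false, false, true⟩ => 3
  | ⟨true, false, false, true⟩ => 4
  | ⟨false, true, false, true⟩ => 4
  | ⟨true, true, false, true⟩ => 2
  | ⟨false, false, true, true⟩ => 1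
  | ⟨true, false, true, true⟩ => 3
  | ⟨false, true, true, true⟩ => 1
  | ⟨true, true, true, true⟩ => 2

/-- non-zero test -/
def nzb (x : K) : Bool := x.c0 || x.c1 || x.c2 || x.c3

/-- equality test -/
def eqb (x y : K) : Bool := (x.c0 == y.c0) && (x.c1 == y.c1) && (x.c2 == y.c2) && (x.c3 == y.c3)

/-- the difference of logarithms as a natural number, `0` if one argument vanishes -/
def FFn (x y : K) : ℕ := bif nzb x && nzb y then LLn x + 5 - LLn y else 0

/-- the constant `1` -/
def oneQ : K := ⟨true, false, false, false⟩
/-- the constant `kk 6` -/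
def k6Q : K := ⟨false, true, true, false⟩
/-- the constant `kk 7` -/
def k7Q : K := ⟨true, true, true, false⟩

/-- the sum over a line, as a natural number -/
def SSn (α β α' β' : K) : ℕ :=
  FFn α α' + (FFn β β' + FFn (addQ β α) (addQ β' α') +
    FFn (addQ β (mulQ k6Q α)) (addQ β' (mulQ k6Q α')) +
    FFn (addQ β (mulQ k7Q α)) (addQ β' (mulQ k7Q α')))

/-- the check: the Gram constraint implies that the line sum vanishes modulo 5 -/
def chk (α β α' β' : K) : Bool :=
  !(eqb (p5Q (addQ (addQ oneQ (mulQ α' (p4Q β))) (mulQ (p4Q α) β')))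
      (mulQ (addQ (mulQ α (p4Q β)) (mulQ (p4Q α) β))
        (p4Q (addQ (mulQ α' (p4Q β')) (mulQ (p4Q α') β'))))) ||
  Nat.beq (SSn α β α' β' % 5) 0

/-- all elements of `K` -/
def allK : List K :=
  [⟨false, false, false, false⟩, ⟨true, false, false, false⟩, ⟨false, true, false, false⟩,
   ⟨true, true, false, false⟩, ⟨false, false, true, false⟩, ⟨true, false, true, false⟩,
   ⟨false, true, true, false⟩, ⟨true, true, true, false⟩, ⟨false, false, false, true⟩,
   ⟨true, false, false, true⟩, ⟨false, true, false, true⟩, ⟨true, true, false, true⟩,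
   ⟨false, false, true, true⟩, ⟨true, false, true, true⟩, ⟨false, true, true, true⟩,
   ⟨true, true, true, true⟩]

theorem mem_allK : ∀ x : K, x ∈ allK := by decide

set_option maxRecDepth 100000 in
theorem chk_all : (allK.all fun α => allK.all fun β => allK.all fun α' => allK.all fun β' =>
    chk α β α' β') = true := by decide +kernel

theorem chk_true (α β α' β' : K) : chk α β α' β' = true := by
  have h := chk_all
  rw [List.all_eq_true] at h
  have h1 := h α (mem_allK α)
  rw [List.all_eq_true] at h1
  have h2 := h1 β (mem_allK β)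
  rw [List.all_eq_true] at h2
  have h3 := h2 α' (mem_allK α')
  rw [List.all_eq_true] at h3
  exact h3 β' (mem_allK β')

/-! ## Correctness of the tables -/

theorem mulE : ∀ x y : K, x * y = mulQ x y := by decide +kernel

theorem addE : ∀ x y : K, x + y = addQ x y := by decide +kernel

theorem p4E : ∀ x : K, x ^ 4 = p4Q x := by decide +kernel

theorem p5E : ∀ x : K, x ^ 5 = p5Q x := by decide +kernel

theorem oneE : (1 : K) = oneQ := rfl

theorem k6E : kk 6 = k6Q := by decide

theorem k7E : kk 7 = k7Q := by decide

theorem eqb_self : ∀ x : K, eqb x x = true := by decide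

theorem nzb_iff : ∀ x : K, nzb x = true ↔ x ≠ 0 := by decide

/-- the difference of logarithms, `0` if one argument vanishes -/
def FF (x y : K) : ZMod 5 := ((FFn x y : ℕ) : ZMod 5)

theorem FFn_smul : ∀ c x y : K, nzb c = true →
    FFn (mulQ c x) (mulQ c y) % 5 = FFn x y % 5 := by decide +kernel

theorem FF_smul (c x y : K) (hc : c ≠ 0) : FF (c * x) (c * y) = FF x y := by
  unfold FF
  rw [mulE, mulE, ZMod.natCast_eq_natCast_iff']
  exact FFn_smul c x y ((nzb_iff c).2 hc)

/-- the check over the scalars -/
theorem key (α β α' β' : K)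
    (h : (1 + α' * β ^ 4 + α ^ 4 * β') ^ 5 =
      (α * β ^ 4 + α ^ 4 * β) * (α' * β' ^ 4 + α' ^ 4 * β') ^ 4) :
    FF α α' + (FF β β' + FF (β + α) (β' + α') + FF (β + kk 6 * α) (β' + kk 6 * α') +
      FF (β + kk 7 * α) (β' + kk 7 * α')) = 0 := by
  have hc := chk_true α β α' β'
  simp only [p4E, p5E, mulE, addE, oneE] at h
  unfold chk at hc
  rw [h, eqb_self] at hc
  simp only [Bool.not_true, Bool.false_or] at hc
  have hS : SSn α β α' β' % 5 = 0 := Nat.eq_of_beq_eq_true hc
  have hz : ((SSn α β α' β' : ℕ) : ZMod 5) = 0 :=
    (ZMod.natCast_eq_zero_iff _ _).2 (Nat.dvd_of_mod_eq_zero hS)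
  unfold SSn at hz
  simp only [FF, k6E, k7E, mulE, addE]
  exact_mod_cast hz

/-! ## The Hermitian form -/

theorem pow4_add : ∀ x y : K, (x + y) ^ 4 = x ^ 4 + y ^ 4 := by decide +kernel

theorem pow16 : ∀ x : K, (x ^ 4) ^ 4 = x := by decide +kernel

theorem hh_def (x y : E) : hh x y = x 0 * y 0 ^ 4 + x 1 * y 1 ^ 4 + x 2 * y 2 ^ 4 := by
  show Cfsg.hermForm 3 K 4 x y = _
  unfold Cfsg.hermForm
  rw [Fin.sum_univ_three]

theorem hh_add_left (x y z : E) : hh (x + y) z = hh x z + hh y z := by
  rw [hh_def, hh_def x z, hh_def y z]
  simp only [Pi.add_apply]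
  ring

theorem hh_smul_left (c : K) (x z : E) : hh (c • x) z = c * hh x z := by
  rw [hh_def, hh_def x z]
  simp only [Pi.smul_apply, smul_eq_mul]
  ring

theorem hh_symm (x y : E) : hh y x = hh x y ^ 4 := by
  rw [hh_def y x, hh_def x y, pow4_add, pow4_add, mul_pow, mul_pow, mul_pow, pow16, pow16, pow16]
  ring

theorem hh_add_right (z x y : E) : hh z (x + y) = hh z x + hh z y := by
  rw [hh_def, hh_def z x, hh_def z y]
  simp only [Pi.add_apply, pow4_add]
  ring

theorem hh_smul_right (c : K) (z x : E) : hh z (c • x) = c ^ 4 * hh z x := by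
  rw [hh_def, hh_def z x]
  simp only [Pi.smul_apply, smul_eq_mul, mul_pow]
  ring

/-- the ring endomorphism `x ↦ x ^ 4` -/
def sig : K →+* K where
  toFun x := x ^ 4
  map_one' := one_pow 4
  map_mul' x y := mul_pow x y 4
  map_zero' := zero_pow (by norm_num)
  map_add' := pow4_add

theorem sig_apply (x : K) : sig x = x ^ 4 := rfl

theorem gram_det (M N : Matrix (Fin 3) (Fin 3) K) :
    det (Matrix.of fun i j => hh (M i) (N j)) = det M * det N ^ 4 := by
  have h1 : (Matrix.of fun i j => hh (M i) (N j)) = M * (sig.mapMatrix N)ᵀ := by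
    ext i j
    rw [Matrix.mul_apply, Matrix.of_apply, hh_def, Fin.sum_univ_three]
    rfl
  rw [h1, det_mul, det_transpose, ← RingHom.map_det, sig_apply]

theorem gram3 (x1 x2 x3 y1 y2 y3 : E) :
    det !![hh x1 y1, hh x1 y2, hh x1 y3; hh x2 y1, hh x2 y2, hh x2 y3;
      hh x3 y1, hh x3 y2, hh x3 y3] =
    det (Matrix.of ![x1, x2, x3]) * det (Matrix.of ![y1, y2, y3]) ^ 4 := by
  rw [← gram_det]
  congr 1
  ext i j
  fin_cases i <;> fin_cases j <;> rfl

theorem det3_of (a b c d e f g h i : K) :
    det !![a, b, c; d, e, f; g, h, i] =
      a * e * i - a * f * h - b * d * i + b * f * g + c * d * h - c * e * g := by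
  rw [det_fin_three]
  rfl

/-- the Gram determinant identity for a hyperbolic pair `u, v` and a hyperbolic pair `a, b` -/
theorem gram_constraint (u v a b : E) (huu : hh u u = 0) (hvv : hh v v = 0) (huv : hh u v = 1)
    (haa : hh a a = 0) (hbb : hh b b = 0) (hab : hh a b = 1) :
    (1 + hh u b * hh v a ^ 4 + hh u a ^ 4 * hh v b) ^ 5 =
      (hh u a * hh v a ^ 4 + hh u a ^ 4 * hh v a) *
        (hh u b * hh v b ^ 4 + hh u b ^ 4 * hh v b) ^ 4 := by
  have hvu : hh v u = 1 := by rw [hh_symm u v, huv, one_pow]
  have hau : hh a u = hh u a ^ 4 := hh_symm u a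
  have hav : hh a v = hh v a ^ 4 := hh_symm v a
  have hbu : hh b u = hh u b ^ 4 := hh_symm u b
  have hbv : hh b v = hh v b ^ 4 := hh_symm v b
  have h2 : (2 : K) = 0 := by decide
  have g1 := gram3 u v a u v b
  have g2 := gram3 u v a u v a
  have g3 := gram3 u v b u v b
  rw [det3_of, huu, huv, hvu, hvv, hau, hav, hab] at g1
  rw [det3_of, huu, huv, hvu, hvv, hau, hav, haa] at g2
  rw [det3_of, huu, huv, hvu, hvv, hbu, hbv, hbb] at g3
  generalize det (Matrix.of ![u, v, a]) = dM at g1 g2
  generalize det (Matrix.of ![u, v, b]) = dN at g1 g3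
  have e1 : 1 + hh u b * hh v a ^ 4 + hh u a ^ 4 * hh v b = dM * dN ^ 4 := by
    linear_combination g1 + h2
  have e2 : hh u a * hh v a ^ 4 + hh u a ^ 4 * hh v a = dM * dM ^ 4 := by
    linear_combination g2
  have e3 : hh u b * hh v b ^ 4 + hh u b ^ 4 * hh v b = dN * dN ^ 4 := by
    linear_combination g3
  rw [e1, e2, e3]
  ring

/-! ## The function -/

/-- the first base point -/
def aa : E := ![kk 0, kk 1, kk 1]

/-- the second base point -/
def bb : E := ![kk 0, kk 2, kk 3]

theorem hh_aa : hh aa aa = 0 := by
  rw [hh_def]; decide +kernel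

theorem hh_bb : hh bb bb = 0 := by
  rw [hh_def]; decide +kernel

theorem hh_ab : hh aa bb = 1 := by
  rw [hh_def]; decide +kernel

/-- the function: the difference of the logarithms of `hh x a` and `hh x b` -/
def ff (x : E) : ZMod 5 := if IsoV x then FF (hh x aa) (hh x bb) else 0

theorem isoV_smul (c : K) (v : E) (hc : c ≠ 0) : IsoV (c • v) ↔ IsoV v := by
  have hc4 : c ^ 4 ≠ 0 := pow_ne_zero 4 hc
  unfold IsoV
  rw [hh_smul_left, hh_smul_right]
  constructor
  · rintro ⟨h1, h2⟩
    refine ⟨fun h => h1 (by rw [h, smul_zero]), ?_⟩
    rcases mul_eq_zero.1 h2 with h | h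
    · exact absurd h hc
    · rcases mul_eq_zero.1 h with h' | h'
      · exact absurd h' hc4
      · exact h'
  · rintro ⟨h1, h2⟩
    exact ⟨smul_ne_zero hc h1, by rw [h2, mul_zero, mul_zero]⟩

theorem ff_smul (c : K) (v : E) (hc : c ≠ 0) : ff (c • v) = ff v := by
  unfold ff
  by_cases hv : IsoV v
  · rw [if_pos hv, if_pos ((isoV_smul c v hc).2 hv), hh_smul_left, hh_smul_left,
      FF_smul _ _ _ hc]
  · rw [if_neg hv, if_neg (fun h => hv ((isoV_smul c v hc).1 h))]

theorem sum_F4s (g : K → ZMod 5) :
    ∑ t ∈ F4s, g t = g 0 + (g 1 + (g (kk 6) + g (kk 7))) := by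
  have h : F4s = {0, 1, kk 6, kk 7} := by decide +kernel
  rw [h, Finset.sum_insert (by decide), Finset.sum_insert (by decide),
    Finset.sum_insert (by decide), Finset.sum_singleton]

theorem F4s_mem (t : K) (ht : t ∈ F4s) : t ^ 4 = t := by
  unfold F4s at ht
  exact (Finset.mem_filter.1 ht).2

theorem ff_isW : IsW ff := by
  refine ⟨fun v hv => if_neg hv, fun c v hc => ff_smul c v hc, fun u v hu hv huv => ?_⟩
  have hvu : hh v u = 1 := by rw [hh_symm u v, huv, one_pow]
  have h2 : ∀ x : K, x + x = 0 := by decide
  have hpt : ∀ t : K, t ^ 4 = t → IsoV (v + t • u) := by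
    intro t ht
    constructor
    · intro h0
      have h3 : hh (v + t • u) u = 0 := by
        rw [h0, hh_def]
        simp
      rw [hh_add_left, hh_smul_left, hvu, hu.2, mul_zero, add_zero] at h3
      exact one_ne_zero h3
    · simp only [hh_add_left, hh_add_right, hh_smul_left, hh_smul_right, hv.2, hvu, huv, hu.2, ht]
      linear_combination h2 t
  have hfu : ff u = FF (hh u aa) (hh u bb) := if_pos hu
  have hft : ∀ t : K, t ^ 4 = t →
      ff (v + t • u) = FF (hh v aa + t * hh u aa) (hh v bb + t * hh u bb) := by
    intro t ht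
    unfold ff
    rw [if_pos (hpt t ht), hh_add_left, hh_add_left, hh_smul_left, hh_smul_left]
  have hsum : ∑ t ∈ F4s, ff (v + t • u) =
      ∑ t ∈ F4s, FF (hh v aa + t * hh u aa) (hh v bb + t * hh u bb) :=
    Finset.sum_congr rfl (fun t ht => hft t (F4s_mem t ht))
  rw [hfu, hsum, sum_F4s]
  have hk := key (hh u aa) (hh v aa) (hh u bb) (hh v bb)
    (gram_constraint u v aa bb hu.2 hv.2 huv hh_aa hh_bb hh_ab)
  rw [zero_mul, zero_mul, add_zero, add_zero, one_mul, one_mul]
  linear_combination hk

/-- PG-NZ: a non-constant function of `IsW`. -/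
theorem nz : StNz := by
  have h1 : IsoV aa := ⟨by decide +kernel, hh_aa⟩
  have h2 : IsoV ![kk 1, kk 0, kk 1] := ⟨by decide +kernel, by rw [hh_def]; decide +kernel⟩
  refine ⟨ff, ff_isW, aa, ![kk 1, kk 0, kk 1], h1, h2, ?_⟩
  unfold ff
  rw [if_pos h1, if_pos h2, hh_aa, hh_ab]
  have e1 : hh ![kk 1, kk 0, kk 1] aa = 1 := by rw [hh_def]; decide +kernel
  have e2 : hh ![kk 1, kk 0, kk 1] bb = kk 2 := by rw [hh_def]; decide +kernel
  rw [e1, e2]
  decide +kernel

example : StNz := nz

end Cfsg.Agent.H85.PG
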